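import Mathlib

set_option autoImplicit false

/-! Helper definitions (helper45): unitary groups in hyperbolic block coordinates
`m ⊕ (m ⊕ d)` for the form `x·ȳ' + y·x̄' + z·z̄'`. -/

namespace Cfsg.Agent.H45.U

open Matrix

variable {F : Type*} [Field F]

/-- Conjugate transpose with respect to a ring endomorphism `σ`. -/
def ct (σ : F →+* F) {m n : Type*} (M : Matrix m n F) : Matrix n m F := (M.map σ)ᵀ

section ctlemmas

variable (σ : F →+* F) {l m n : Type*}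

theorem ct_apply (M : Matrix m n F) (i : n) (j : m) : ct σ M i j = σ (M j i) := rfl

theorem ct_add (M N : Matrix m n F) : ct σ (M + N) = ct σ M + ct σ N := by
  ext i j; simp [ct_apply]

theorem ct_sub (M N : Matrix m n F) : ct σ (M - N) = ct σ M - ct σ N := by
  ext i j; simp [ct_apply]

theorem ct_neg (M : Matrix m n F) : ct σ (-M) = -ct σ M := by
  ext i j; simp [ct_apply]

theorem ct_zero : ct σ (0 : Matrix m n F) = 0 := by
  ext i j; simp [ct_apply]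

theorem ct_smul (a : F) (M : Matrix m n F) : ct σ (a • M) = σ a • ct σ M := by
  ext i j; simp [ct_apply]

theorem ct_mul [Fintype m] (M : Matrix l m F) (N : Matrix m n F) :
    ct σ (M * N) = ct σ N * ct σ M := by
  ext i j
  simp only [ct_apply, Matrix.mul_apply, map_sum, map_mul]
  exact Finset.sum_congr rfl (fun k _ => mul_comm _ _)

theorem ct_one [DecidableEq m] : ct σ (1 : Matrix m m F) = 1 := by
  ext i j
  rw [ct_apply, Matrix.one_apply, Matrix.one_apply]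
  by_cases h : i = j
  · subst h; simp
  · rw [if_neg h, if_neg (fun h' => h h'.symm), map_zero]

theorem ct_ct (hσ : ∀ a, σ (σ a) = a) (M : Matrix m n F) : ct σ (ct σ M) = M := by
  ext i j; simp [ct_apply, hσ]

theorem ct_pow [Fintype m] [DecidableEq m] (M : Matrix m m F) (k : ℕ) :
    ct σ (M ^ k) = ct σ M ^ k := by
  induction k with
  | zero => simp [ct_one]
  | succ k ih => rw [pow_succ, ct_mul, ih, pow_succ']

theorem det_ct [Fintype m] [DecidableEq m] (M : Matrix m m F) : (ct σ M).det = σ M.det := by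
  unfold ct
  rw [Matrix.det_transpose]
  exact (RingHom.map_det σ M).symm

theorem ct_mulVec [Fintype m] (M : Matrix m n F) (v : m → F) :
    ct σ M *ᵥ v = fun j => ∑ i, σ (M i j) * v i := rfl

end ctlemmas

variable {m d : Type*} [Fintype m] [DecidableEq m] [Fintype d] [DecidableEq d]

/-- `3 × 3` block matrices on `m ⊕ (m ⊕ d)`. -/
def blk3 (A₁₁ A₁₂ : Matrix m m F) (A₁₃ : Matrix m d F) (A₂₁ A₂₂ : Matrix m m F)
    (A₂₃ : Matrix m d F) (A₃₁ A₃₂ : Matrix d m F) (A₃₃ : Matrix d d F) :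
    Matrix (m ⊕ (m ⊕ d)) (m ⊕ (m ⊕ d)) F :=
  fromBlocks A₁₁ (fromCols A₁₂ A₁₃) (fromRows A₂₁ A₃₁) (fromBlocks A₂₂ A₂₃ A₃₂ A₃₃)

/-- Vectors in block coordinates. -/
def tri (x y : m → F) (z : d → F) : m ⊕ (m ⊕ d) → F := Sum.elim x (Sum.elim y z)

/-- The Hermitian form `x·ȳ' + y·x̄' + z·z̄'`. -/
def hH (σ : F →+* F) (u v : m ⊕ (m ⊕ d) → F) : F :=
  (∑ i, u (Sum.inl i) * σ (v (Sum.inr (Sum.inl i)))) +
    (∑ i, u (Sum.inr (Sum.inl i)) * σ (v (Sum.inl i))) +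
    ∑ l, u (Sum.inr (Sum.inr l)) * σ (v (Sum.inr (Sum.inr l)))

/-- The Gram matrix of `hH`. -/
def Hm : Matrix (m ⊕ (m ⊕ d)) (m ⊕ (m ⊕ d)) F := blk3 0 1 0 1 0 0 0 0 1

/-- The special unitary group of `hH`. -/
def UH (σ : F →+* F) (m d : Type*) [Fintype m] [DecidableEq m] [Fintype d] [DecidableEq d] :
    Subgroup (Matrix.SpecialLinearGroup (m ⊕ (m ⊕ d)) F) where
  carrier := {M | ∀ u v, hH σ (M.1 *ᵥ u) (M.1 *ᵥ v) = hH σ u v}
  mul_mem' := by
    intro M N hM hN u v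
    show hH σ ((M * N).1 *ᵥ u) ((M * N).1 *ᵥ v) = hH σ u v
    rw [Matrix.SpecialLinearGroup.coe_mul, ← Matrix.mulVec_mulVec, ← Matrix.mulVec_mulVec, hM, hN]
  one_mem' := by
    intro u v
    show hH σ ((1 : Matrix.SpecialLinearGroup (m ⊕ (m ⊕ d)) F).1 *ᵥ u) _ = _
    simp
  inv_mem' := by
    intro M hM u v
    show hH σ ((M⁻¹).1 *ᵥ u) ((M⁻¹).1 *ᵥ v) = hH σ u v
    have h := hM ((M⁻¹).1 *ᵥ u) ((M⁻¹).1 *ᵥ v)
    have e : M.1 * (M⁻¹).1 = 1 := by
      rw [← Matrix.SpecialLinearGroup.coe_mul, mul_inv_cancel, Matrix.SpecialLinearGroup.coe_one]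
    rw [Matrix.mulVec_mulVec, Matrix.mulVec_mulVec, e, Matrix.one_mulVec, Matrix.one_mulVec] at h
    exact h.symm

/-- Upper unipotent radical element `(x, y, z) ↦ (x + S y + c z, y, z - c* y)`. -/
def eU (σ : F →+* F) (c : Matrix m d F) (S : Matrix m m F) :
    Matrix (m ⊕ (m ⊕ d)) (m ⊕ (m ⊕ d)) F :=
  blk3 1 S c 0 1 0 0 (-(ct σ c)) 1

/-- Lower unipotent radical element `(x, y, z) ↦ (x, y + S x + c z, z - c* x)`. -/
def eL (σ : F →+* F) (c : Matrix m d F) (S : Matrix m m F) :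
    Matrix (m ⊕ (m ⊕ d)) (m ⊕ (m ⊕ d)) F :=
  blk3 1 0 0 S 1 c (-(ct σ c)) 0 1

/-- Levi element `diag(A, A^{-*}, t)` (with `A' = A⁻¹`). -/
def dU (σ : F →+* F) (A A' : Matrix m m F) (t : Matrix d d F) :
    Matrix (m ⊕ (m ⊕ d)) (m ⊕ (m ⊕ d)) F :=
  blk3 A 0 0 0 (ct σ A') 0 0 0 t

/-- Weyl-type element `(x, y, z) ↦ (G^{-*} y, G x, ν z)` (with `G' = G⁻¹`). -/
def nU (σ : F →+* F) (G G' : Matrix m m F) (ν : Matrix d d F) :
    Matrix (m ⊕ (m ⊕ d)) (m ⊕ (m ⊕ d)) F :=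
  blk3 0 (ct σ G') 0 G 0 0 0 0 ν

/-- The subgroup `K` contains the upper unipotent radical. -/
def Qin (σ : F →+* F) (K : Subgroup (UH σ m d)) : Prop :=
  ∀ (g : UH σ m d) (c : Matrix m d F) (S : Matrix m m F),
    S + ct σ S + c * ct σ c = 0 → g.1.1 = eU σ c S → g ∈ K

/-- The subgroup `K` contains the lower unipotent radical. -/
def Qlow (σ : F →+* F) (K : Subgroup (UH σ m d)) : Prop :=
  ∀ (g : UH σ m d) (c : Matrix m d F) (S : Matrix m m F),
    S + ct σ S + c * ct σ c = 0 → g.1.1 = eL σ c S → g ∈ K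

end Cfsg.Agent.H45.U
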