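import Mathlib
import Cfsg.Agent.H45.UDefs

set_option autoImplicit false
set_option linter.unusedSectionVars false
set_option linter.unusedSimpArgs false

/-! Helper lemmas (helper45): block computations for unitary groups in hyperbolic coordinates. -/

namespace Cfsg.Agent.H45.U

open Matrix

variable {F : Type*} [Field F]
variable {m d : Type*} [Fintype m] [DecidableEq m] [Fintype d] [DecidableEq d]

section apply

variable (A₁₁ A₁₂ : Matrix m m F) (A₁₃ : Matrix m d F) (A₂₁ A₂₂ : Matrix m m F)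
    (A₂₃ : Matrix m d F) (A₃₁ A₃₂ : Matrix d m F) (A₃₃ : Matrix d d F)

@[simp] theorem blk3_apply₁₁ (i j : m) :
    blk3 A₁₁ A₁₂ A₁₃ A₂₁ A₂₂ A₂₃ A₃₁ A₃₂ A₃₃ (Sum.inl i) (Sum.inl j) = A₁₁ i j := rfl
@[simp] theorem blk3_apply₁₂ (i j : m) :
    blk3 A₁₁ A₁₂ A₁₃ A₂₁ A₂₂ A₂₃ A₃₁ A₃₂ A₃₃ (Sum.inl i) (Sum.inr (Sum.inl j)) = A₁₂ i j := rfl
@[simp] theorem blk3_apply₁₃ (i : m) (j : d) :
    blk3 A₁₁ A₁₂ A₁₃ A₂₁ A₂₂ A₂₃ A₃₁ A₃₂ A₃₃ (Sum.inl i) (Sum.inr (Sum.inr j)) = A₁₃ i j := rfl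
@[simp] theorem blk3_apply₂₁ (i j : m) :
    blk3 A₁₁ A₁₂ A₁₃ A₂₁ A₂₂ A₂₃ A₃₁ A₃₂ A₃₃ (Sum.inr (Sum.inl i)) (Sum.inl j) = A₂₁ i j := rfl
@[simp] theorem blk3_apply₂₂ (i j : m) :
    blk3 A₁₁ A₁₂ A₁₃ A₂₁ A₂₂ A₂₃ A₃₁ A₃₂ A₃₃ (Sum.inr (Sum.inl i)) (Sum.inr (Sum.inl j)) =
      A₂₂ i j := rfl
@[simp] theorem blk3_apply₂₃ (i : m) (j : d) :
    blk3 A₁₁ A₁₂ A₁₃ A₂₁ A₂₂ A₂₃ A₃₁ A₃₂ A₃₃ (Sum.inr (Sum.inl i)) (Sum.inr (Sum.inr j)) =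
      A₂₃ i j := rfl
@[simp] theorem blk3_apply₃₁ (i : d) (j : m) :
    blk3 A₁₁ A₁₂ A₁₃ A₂₁ A₂₂ A₂₃ A₃₁ A₃₂ A₃₃ (Sum.inr (Sum.inr i)) (Sum.inl j) = A₃₁ i j := rfl
@[simp] theorem blk3_apply₃₂ (i : d) (j : m) :
    blk3 A₁₁ A₁₂ A₁₃ A₂₁ A₂₂ A₂₃ A₃₁ A₃₂ A₃₃ (Sum.inr (Sum.inr i)) (Sum.inr (Sum.inl j)) =
      A₃₂ i j := rfl
@[simp] theorem blk3_apply₃₃ (i j : d) :
    blk3 A₁₁ A₁₂ A₁₃ A₂₁ A₂₂ A₂₃ A₃₁ A₃₂ A₃₃ (Sum.inr (Sum.inr i)) (Sum.inr (Sum.inr j)) =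
      A₃₃ i j := rfl

end apply

theorem blk3_mul (A₁₁ A₁₂ : Matrix m m F) (A₁₃ : Matrix m d F) (A₂₁ A₂₂ : Matrix m m F)
    (A₂₃ : Matrix m d F) (A₃₁ A₃₂ : Matrix d m F) (A₃₃ : Matrix d d F)
    (B₁₁ B₁₂ : Matrix m m F) (B₁₃ : Matrix m d F) (B₂₁ B₂₂ : Matrix m m F)
    (B₂₃ : Matrix m d F) (B₃₁ B₃₂ : Matrix d m F) (B₃₃ : Matrix d d F) :
    blk3 A₁₁ A₁₂ A₁₃ A₂₁ A₂₂ A₂₃ A₃₁ A₃₂ A₃₃ * blk3 B₁₁ B₁₂ B₁₃ B₂₁ B₂₂ B₂₃ B₃₁ B₃₂ B₃₃ =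
      blk3 (A₁₁ * B₁₁ + A₁₂ * B₂₁ + A₁₃ * B₃₁) (A₁₁ * B₁₂ + A₁₂ * B₂₂ + A₁₃ * B₃₂)
        (A₁₁ * B₁₃ + A₁₂ * B₂₃ + A₁₃ * B₃₃)
        (A₂₁ * B₁₁ + A₂₂ * B₂₁ + A₂₃ * B₃₁) (A₂₁ * B₁₂ + A₂₂ * B₂₂ + A₂₃ * B₃₂)
        (A₂₁ * B₁₃ + A₂₂ * B₂₃ + A₂₃ * B₃₃)
        (A₃₁ * B₁₁ + A₃₂ * B₂₁ + A₃₃ * B₃₁) (A₃₁ * B₁₂ + A₃₂ * B₂₂ + A₃₃ * B₃₂)
        (A₃₁ * B₁₃ + A₃₂ * B₂₃ + A₃₃ * B₃₃) := by
  ext (i | i | i) (j | j | j) <;>
    simp [Matrix.mul_apply, Fintype.sum_sum_type, Matrix.add_apply, add_assoc]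

theorem blk3_mulVec (A₁₁ A₁₂ : Matrix m m F) (A₁₃ : Matrix m d F) (A₂₁ A₂₂ : Matrix m m F)
    (A₂₃ : Matrix m d F) (A₃₁ A₃₂ : Matrix d m F) (A₃₃ : Matrix d d F)
    (x y : m → F) (z : d → F) :
    blk3 A₁₁ A₁₂ A₁₃ A₂₁ A₂₂ A₂₃ A₃₁ A₃₂ A₃₃ *ᵥ tri x y z =
      tri (A₁₁ *ᵥ x + A₁₂ *ᵥ y + A₁₃ *ᵥ z) (A₂₁ *ᵥ x + A₂₂ *ᵥ y + A₂₃ *ᵥ z)
        (A₃₁ *ᵥ x + A₃₂ *ᵥ y + A₃₃ *ᵥ z) := by
  ext (i | i | i) <;>
    simp [Matrix.mulVec, dotProduct, Fintype.sum_sum_type, tri, add_assoc]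

theorem blk3_one : (1 : Matrix (m ⊕ (m ⊕ d)) (m ⊕ (m ⊕ d)) F) = blk3 1 0 0 0 1 0 0 0 1 := by
  ext (i | i | i) (j | j | j) <;> simp [Matrix.one_apply]

theorem ct_blk3 (σ : F →+* F) (A₁₁ A₁₂ : Matrix m m F) (A₁₃ : Matrix m d F)
    (A₂₁ A₂₂ : Matrix m m F) (A₂₃ : Matrix m d F) (A₃₁ A₃₂ : Matrix d m F) (A₃₃ : Matrix d d F) :
    ct σ (blk3 A₁₁ A₁₂ A₁₃ A₂₁ A₂₂ A₂₃ A₃₁ A₃₂ A₃₃) =
      blk3 (ct σ A₁₁) (ct σ A₂₁) (ct σ A₃₁) (ct σ A₁₂) (ct σ A₂₂) (ct σ A₃₂)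
        (ct σ A₁₃) (ct σ A₂₃) (ct σ A₃₃) := by
  ext (i | i | i) (j | j | j) <;> simp [ct_apply]

theorem blk3_inj {A₁₁ A₁₂ : Matrix m m F} {A₁₃ : Matrix m d F} {A₂₁ A₂₂ : Matrix m m F}
    {A₂₃ : Matrix m d F} {A₃₁ A₃₂ : Matrix d m F} {A₃₃ : Matrix d d F}
    {B₁₁ B₁₂ : Matrix m m F} {B₁₃ : Matrix m d F} {B₂₁ B₂₂ : Matrix m m F}
    {B₂₃ : Matrix m d F} {B₃₁ B₃₂ : Matrix d m F} {B₃₃ : Matrix d d F}
    (h : blk3 A₁₁ A₁₂ A₁₃ A₂₁ A₂₂ A₂₃ A₃₁ A₃₂ A₃₃ = blk3 B₁₁ B₁₂ B₁₃ B₂₁ B₂₂ B₂₃ B₃₁ B₃₂ B₃₃) :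
    A₁₁ = B₁₁ ∧ A₁₂ = B₁₂ ∧ A₁₃ = B₁₃ ∧ A₂₁ = B₂₁ ∧ A₂₂ = B₂₂ ∧ A₂₃ = B₂₃ ∧ A₃₁ = B₃₁ ∧
      A₃₂ = B₃₂ ∧ A₃₃ = B₃₃ := by
  refine ⟨?_, ?_, ?_, ?_, ?_, ?_, ?_, ?_, ?_⟩ <;> ext i j
  · simpa using congrFun (congrFun h (Sum.inl i)) (Sum.inl j)
  · simpa using congrFun (congrFun h (Sum.inl i)) (Sum.inr (Sum.inl j))
  · simpa using congrFun (congrFun h (Sum.inl i)) (Sum.inr (Sum.inr j))
  · simpa using congrFun (congrFun h (Sum.inr (Sum.inl i))) (Sum.inl j)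
  · simpa using congrFun (congrFun h (Sum.inr (Sum.inl i))) (Sum.inr (Sum.inl j))
  · simpa using congrFun (congrFun h (Sum.inr (Sum.inl i))) (Sum.inr (Sum.inr j))
  · simpa using congrFun (congrFun h (Sum.inr (Sum.inr i))) (Sum.inl j)
  · simpa using congrFun (congrFun h (Sum.inr (Sum.inr i))) (Sum.inr (Sum.inl j))
  · simpa using congrFun (congrFun h (Sum.inr (Sum.inr i))) (Sum.inr (Sum.inr j))

theorem tri_surj (v : m ⊕ (m ⊕ d) → F) :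
    v = tri (fun i => v (Sum.inl i)) (fun i => v (Sum.inr (Sum.inl i)))
      (fun l => v (Sum.inr (Sum.inr l))) := by
  ext (i | i | i) <;> rfl

theorem hH_tri (σ : F →+* F) (x y x' y' : m → F) (z z' : d → F) :
    hH σ (tri x y z) (tri x' y' z') =
      (∑ i, x i * σ (y' i)) + (∑ i, y i * σ (x' i)) + ∑ l, z l * σ (z' l) := rfl

theorem hH_eq (σ : F →+* F) (u v : m ⊕ (m ⊕ d) → F) :
    hH σ u v = (fun a => σ (v a)) ⬝ᵥ ((Hm : Matrix (m ⊕ (m ⊕ d)) (m ⊕ (m ⊕ d)) F) *ᵥ u) := by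
  rw [tri_surj u, Hm, blk3_mulVec]
  simp [hH, dotProduct, Fintype.sum_sum_type, tri, mul_comm]
  ring

/-- Matrix criterion for preserving `hH`. -/
theorem pres_of (σ : F →+* F) (M : Matrix (m ⊕ (m ⊕ d)) (m ⊕ (m ⊕ d)) F)
    (h : ct σ M * Hm * M = Hm) (u v : m ⊕ (m ⊕ d) → F) :
    hH σ (M *ᵥ u) (M *ᵥ v) = hH σ u v := by
  rw [hH_eq, hH_eq]
  have e1 : (fun a => σ ((M *ᵥ v) a)) = (M.map σ) *ᵥ (fun a => σ (v a)) := by
    ext a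
    simp [Matrix.mulVec, dotProduct, map_sum]
  rw [e1, Matrix.mulVec_mulVec]
  have e2 : ∀ (N : Matrix (m ⊕ (m ⊕ d)) (m ⊕ (m ⊕ d)) F) (a b : m ⊕ (m ⊕ d) → F),
      (N *ᵥ a) ⬝ᵥ b = a ⬝ᵥ (Nᵀ *ᵥ b) := by
    intro N a b
    rw [Matrix.dotProduct_mulVec, Matrix.vecMul_transpose]
  rw [e2, Matrix.mulVec_mulVec]
  have e3 : (M.map σ)ᵀ * (Hm * M) = Hm := by
    rw [← Matrix.mul_assoc]
    exact h
  rw [e3]

/-- Build an element of `UH` from a matrix. -/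
def mkUH (σ : F →+* F) (M : Matrix (m ⊕ (m ⊕ d)) (m ⊕ (m ⊕ d)) F) (hdet : M.det = 1)
    (h : ct σ M * Hm * M = Hm) : ↥(UH σ m d) :=
  ⟨⟨M, hdet⟩, fun u v => pres_of σ M h u v⟩

@[simp] theorem mkUH_coe (σ : F →+* F) (M : Matrix (m ⊕ (m ⊕ d)) (m ⊕ (m ⊕ d)) F)
    (hdet : M.det = 1) (h : ct σ M * Hm * M = Hm) : (mkUH σ M hdet h).1.1 = M := rfl

theorem UH_ext {σ : F →+* F} {g g' : ↥(UH σ m d)} (h : g.1.1 = g'.1.1) : g = g' :=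
  Subtype.ext (Subtype.ext h)

theorem UH_mul_coe {σ : F →+* F} (g g' : ↥(UH σ m d)) : (g * g').1.1 = g.1.1 * g'.1.1 := rfl

theorem UH_one_coe {σ : F →+* F} : (1 : ↥(UH σ m d)).1.1 = 1 := rfl

theorem UH_pres {σ : F →+* F} (g : ↥(UH σ m d)) (u v : m ⊕ (m ⊕ d) → F) :
    hH σ (g.1.1 *ᵥ u) (g.1.1 *ᵥ v) = hH σ u v := g.2 u v


section elements

variable (σ : F →+* F)

theorem eU_mul (c c' : Matrix m d F) (S S' : Matrix m m F) :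
    eU σ c S * eU σ c' S' = eU σ (c + c') (S + S' - c * ct σ c') := by
  unfold eU
  rw [blk3_mul]
  congr 1 <;> simp [ct_add] <;> abel

theorem eU_zero : eU σ (0 : Matrix m d F) (0 : Matrix m m F) = 1 := by
  unfold eU
  rw [blk3_one, ct_zero, neg_zero]

theorem eL_zero : eL σ (0 : Matrix m d F) (0 : Matrix m m F) = 1 := by
  unfold eL
  rw [blk3_one, ct_zero, neg_zero]

theorem dU_mul_dU (A A' B B' : Matrix m m F) (t s : Matrix d d F) :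
    dU σ A A' t * dU σ B B' s = dU σ (A * B) (B' * A') (t * s) := by
  unfold dU
  rw [blk3_mul]
  congr 1 <;> simp [ct_mul]

theorem dU_one : dU σ (1 : Matrix m m F) 1 (1 : Matrix d d F) = 1 := by
  unfold dU
  rw [blk3_one, ct_one]

theorem dU_pow (A A' : Matrix m m F) (t : Matrix d d F) (k : ℕ) :
    dU σ A A' t ^ k = dU σ (A ^ k) (A' ^ k) (t ^ k) := by
  induction k with
  | zero => simp [dU_one]
  | succ k ih => rw [pow_succ, ih, dU_mul_dU, ← pow_succ, ← pow_succ, ← pow_succ']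

theorem dU_mul_eU (A A' : Matrix m m F) (t t' : Matrix d d F) (c : Matrix m d F)
    (S : Matrix m m F) (hA' : A' * A = 1) (ht' : t' * t = 1) (htu : ct σ t' = t) :
    dU σ A A' t * eU σ c S = eU σ (A * c * t') (A * S * ct σ A) * dU σ A A' t := by
  unfold dU eU
  rw [blk3_mul, blk3_mul]
  have e1 : ct σ A * ct σ A' = 1 := by rw [← ct_mul, hA', ct_one]
  congr 1
  · simp
  · simp [Matrix.mul_assoc, e1]
  · simp [Matrix.mul_assoc, ht']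
  · simp
  · simp
  · simp
  · simp
  · simp [ct_mul, Matrix.mul_assoc, e1, htu]
  · simp

theorem nU_mul_eU (G G' : Matrix m m F) (ν ν' : Matrix d d F) (c : Matrix m d F)
    (S : Matrix m m F) (hG' : G' * G = 1) (hν' : ν' * ν = 1) (hνu : ct σ ν' = ν) :
    nU σ G G' ν * eU σ c S = eL σ (G * c * ν') (G * S * ct σ G) * nU σ G G' ν := by
  unfold nU eU eL
  rw [blk3_mul, blk3_mul]
  have e1 : ct σ G * ct σ G' = 1 := by rw [← ct_mul, hG', ct_one]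
  congr 1
  · simp
  · simp
  · simp
  · simp
  · simp [Matrix.mul_assoc, e1]
  · simp [Matrix.mul_assoc, hν']
  · simp
  · simp [ct_mul, Matrix.mul_assoc, e1, hνu]
  · simp

theorem dU_nU_dU (hσ : ∀ a, σ (σ a) = a) (q : ℕ) (B B' G G' : Matrix m m F) (t ν : Matrix d d F)
    (hB : B * B' = 1) (hB' : B' * B = 1) (hG : G * G' = 1) (hG' : G' * G = 1)
    (hGB : G * B = ct σ (B ^ q) * G) (htν : t ^ q * ν * t = ν) :
    dU σ (B ^ q) (B' ^ q) (t ^ q) * nU σ G G' ν * dU σ B B' t = nU σ G G' ν := by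
  have hBq : B ^ q * B' ^ q = 1 := by
    rw [← (Commute.mul_pow (show Commute B B' from by rw [Commute, SemiconjBy, hB, hB']) q), hB,
      one_pow]
  have e1 : ct σ (B' ^ q) * G * B = G := by
    rw [Matrix.mul_assoc, hGB, ← Matrix.mul_assoc, ← ct_mul, hBq, ct_one, Matrix.one_mul]
  have e2 : B ^ q * ct σ G' * ct σ B' = ct σ G' := by
    have h1 : B * G' = G' * ct σ (B ^ q) := by
      calc B * G' = G' * (G * B) * G' := by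
            rw [← Matrix.mul_assoc G' G B, hG', Matrix.one_mul]
        _ = G' * ct σ (B ^ q) := by
            rw [hGB, Matrix.mul_assoc, Matrix.mul_assoc, hG, Matrix.mul_one]
    have h2 : B' * G' * ct σ (B ^ q) = G' := by
      rw [Matrix.mul_assoc, ← h1, ← Matrix.mul_assoc, hB', Matrix.one_mul]
    have h3 := congrArg (ct σ) h2
    rw [ct_mul, ct_mul, ct_ct σ hσ] at h3
    rw [Matrix.mul_assoc]
    exact h3
  unfold dU nU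
  rw [blk3_mul, blk3_mul]
  congr 1
  · simp
  · simpa using e2
  · simp
  · simpa using e1
  · simp
  · simp
  · simp
  · simp
  · simpa using htν

theorem eU_pres (hσ : ∀ a, σ (σ a) = a) (c : Matrix m d F) (S : Matrix m m F)
    (h : S + ct σ S + c * ct σ c = 0) : ct σ (eU σ c S) * Hm * eU σ c S = Hm := by
  unfold eU Hm
  rw [ct_blk3, blk3_mul, blk3_mul]
  congr 1
  · simp [ct_one, ct_zero]
  · simp [ct_one, ct_zero]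
  · simp [ct_one, ct_zero]
  · simp [ct_one, ct_zero]
  · simp only [ct_one, ct_zero, ct_neg, ct_ct σ hσ]
    simp
    rw [← h]
    try abel
  · simp [ct_one, ct_zero, ct_neg, ct_ct σ hσ]
  · simp [ct_one, ct_zero]
  · simp [ct_one, ct_zero]
  · simp [ct_one, ct_zero]

theorem eL_pres (hσ : ∀ a, σ (σ a) = a) (c : Matrix m d F) (S : Matrix m m F)
    (h : S + ct σ S + c * ct σ c = 0) : ct σ (eL σ c S) * Hm * eL σ c S = Hm := by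
  unfold eL Hm
  rw [ct_blk3, blk3_mul, blk3_mul]
  congr 1
  · simp only [ct_one, ct_zero, ct_neg, ct_ct σ hσ]
    simp
    rw [← h]
    try abel
  · simp [ct_one, ct_zero]
  · simp [ct_one, ct_zero, ct_neg, ct_ct σ hσ]
  · simp [ct_one, ct_zero]
  · simp [ct_one, ct_zero]
  · simp [ct_one, ct_zero]
  · simp [ct_one, ct_zero]
  · simp [ct_one, ct_zero]
  · simp [ct_one, ct_zero]

theorem dU_pres (hσ : ∀ a, σ (σ a) = a) (A A' : Matrix m m F) (t : Matrix d d F)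
    (hA' : A' * A = 1) (ht : ct σ t * t = 1) : ct σ (dU σ A A' t) * Hm * dU σ A A' t = Hm := by
  unfold dU Hm
  rw [ct_blk3, blk3_mul, blk3_mul]
  have e1 : ct σ A * ct σ A' = 1 := by rw [← ct_mul, hA', ct_one]
  congr 1 <;> simp [ct_zero, ct_ct σ hσ, e1, hA', ht]

theorem nU_pres (hσ : ∀ a, σ (σ a) = a) (G G' : Matrix m m F) (ν : Matrix d d F)
    (hG' : G' * G = 1) (hν : ct σ ν * ν = 1) : ct σ (nU σ G G' ν) * Hm * nU σ G G' ν = Hm := by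
  unfold nU Hm
  rw [ct_blk3, blk3_mul, blk3_mul]
  have e1 : ct σ G * ct σ G' = 1 := by rw [← ct_mul, hG', ct_one]
  congr 1 <;> simp [ct_zero, ct_ct σ hσ, e1, hG', hν]

theorem eU_mulVec (c : Matrix m d F) (S : Matrix m m F) (x y : m → F) (z : d → F) :
    eU σ c S *ᵥ tri x y z = tri (x + S *ᵥ y + c *ᵥ z) y (z - ct σ c *ᵥ y) := by
  unfold eU
  rw [blk3_mulVec]
  congr 1 <;> simp [Matrix.neg_mulVec, sub_eq_add_neg, add_comm]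

theorem eL_mulVec (c : Matrix m d F) (S : Matrix m m F) (x y : m → F) (z : d → F) :
    eL σ c S *ᵥ tri x y z = tri x (y + S *ᵥ x + c *ᵥ z) (z - ct σ c *ᵥ x) := by
  unfold eL
  rw [blk3_mulVec]
  congr 1 <;> simp [Matrix.neg_mulVec, sub_eq_add_neg, add_comm, add_left_comm]

end elements

section dets

variable (σ : F →+* F)

theorem det_eU (c : Matrix m d F) (S : Matrix m m F) : (eU σ c S).det = 1 := by
  unfold eU blk3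
  rw [Matrix.fromRows_zero, Matrix.det_fromBlocks_zero₂₁, Matrix.det_fromBlocks_zero₁₂]
  simp

theorem det_eL (c : Matrix m d F) (S : Matrix m m F) : (eL σ c S).det = 1 := by
  unfold eL blk3
  rw [Matrix.fromCols_zero, Matrix.det_fromBlocks_zero₁₂, Matrix.det_fromBlocks_zero₂₁]
  simp

theorem det_blk3_diag (X Y : Matrix m m F) (t : Matrix d d F) :
    (blk3 X 0 0 0 Y 0 0 0 t).det = X.det * Y.det * t.det := by
  unfold blk3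
  rw [Matrix.fromRows_zero, Matrix.det_fromBlocks_zero₂₁, Matrix.det_fromBlocks_zero₁₂, mul_assoc]

theorem det_dU (A A' : Matrix m m F) (t : Matrix d d F) :
    (dU σ A A' t).det = A.det * σ A'.det * t.det := by
  unfold dU
  rw [det_blk3_diag, det_ct]

theorem det_Hm : (Hm : Matrix (m ⊕ (m ⊕ d)) (m ⊕ (m ⊕ d)) F).det = (-1) ^ Fintype.card m := by
  have hL : (blk3 1 0 0 1 1 0 0 0 1 : Matrix (m ⊕ (m ⊕ d)) (m ⊕ (m ⊕ d)) F).det = 1 := by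
    unfold blk3
    rw [Matrix.fromCols_zero, Matrix.det_fromBlocks_zero₁₂, Matrix.det_fromBlocks_zero₁₂]
    simp
  have hP : (Hm : Matrix (m ⊕ (m ⊕ d)) (m ⊕ (m ⊕ d)) F) * blk3 1 0 0 1 1 0 0 0 1 =
      blk3 1 1 0 1 0 0 0 0 1 := by
    unfold Hm
    rw [blk3_mul]
    congr 1 <;> simp
  have hN : (blk3 1 1 0 1 0 0 0 0 1 : Matrix (m ⊕ (m ⊕ d)) (m ⊕ (m ⊕ d)) F).det =
      (-1) ^ Fintype.card m := by
    unfold blk3
    rw [Matrix.det_fromBlocks_one₁₁]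
    have e : (fromBlocks (0 : Matrix m m F) (0 : Matrix m d F) (0 : Matrix d m F) 1 -
        fromRows (1 : Matrix m m F) (0 : Matrix d m F) * fromCols (1 : Matrix m m F) (0 : Matrix m d F)) =
        fromBlocks (-1 : Matrix m m F) 0 0 1 := by
      ext (i | i) (j | j) <;> simp [Matrix.mul_apply, Matrix.one_apply]
    rw [e, Matrix.det_fromBlocks_zero₁₂, Matrix.det_neg]
    simp
  have := congrArg Matrix.det hP
  rw [Matrix.det_mul, hL, mul_one, hN] at this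
  exact this

theorem nU_eq (G G' : Matrix m m F) (ν : Matrix d d F) :
    nU σ G G' ν = blk3 (ct σ G') 0 0 0 G 0 0 0 ν * Hm := by
  unfold nU Hm
  rw [blk3_mul]
  congr 1 <;> simp

theorem det_nU (G G' : Matrix m m F) (ν : Matrix d d F) :
    (nU σ G G' ν).det = σ G'.det * G.det * ν.det * (-1) ^ Fintype.card m := by
  rw [nU_eq, Matrix.det_mul, det_blk3_diag, det_ct, det_Hm]

/-- The determinant of a matrix preserving `hH` has norm one. -/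
theorem det_norm_of_pres (M : Matrix (m ⊕ (m ⊕ d)) (m ⊕ (m ⊕ d)) F)
    (h : ct σ M * Hm * M = Hm) : σ M.det * M.det = 1 := by
  have h1 := congrArg Matrix.det h
  rw [Matrix.det_mul, Matrix.det_mul, det_ct, det_Hm] at h1
  have h2 : ((-1 : F) ^ Fintype.card m) ≠ 0 := pow_ne_zero _ (neg_ne_zero.mpr one_ne_zero)
  have h3 : (σ M.det * M.det) * (-1) ^ Fintype.card m = 1 * (-1) ^ Fintype.card m := by
    rw [one_mul]
    calc (σ M.det * M.det) * (-1) ^ Fintype.card m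
        = σ M.det * (-1) ^ Fintype.card m * M.det := by ring
      _ = (-1) ^ Fintype.card m := h1
  exact mul_right_cancel₀ h2 h3

end dets

end Cfsg.Agent.H45.U
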