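import Mathlib
import Cfsg.Agent.H45.UBlock
import Cfsg.Agent.H11.OGen
import Cfsg.Agent.H67.OIso
import Cfsg.Agent.H20.OMem
import Cfsg.Agent.H89.OField
import Cfsg.Agent.H51.UTwoGen
import Cfsg.Agent.H98.UIso
import Cfsg.Agent.H49.OmegaGen
import Cfsg.Agent.H49.Levi
import Cfsg.Agent.H49.SimpleForms
import Cfsg.Agent.H17.O5Final
import Cfsg.Agent.H45.SpTwoGen

set_option autoImplicit false
set_option linter.unusedSectionVars false

/-! Helper lemmas (helper45): two-generation of `PΩ_{2m+1}(q)`, `q` odd, via the hyperbolic-block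
framework of `UDefs` with `σ = id`. -/

namespace Cfsg.Agent.H45.O

open Matrix Cfsg.Agent.H45.U

section core

variable {F : Type*} [Field F] {m d : Type*} [Fintype m] [DecidableEq m] [Fintype d]
  [DecidableEq d]

theorem ct_id (M : Matrix m d F) : ct (RingHom.id F) M = Mᵀ := by
  ext i j
  rw [ct_apply]
  rfl

/-- The unipotent radicals `Q` and `Q⁻` lie in the group generated by the torus element and
`e·n` (no generation hypothesis). -/
theorem qin_qlow {σ : F →+* F} {q : ℕ} {B B' G G' : Matrix m m F} {t t' ν ν' : Matrix d d F}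
    {c₀ : Matrix m d F} {S₀ : Matrix m m F} [Nonempty d]
    (D : Cfsg.Agent.H51.U.Dat σ q B B' G G' t t' ν ν' c₀ S₀)
    (hsub : ∀ c : F, σ c = -c → ∃ l : F, l - σ l = c)
    (hXP : ∀ X : AddSubgroup (Matrix m d F), (∀ c ∈ X, B * c * t' ∈ X) →
        B ^ q * c₀ * t' ^ q - c₀ ∈ X → X = ⊤) :
    Qin σ (Subgroup.closure {D.a, D.b}) ∧ Qlow σ (Subgroup.closure {D.a, D.b}) := by
  have hσ := D.hσ
  have ha : D.a ∈ Subgroup.closure {D.a, D.b} := Subgroup.subset_closure (Set.mem_insert _ _)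
  have hb : D.b ∈ Subgroup.closure {D.a, D.b} :=
    Subgroup.subset_closure (Set.mem_insert_of_mem _ rfl)
  have hX : Cfsg.Agent.H51.U.Xset σ hσ (Subgroup.closure {D.a, D.b}) = ⊤ := by
    apply hXP
    · rintro c ⟨S, h, g, hgK, hg⟩
      exact ⟨B * S * ct σ B, Cfsg.Agent.H51.U.pair_conj σ hσ h B t' (by rw [D.htu, D.ht']),
        D.a * g * D.a⁻¹,
        Subgroup.mul_mem _ (Subgroup.mul_mem _ ha hgK) (Subgroup.inv_mem _ ha),
        D.conj_a g c S hg⟩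
    · have e : B ^ q * c₀ * t' ^ q - c₀ = B ^ q * c₀ * t' ^ q + -c₀ := sub_eq_add_neg _ _
      rw [e]
      exact ⟨_, D.g1_pair, _, Subgroup.mul_mem _ (Subgroup.pow_mem _ ha q)
        (Subgroup.mul_mem _ (Subgroup.mul_mem _ hb ha) (Subgroup.inv_mem _ hb)), D.g1_coe⟩
  have hQ : Qin σ (Subgroup.closure {D.a, D.b}) :=
    Cfsg.Agent.H51.U.Qin_of_XZ σ hσ _ hX (Cfsg.Agent.H51.U.Zset_all σ hσ _ hsub hX)
  refine ⟨hQ, ?_⟩
  have hg₀ : D.g₀ ∈ Subgroup.closure {D.a, D.b} := hQ D.g₀ c₀ S₀ D.hS₀ rfl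
  have hn : D.n ∈ Subgroup.closure {D.a, D.b} := by
    have : D.n = D.g₀⁻¹ * D.b := by
      unfold Cfsg.Agent.H51.U.Dat.b; group
    rw [this]
    exact Subgroup.mul_mem _ (Subgroup.inv_mem _ hg₀) hb
  intro g c S h hg
  have hp : (G' * S * ct σ G') + ct σ (G' * S * ct σ G') + (G' * c * ν) * ct σ (G' * c * ν) = 0 :=
    Cfsg.Agent.H51.U.pair_conj σ hσ h G' ν (by rw [D.ct_ν, D.hν])
  have he₂ : Cfsg.Agent.H51.U.mkE σ hσ (G' * c * ν) (G' * S * ct σ G') hp ∈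
      Subgroup.closure {D.a, D.b} := hQ _ _ _ hp rfl
  have : g = D.n * Cfsg.Agent.H51.U.mkE σ hσ (G' * c * ν) (G' * S * ct σ G') hp * D.n⁻¹ := by
    apply Cfsg.Agent.H51.U.uh_ext
    rw [D.conj_n _ _ _ rfl, hg]
    congr 1
    · rw [← Matrix.mul_assoc, ← Matrix.mul_assoc, D.hG, Matrix.one_mul, Matrix.mul_assoc, D.hν,
        Matrix.mul_one]
    · rw [← Matrix.mul_assoc, ← Matrix.mul_assoc, D.hG, Matrix.one_mul, Matrix.mul_assoc,
        ← ct_mul, D.hG, ct_one, Matrix.mul_one]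
  rw [this]
  exact Subgroup.mul_mem _ (Subgroup.mul_mem _ hn he₂) (Subgroup.inv_mem _ hn)

end core

section main

variable {F : Type*} [Field F] [Fintype F]

theorem two_ne_zero_of_odd (hodd : Odd (Fintype.card F)) : (2 : F) ≠ 0 := by
  intro h2
  have h : ringChar F = 2 := by
    apply CharP.ringChar_of_prime_eq_zero Nat.prime_two
    exact_mod_cast h2
  have := FiniteField.even_card_iff_char_two.mp h
  rw [Nat.odd_iff] at hodd
  omega

/-- symmetry of `hH` for the identity. -/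
theorem hH_symm {m d : Type*} [Fintype m] [DecidableEq m] [Fintype d] [DecidableEq d]
    (u v : m ⊕ (m ⊕ d) → F) : hH (RingHom.id F) u v = hH (RingHom.id F) v u := by
  have := Cfsg.Agent.H98.U.hH_conj (RingHom.id F) (fun _ => rfl) u v
  rwa [RingHom.id_apply] at this

theorem polar_P (k : ℕ)
    (P : (Fin k ⊕ (Fin k ⊕ Fin 1) → F) ≃ₗ[F] (Unit ⊕ (Fin k ⊕ Fin k) → F))
    (hQP : ∀ u, Cfsg.quadFormOdd k F (P u) = hH (RingHom.id F) u u)
    (u x : Fin k ⊕ (Fin k ⊕ Fin 1) → F) :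
    QuadraticMap.polar (Cfsg.quadFormOdd k F) (P u) (P x) = 2 * hH (RingHom.id F) u x := by
  rw [QuadraticMap.polar, ← map_add, hQP, hQP, hQP, Cfsg.Agent.H98.U.hH_add_left,
    Cfsg.Agent.H98.U.hH_add_right, Cfsg.Agent.H98.U.hH_add_right, hH_symm x u]
  ring

/-- The isometry group of the frozen odd-dimensional form. -/
abbrev OG (k : ℕ) (F : Type*) [Field F] : Type _ :=
  ↥(Cfsg.isometryGroup F (Cfsg.quadFormOdd k F))

/-- the matrix of an isometry. -/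
abbrev omat {k : ℕ} (s : OG k F) : Matrix (Unit ⊕ (Fin k ⊕ Fin k)) (Unit ⊕ (Fin k ⊕ Fin k)) F :=
  ((s : Matrix.GeneralLinearGroup (Unit ⊕ (Fin k ⊕ Fin k)) F) :
    Matrix (Unit ⊕ (Fin k ⊕ Fin k)) (Unit ⊕ (Fin k ⊕ Fin k)) F)

theorem dU_mul_nU {m d : Type*} [Fintype m] [DecidableEq m] [Fintype d] [DecidableEq d]
    (σ : F →+* F) (hσ : ∀ a, σ (σ a) = a) (A A' G G' : Matrix m m F) (t ν : Matrix d d F) :
    dU σ A A' t * nU σ G G' ν = nU σ (ct σ A' * G) (G' * ct σ A) (t * ν) := by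
  unfold dU nU
  rw [blk3_mul]
  simp only [Matrix.mul_zero, Matrix.zero_mul, add_zero, zero_add]
  rw [ct_mul, ct_ct σ hσ]

theorem omega_odd_gen (hodd : Odd (Fintype.card F)) (k : ℕ) (hk : 3 ≤ k) :
    ∃ a b : OG k F, a ∈ commutator (OG k F) ∧ b ∈ commutator (OG k F) ∧
      Subgroup.closure {a, b} = commutator (OG k F) := by
  classical
  have h2 : (2 : F) ≠ 0 := two_ne_zero_of_odd hodd
  obtain ⟨B₀, B₀', G₀, G₀', hB, hB', hG, hG', hGB, hns, hirr, hfix⟩ :=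
    Cfsg.Agent.H89.O.field_O hodd k (by omega)
  obtain ⟨Φ, P, hP, hQP, hΦ, hdet, hsurj⟩ := Cfsg.Agent.H67.O.o_iso (F := F) h2 k
  have hσ : ∀ a : F, (RingHom.id F) ((RingHom.id F) a) = a := fun _ => rfl
  have hQnd := Cfsg.Agent.H49.QOdd_nondeg (F := F) k h2
  have hmem : ∀ s : OG k F, s ∈ commutator (OG k F) ↔
      Cfsg.Agent.H49.spinSign (Cfsg.Agent.H49.QOdd k F) s = 1 ∧ (omat s).det = 1 :=
    fun s => Cfsg.Agent.H49.mem_commutator_iff_spinSign_det (Cfsg.Agent.H49.QOdd k F) h2 hQnd s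
  have hsq : ∀ s : OG k F, s * s ∈ commutator (OG k F) :=
    fun s => Cfsg.Agent.H49.sq_mem_commutator (Cfsg.Agent.H49.reflSet (Cfsg.Agent.H49.QOdd k F))
      (Cfsg.Agent.H49.reflSet_invol (Cfsg.Agent.H49.QOdd k F))
      (Cfsg.Agent.H49.closure_reflSet_eq_top (Cfsg.Agent.H49.QOdd k F) h2 hQnd) s
  -- the sign on the anisotropic line
  obtain ⟨ε, hε⟩ : ∃ ε : F, ε = (-1) ^ k := ⟨_, rfl⟩
  have hεε : ε * ε = 1 := by
    rw [hε, ← pow_add, ← two_mul, pow_mul]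
    simp
  obtain ⟨ν, hν⟩ : ∃ ν : Matrix (Fin 1) (Fin 1) F, ν = ε • 1 := ⟨_, rfl⟩
  have hνν : ν * ν = 1 := by
    rw [hν, Matrix.smul_mul, Matrix.mul_smul, smul_smul, hεε, one_smul, Matrix.one_mul]
  have hctν : ct (RingHom.id F) ν = ν := by
    rw [ct_id, hν, Matrix.transpose_smul, Matrix.transpose_one]
  have hdetν : ν.det = ε := by
    rw [hν, Matrix.det_smul, Matrix.det_one, Fintype.card_fin, pow_one, mul_one]
  -- the torus element `a₀` (not in `Ω`)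
  have hdeta₀ : (dU (RingHom.id F) B₀ B₀' (1 : Matrix (Fin 1) (Fin 1) F)).det = 1 := by
    rw [det_dU, Matrix.det_one, mul_one, RingHom.id_apply, ← Matrix.det_mul, hB, Matrix.det_one]
  obtain ⟨a₀, ha₀⟩ : ∃ a₀ : ↥(UH (RingHom.id F) (Fin k) (Fin 1)),
      a₀.1.1 = dU (RingHom.id F) B₀ B₀' 1 :=
    ⟨Cfsg.Agent.H51.U.mkU _ _ hdeta₀ (Cfsg.Agent.H51.U.dU_gram _ hσ B₀ B₀' 1 hB'
      (by rw [ct_one, mul_one])), rfl⟩
  have hΦa₀ : Φ a₀ ∉ commutator (OG k F) := by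
    apply Cfsg.Agent.H20.O.o_levi_not_mem h2 k B₀ B₀' hB hB' hns
    intro v
    obtain ⟨u, rfl⟩ := P.surjective v
    obtain ⟨x, y, z, rfl⟩ : ∃ x y z, u = tri x y z := ⟨_, _, _, tri_surj u⟩
    rw [hΦ, ha₀]
    unfold dU
    rw [blk3_mulVec, hP, hP]
    simp only [Matrix.zero_mulVec, add_zero, zero_add, Matrix.one_mulVec, ct_id]
    show _ = Sum.elim (fun _ => z 0) (Sum.elim (B₀ *ᵥ x) (B₀'ᵀ *ᵥ ((2 : F) • y)))
    rw [Matrix.mulVec_smul]
  have hspin_a₀ : Cfsg.Agent.H49.spinSign (Cfsg.Agent.H49.QOdd k F) (Φ a₀) = -1 := by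
    rcases Int.units_eq_one_or (Cfsg.Agent.H49.spinSign (Cfsg.Agent.H49.QOdd k F) (Φ a₀))
      with h | h
    · exact absurd ((hmem _).2 ⟨h, hdet a₀⟩) hΦa₀
    · exact h
  -- the Weyl element
  have hdetn₀ : (nU (RingHom.id F) G₀ G₀' ν).det = 1 := by
    rw [det_nU, RingHom.id_apply, ← Matrix.det_mul, hG', Matrix.det_one, one_mul, hdetν,
      Fintype.card_fin, ← hε]
    exact hεε
  obtain ⟨n₀, hn₀⟩ : ∃ n₀ : ↥(UH (RingHom.id F) (Fin k) (Fin 1)),
      n₀.1.1 = nU (RingHom.id F) G₀ G₀' ν :=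
    ⟨Cfsg.Agent.H51.U.mkU _ _ hdetn₀ (Cfsg.Agent.H51.U.nU_gram _ hσ G₀ G₀' ν hG'
      (by rw [hctν, hνν])), rfl⟩
  obtain ⟨G, G', hGG', hG'G, hGB', hnΩ⟩ : ∃ G G' : Matrix (Fin k) (Fin k) F,
      G * G' = 1 ∧ G' * G = 1 ∧ G * B₀ = B₀ᵀ * G ∧
      ∀ n : ↥(UH (RingHom.id F) (Fin k) (Fin 1)),
        n.1.1 = nU (RingHom.id F) G G' ν → Φ n ∈ commutator (OG k F) := by
    by_cases hs : Cfsg.Agent.H49.spinSign (Cfsg.Agent.H49.QOdd k F) (Φ n₀) = 1
    · refine ⟨G₀, G₀', hG, hG', hGB, ?_⟩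
      intro n hn
      have : n = n₀ := Cfsg.Agent.H51.U.uh_ext (by rw [hn, hn₀])
      rw [this]
      exact (hmem _).2 ⟨hs, hdet n₀⟩
    · have hs' : Cfsg.Agent.H49.spinSign (Cfsg.Agent.H49.QOdd k F) (Φ n₀) = -1 :=
        (Int.units_eq_one_or _).resolve_left hs
      refine ⟨B₀'ᵀ * G₀, G₀' * B₀ᵀ, ?_, ?_, ?_, ?_⟩
      · rw [Matrix.mul_assoc, ← Matrix.mul_assoc G₀, hG, Matrix.one_mul, ← Matrix.transpose_mul,
          hB, Matrix.transpose_one]
      · rw [Matrix.mul_assoc, ← Matrix.mul_assoc B₀ᵀ, ← Matrix.transpose_mul, hB',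
          Matrix.transpose_one, Matrix.one_mul, hG']
      · calc B₀'ᵀ * G₀ * B₀ = B₀'ᵀ * (B₀ᵀ * G₀) := by rw [Matrix.mul_assoc, hGB]
          _ = (B₀ * B₀')ᵀ * G₀ := by rw [Matrix.transpose_mul, Matrix.mul_assoc]
          _ = (B₀' * B₀)ᵀ * G₀ := by rw [hB, hB']
          _ = B₀ᵀ * (B₀'ᵀ * G₀) := by rw [Matrix.transpose_mul, Matrix.mul_assoc]
      · intro n hn
        have : n = a₀ * n₀ := by
          apply Cfsg.Agent.H51.U.uh_ext
          rw [Cfsg.Agent.H51.U.uh_mul, ha₀, hn₀, hn, dU_mul_nU _ hσ, ct_id, ct_id, Matrix.one_mul]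
        rw [this, map_mul]
        refine (hmem _).2 ⟨?_, ?_⟩
        · have h := (Cfsg.Agent.H49.spinSign (Cfsg.Agent.H49.QOdd k F)).map_mul (Φ a₀) (Φ n₀)
          rw [hspin_a₀, hs'] at h
          exact h.trans (by decide)
        · have := hdet (a₀ * n₀)
          rwa [map_mul] at this
  -- the unipotent element (a square)
  obtain ⟨c₁, hc₁⟩ : ∃ c₁ : Matrix (Fin k) (Fin 1) F, c₁ = fun _ _ => 1 := ⟨_, rfl⟩
  obtain ⟨S₁, hS₁⟩ : ∃ S₁ : Matrix (Fin k) (Fin k) F,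
      S₁ + ct (RingHom.id F) S₁ + c₁ * ct (RingHom.id F) c₁ = 0 := by
    refine ⟨(-(1 / 2 : F)) • (c₁ * ct (RingHom.id F) c₁), ?_⟩
    rw [ct_smul, ct_mul, ct_ct _ hσ, RingHom.id_apply]
    ext i j
    simp only [Matrix.add_apply, Matrix.smul_apply, smul_eq_mul, Matrix.zero_apply]
    field_simp
    ring
  have hBB : B₀ * B₀ * (B₀' * B₀') = 1 := by
    rw [Matrix.mul_assoc, ← Matrix.mul_assoc B₀ B₀', hB, Matrix.one_mul, hB]
  have hBB' : B₀' * B₀' * (B₀ * B₀) = 1 := by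
    rw [Matrix.mul_assoc, ← Matrix.mul_assoc B₀' B₀, hB', Matrix.one_mul, hB']
  have D : Cfsg.Agent.H51.U.Dat (RingHom.id F) 1 (B₀ * B₀) (B₀' * B₀') G G'
      (1 : Matrix (Fin 1) (Fin 1) F) 1 ν ν (c₁ + c₁)
      (S₁ + S₁ - c₁ * ct (RingHom.id F) c₁) :=
    { hσ := hσ
      hB := hBB
      hB' := hBB'
      hG := hGG'
      hG' := hG'G
      ht := Matrix.mul_one 1
      ht' := Matrix.mul_one 1
      htu := ct_one _
      hν := hνν
      hν' := hνν
      hνu := hctν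
      hGB := by
        rw [pow_one, ct_id, Matrix.transpose_mul]
        calc G * (B₀ * B₀) = B₀ᵀ * G * B₀ := by rw [← Matrix.mul_assoc, hGB']
          _ = B₀ᵀ * B₀ᵀ * G := by rw [Matrix.mul_assoc, hGB', Matrix.mul_assoc]
      htν := by rw [pow_one, Matrix.one_mul, Matrix.mul_one]
      hdeta := by
        rw [det_dU, Matrix.det_one, mul_one, RingHom.id_apply, ← Matrix.det_mul, hBB,
          Matrix.det_one]
      hdetn := by
        rw [det_nU, RingHom.id_apply, ← Matrix.det_mul, hG'G, Matrix.det_one, one_mul, hdetν,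
          Fintype.card_fin, ← hε]
        exact hεε
      hS₀ := Cfsg.Agent.H51.U.pair_mul _ hσ hS₁ hS₁ }
  have hsub : ∀ c : F, (RingHom.id F) c = -c → ∃ l : F, l - (RingHom.id F) l = c := by
    intro c hc
    rw [RingHom.id_apply] at hc
    have h2c : (2 : F) * c = 0 := by linear_combination hc
    have hc0 : c = 0 := (mul_eq_zero.mp h2c).resolve_left h2
    exact ⟨0, by rw [hc0]; simp⟩
  have hXP : ∀ X : AddSubgroup (Matrix (Fin k) (Fin 1) F),
      (∀ c ∈ X, B₀ * B₀ * c * (1 : Matrix (Fin 1) (Fin 1) F) ∈ X) →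
      (B₀ * B₀) ^ 1 * (c₁ + c₁) * (1 : Matrix (Fin 1) (Fin 1) F) ^ 1 - (c₁ + c₁) ∈ X → X = ⊤ := by
    intro X hX hmemX
    apply hirr X (fun c hc => by have := hX c hc; rwa [Matrix.mul_one] at this) _ hmemX
    intro h0
    rw [pow_one, pow_one, Matrix.mul_one, sub_eq_zero] at h0
    have h00 := congrFun (congrFun (hfix _ h0) ⟨0, by omega⟩) 0
    rw [hc₁] at h00
    simp only [Matrix.zero_apply] at h00
    exact h2 (by rw [← one_add_one_eq_two]; exact h00)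
  obtain ⟨hQin, hQlow⟩ := qin_qlow D hsub hXP
  -- membership in `Ω`
  have hΦa : Φ D.a ∈ commutator (OG k F) := by
    have : D.a = a₀ * a₀ := by
      apply Cfsg.Agent.H51.U.uh_ext
      rw [Cfsg.Agent.H51.U.uh_mul, ha₀, Cfsg.Agent.H51.U.dU_mul_dU, Matrix.mul_one]
      rfl
    rw [this, map_mul]
    exact hsq _
  have hΦb : Φ D.b ∈ commutator (OG k F) := by
    have e1 : D.b = D.g₀ * D.n := rfl
    have e2 : D.g₀ = Cfsg.Agent.H51.U.mkE _ hσ c₁ S₁ hS₁ * Cfsg.Agent.H51.U.mkE _ hσ c₁ S₁ hS₁ := by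
      apply Cfsg.Agent.H51.U.uh_ext
      rw [Cfsg.Agent.H51.U.uh_mul, Cfsg.Agent.H51.U.mkE_coe, Cfsg.Agent.H51.U.eU_mul]
      rfl
    rw [e1, map_mul]
    refine Subgroup.mul_mem _ ?_ (hnΩ D.n rfl)
    rw [e2, map_mul]
    exact hsq _
  refine ⟨Φ D.a, Φ D.b, hΦa, hΦb, ?_⟩
  apply le_antisymm
  · rw [Subgroup.closure_le]
    rintro x (rfl | rfl)
    · exact hΦa
    · exact hΦb
  · have hmap : Subgroup.closure {Φ D.a, Φ D.b} = (Subgroup.closure {D.a, D.b}).map Φ := by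
      rw [MonoidHom.map_closure, Set.image_pair]
    rw [hmap]
    refine le_trans (Cfsg.Agent.H49.commutator_le_closure_siegelSet (Cfsg.Agent.H49.QOdd k F)
      hQnd (Cfsg.Agent.H49.hasTS3_QOdd k hk)) ?_
    refine (Subgroup.closure_le _).2 ?_
    rintro s ⟨u', v', hu', hv', huv', c, rfl⟩
    have hsΩ := Cfsg.Agent.H49.siegelG_mem_commutator_odd (Cfsg.Agent.H49.QOdd k F) h2 hQnd
      u' v' hu' hv' huv' c
    obtain ⟨g, hg⟩ := hsurj _ ((hmem _).1 hsΩ).2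
    refine ⟨g, ?_, hg⟩
    obtain ⟨u, rfl⟩ := P.surjective u'
    obtain ⟨v, rfl⟩ := P.surjective v'
    have hu : hH (RingHom.id F) u u = 0 := by rw [← hQP]; exact hu'
    have hv : hH (RingHom.id F) v v = 0 := by rw [← hQP]; exact hv'
    have huv : hH (RingHom.id F) u v = 0 := by
      have := polar_P k P hQP u v
      rw [show QuadraticMap.polar (Cfsg.quadFormOdd k F) (P u) (P v) = 0 from huv'] at this
      exact (mul_eq_zero.mp this.symm).resolve_left h2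
    apply Cfsg.Agent.H11.O.o_gen h2 k hk _ hQin hQlow u v hu hv huv (2 * c) g
    intro x
    apply P.injective
    rw [← hΦ, hg, Cfsg.Agent.H49.siegelG_mulVec,
      show QuadraticMap.polar (⇑(Cfsg.Agent.H49.QOdd k F)) (P u) (P x) =
        2 * hH (RingHom.id F) u x from polar_P k P hQP u x,
      show QuadraticMap.polar (⇑(Cfsg.Agent.H49.QOdd k F)) (P v) (P x) =
        2 * hH (RingHom.id F) v x from polar_P k P hQP v x,
      map_add, map_smul, map_sub, map_smul, map_smul]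
    congr 1
    rw [smul_sub, smul_sub, smul_smul, smul_smul, smul_smul, smul_smul]
    congr 2 <;> ring

theorem quot_two_gen_of_closure {G : Type*} [Group G] (H : Subgroup G) (a b : G) (ha : a ∈ H)
    (hb : b ∈ H) (h : Subgroup.closure {a, b} = H) (N : Subgroup H) [N.Normal] :
    ∃ x y : H ⧸ N, Subgroup.closure ({x, y} : Set (H ⧸ N)) = ⊤ := by
  have h0 : (Subgroup.closure {(⟨a, ha⟩ : H), ⟨b, hb⟩}).map H.subtype = H := by
    rw [MonoidHom.map_closure, Set.image_pair]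
    exact h
  have h1 : Subgroup.closure {(⟨a, ha⟩ : H), ⟨b, hb⟩} = ⊤ := by
    rw [eq_top_iff]
    intro x _
    have hx : (x : G) ∈ (Subgroup.closure {(⟨a, ha⟩ : H), ⟨b, hb⟩}).map H.subtype := by
      rw [h0]
      exact x.2
    obtain ⟨y, hy, hyx⟩ := hx
    have : y = x := Subtype.ext hyx
    rwa [← this]
  refine ⟨QuotientGroup.mk ⟨a, ha⟩, QuotientGroup.mk ⟨b, hb⟩, ?_⟩
  have h2 : Subgroup.map (QuotientGroup.mk' N) (Subgroup.closure {(⟨a, ha⟩ : H), ⟨b, hb⟩}) =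
      Subgroup.closure {(QuotientGroup.mk ⟨a, ha⟩ : H ⧸ N), QuotientGroup.mk ⟨b, hb⟩} := by
    rw [MonoidHom.map_closure, Set.image_pair]
    rfl
  rw [← h2, h1]
  exact Subgroup.map_top_of_surjective _ (QuotientGroup.mk'_surjective _)

theorem pomega5_two_gen (hodd : Odd (Fintype.card F)) :
    ∃ x y : Cfsg.POmega F (Cfsg.quadFormOdd 2 F),
      Subgroup.closure ({x, y} : Set (Cfsg.POmega F (Cfsg.quadFormOdd 2 F))) = ⊤ := by
  have h2 : (2 : F) ≠ 0 := two_ne_zero_of_odd hodd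
  have hF : ∃ a : F, a ≠ 0 ∧ a ≠ 1 :=
    ⟨-1, neg_ne_zero.mpr one_ne_zero, fun h => h2 (by linear_combination (-1 : F) * h)⟩
  obtain ⟨e⟩ := Cfsg.Agent.H17.pomega5_equiv_psp4 hF
  have hcard : 2 < Fintype.card F := by
    have h1 : 1 < Fintype.card F := Fintype.one_lt_card
    rw [Nat.odd_iff] at hodd
    omega
  obtain ⟨a, b, hab⟩ := Cfsg.Agent.H45.sp_two_gen (F := F) 2 le_rfl (fun _ => hcard)
  have h1 : Subgroup.map (QuotientGroup.mk' (Subgroup.center (Matrix.symplecticGroup (Fin 2) F)))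
      (Subgroup.closure {a, b}) = Subgroup.closure {QuotientGroup.mk a, QuotientGroup.mk b} := by
    rw [MonoidHom.map_closure, Set.image_pair]
    rfl
  have h3 : Subgroup.closure {(QuotientGroup.mk a : Matrix.symplecticGroup (Fin 2) F ⧸
      Subgroup.center (Matrix.symplecticGroup (Fin 2) F)), QuotientGroup.mk b} = ⊤ := by
    rw [← h1, hab]
    exact Subgroup.map_top_of_surjective _ (QuotientGroup.mk'_surjective _)
  refine ⟨e.symm (QuotientGroup.mk a), e.symm (QuotientGroup.mk b), ?_⟩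
  have h4 : Subgroup.map e.symm.toMonoidHom (Subgroup.closure {(QuotientGroup.mk a :
      Matrix.symplecticGroup (Fin 2) F ⧸ Subgroup.center (Matrix.symplecticGroup (Fin 2) F)),
      QuotientGroup.mk b}) =
      Subgroup.closure {e.symm (QuotientGroup.mk a), e.symm (QuotientGroup.mk b)} := by
    rw [MonoidHom.map_closure, Set.image_pair]
    rfl
  rw [← h4, h3]
  exact Subgroup.map_top_of_surjective _ e.symm.surjective

/-- `PΩ_{2m+1}(q)`, `q` odd, `m ≥ 2`, is generated by two elements. -/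
theorem pomega_odd_two_gen (hodd : Odd (Fintype.card F)) (m : ℕ) (hm : 2 ≤ m) :
    ∃ a b : Cfsg.POmega F (Cfsg.quadFormOdd m F),
      Subgroup.closure ({a, b} : Set (Cfsg.POmega F (Cfsg.quadFormOdd m F))) = ⊤ := by
  rcases Nat.lt_or_ge m 3 with h | h
  · have hm2 : m = 2 := by omega
    subst hm2
    exact pomega5_two_gen hodd
  · obtain ⟨a, b, ha, hb, hab⟩ := omega_odd_gen hodd m h
    exact quot_two_gen_of_closure (commutator (OG m F)) a b ha hb hab (Subgroup.center _)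

end main

end Cfsg.Agent.H45.O
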