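import Mathlib

set_option autoImplicit false

namespace Cfsg.Agent.H45

open Matrix

section LS

variable {F : Type*} [Field F] [Fintype F] {K : Type*} [Field K] {G : Type*} [Group G] {m d : ℕ}

/-- Orthogonality: `∑_l ψ(l · a) = 0` over `l ∈ F^m` for `a ≠ 0`. -/
theorem sum_addChar_dot_of_ne (ψ : AddChar F K) (hψ : ψ.IsPrimitive) (a : Fin m → F) (ha : a ≠ 0) :
    ∑ l : Fin m → F, ψ (l ⬝ᵥ a) = 0 := by
  classical
  obtain ⟨i, hi⟩ : ∃ i, a i ≠ 0 := by
    by_contra hcon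
    push Not at hcon
    exact ha (funext hcon)
  let χ : AddChar (Fin m → F) K := ψ.compAddMonoidHom
    { toFun := fun l => l ⬝ᵥ a, map_zero' := zero_dotProduct a,
      map_add' := fun x y => add_dotProduct x y a }
  have hχ : χ ≠ 1 := by
    rw [AddChar.ne_one_iff]
    obtain ⟨t, ht⟩ := AddChar.ne_one_iff.mp (hψ hi)
    refine ⟨Pi.single i t, ?_⟩
    show ψ ((Pi.single i t : Fin m → F) ⬝ᵥ a) ≠ 1
    rw [single_dotProduct, mul_comm]
    simpa using ht
  exact AddChar.sum_eq_zero_of_ne_one hχ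

theorem sum_addChar_dot_zero (ψ : AddChar F K) :
    ∑ l : Fin m → F, ψ (l ⬝ᵥ (0 : Fin m → F)) = ((Fintype.card F : K)) ^ m := by
  classical
  simp [Fintype.card_pi]

/-- The "isotypic projection" of the representation `R` restricted to the abelian group
`u(F^m)`, for the character `a ↦ ψ(l · a)`. -/
noncomputable def lsIdem (ψ : AddChar F K) (R : G →* Matrix (Fin d) (Fin d) K)
    (u : (Fin m → F) → G) (l : Fin m → F) : Matrix (Fin d) (Fin d) K :=
  ((Fintype.card F : K) ^ m)⁻¹ • ∑ a : Fin m → F, ψ (-(l ⬝ᵥ a)) • R (u a)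

variable (ψ : AddChar F K) (R : G →* Matrix (Fin d) (Fin d) K) (u : (Fin m → F) → G)

theorem lsIdem_mul_left (hu : ∀ a b, u (a + b) = u a * u b) (l b : Fin m → F) :
    R (u b) * lsIdem ψ R u l = ψ (l ⬝ᵥ b) • lsIdem ψ R u l := by
  unfold lsIdem
  rw [Matrix.mul_smul, Matrix.mul_sum, smul_comm]
  congr 1
  rw [Finset.smul_sum]
  refine Fintype.sum_equiv (Equiv.addLeft b) _ _ ?_
  intro a
  rw [Matrix.mul_smul, ← map_mul, ← hu, smul_smul]
  congr 1
  rw [← AddChar.map_add_eq_mul]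
  congr 1
  simp only [Equiv.coe_addLeft, dotProduct_add]
  ring

omit [Fintype F] in
theorem u_zero (hu : ∀ a b, u (a + b) = u a * u b) : u 0 = 1 := by
  have := hu 0 0
  rw [add_zero] at this
  exact (mul_eq_left).mp this.symm

theorem sum_lsIdem (hψ : ψ.IsPrimitive) (hq : (Fintype.card F : K) ≠ 0)
    (hu : ∀ a b, u (a + b) = u a * u b) : ∑ l : Fin m → F, lsIdem ψ R u l = 1 := by
  classical
  unfold lsIdem
  rw [← Finset.smul_sum, Finset.sum_comm]
  have h1 : ∀ a : Fin m → F, ∑ l : Fin m → F, ψ (-(l ⬝ᵥ a)) • R (u a) =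
      (if a = 0 then ((Fintype.card F : K)) ^ m else 0) • R (u a) := by
    intro a
    rw [← Finset.sum_smul]
    congr 1
    split_ifs with ha
    · subst ha
      have := sum_addChar_dot_zero (m := m) ψ
      simpa using this
    · have := sum_addChar_dot_of_ne ψ hψ (-a) (neg_ne_zero.mpr ha)
      simp only [dotProduct_neg] at this
      exact this
  rw [Finset.sum_congr rfl (fun a _ => h1 a)]
  simp only [ite_smul, zero_smul, Finset.sum_ite_eq', Finset.mem_univ, if_true]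
  rw [u_zero u hu, map_one, smul_smul, inv_mul_cancel₀ (pow_ne_zero _ hq), one_smul]

theorem lsIdem_mul_aux (hu : ∀ a b, u (a + b) = u a * u b) (l μ : Fin m → F) :
    lsIdem ψ R u μ * lsIdem ψ R u l =
      (((Fintype.card F : K) ^ m)⁻¹ * ∑ a : Fin m → F, ψ (a ⬝ᵥ (l - μ))) • lsIdem ψ R u l := by
  have h1 : lsIdem ψ R u μ * lsIdem ψ R u l =
      ((Fintype.card F : K) ^ m)⁻¹ • ∑ a : Fin m → F, ψ (-(μ ⬝ᵥ a)) • (R (u a) * lsIdem ψ R u l) := by
    conv_lhs => rw [lsIdem]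
    rw [Matrix.smul_mul, Matrix.sum_mul]
    congr 1
    refine Finset.sum_congr rfl (fun a _ => ?_)
    rw [Matrix.smul_mul]
  rw [h1]
  have h2 : ∀ a : Fin m → F, ψ (-(μ ⬝ᵥ a)) • (R (u a) * lsIdem ψ R u l) =
      ψ (a ⬝ᵥ (l - μ)) • lsIdem ψ R u l := by
    intro a
    rw [lsIdem_mul_left ψ R u hu, smul_smul, ← AddChar.map_add_eq_mul]
    congr 2
    rw [dotProduct_sub, dotProduct_comm a l, dotProduct_comm a μ]
    ring
  rw [Finset.sum_congr rfl (fun a _ => h2 a), ← Finset.sum_smul, smul_smul]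

theorem lsIdem_mul_self (hq : (Fintype.card F : K) ≠ 0)
    (hu : ∀ a b, u (a + b) = u a * u b) (l : Fin m → F) :
    lsIdem ψ R u l * lsIdem ψ R u l = lsIdem ψ R u l := by
  rw [lsIdem_mul_aux ψ R u hu, sub_self, sum_addChar_dot_zero, inv_mul_cancel₀ (pow_ne_zero m hq),
    one_smul]

theorem lsIdem_mul_of_ne (hψ : ψ.IsPrimitive)
    (hu : ∀ a b, u (a + b) = u a * u b) (l μ : Fin m → F) (hlm : l ≠ μ) :
    lsIdem ψ R u μ * lsIdem ψ R u l = 0 := by
  rw [lsIdem_mul_aux ψ R u hu, sum_addChar_dot_of_ne ψ hψ _ (sub_ne_zero.mpr hlm), mul_zero,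
    zero_smul]

theorem lsIdem_conj (g : G) (σ : (Fin m → F) ≃ (Fin m → F)) (l μ : Fin m → F)
    (hconj : ∀ a, g * u a * g⁻¹ = u (σ a)) (hdual : ∀ a, l ⬝ᵥ a = μ ⬝ᵥ σ a) :
    R g * lsIdem ψ R u l * R g⁻¹ = lsIdem ψ R u μ := by
  unfold lsIdem
  rw [Matrix.mul_smul, Matrix.smul_mul, Matrix.mul_sum, Matrix.sum_mul]
  congr 1
  refine Fintype.sum_equiv σ _ _ ?_
  intro a
  rw [Matrix.mul_smul, Matrix.smul_mul, ← map_mul, ← map_mul, hconj, hdual]

theorem lsIdem_ne_zero_of_conj (g : G) (σ : (Fin m → F) ≃ (Fin m → F)) (l μ : Fin m → F)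
    (hconj : ∀ a, g * u a * g⁻¹ = u (σ a)) (hdual : ∀ a, l ⬝ᵥ a = μ ⬝ᵥ σ a)
    (hl : lsIdem ψ R u l ≠ 0) : lsIdem ψ R u μ ≠ 0 := by
  intro hμ
  apply hl
  have h1 := lsIdem_conj ψ R u g σ l μ hconj hdual
  rw [hμ] at h1
  have h2 : R g⁻¹ * (R g * lsIdem ψ R u l * R g⁻¹) * R g = lsIdem ψ R u l := by
    rw [← Matrix.mul_assoc, ← Matrix.mul_assoc, ← map_mul, inv_mul_cancel, map_one, Matrix.one_mul,
      Matrix.mul_assoc, ← map_mul, inv_mul_cancel, map_one, Matrix.mul_one]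
  rw [← h2, h1, Matrix.mul_zero, Matrix.zero_mul]

/-- The non-vanishing projections are at most `d` in number. -/
theorem card_lsIdem_ne_zero_le (hψ : ψ.IsPrimitive) (hq : (Fintype.card F : K) ≠ 0)
    (hu : ∀ a b, u (a + b) = u a * u b) :
    Nat.card {l : Fin m → F // lsIdem ψ R u l ≠ 0} ≤ d := by
  classical
  have hex : ∀ l : {l : Fin m → F // lsIdem ψ R u l ≠ 0}, ∃ v : Fin d → K,
      lsIdem ψ R u l.1 *ᵥ v ≠ 0 := by
    intro l
    by_contra hcon
    push Not at hcon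
    apply l.2
    have : Matrix.toLin' (lsIdem ψ R u l.1) = 0 := by
      apply LinearMap.ext
      intro v
      simpa using hcon v
    exact Matrix.toLin'.map_eq_zero_iff.mp this
  choose v hv using hex
  have hli : LinearIndependent K (fun l : {l : Fin m → F // lsIdem ψ R u l ≠ 0} =>
      lsIdem ψ R u l.1 *ᵥ v l) := by
    rw [linearIndependent_iff']
    intro s c hsum i hi
    have h1 := congrArg (fun x => lsIdem ψ R u i.1 *ᵥ x) hsum
    simp only [Matrix.mulVec_sum, Matrix.mulVec_smul, Matrix.mulVec_mulVec, Matrix.mulVec_zero] at h1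
    rw [Finset.sum_eq_single i] at h1
    · rw [lsIdem_mul_self ψ R u hq hu] at h1
      exact (smul_eq_zero.mp h1).resolve_right (hv i)
    · intro j _ hji
      rw [lsIdem_mul_of_ne ψ R u hψ hu _ _ (fun h => hji (Subtype.ext h)), Matrix.zero_mulVec,
        smul_zero]
    · intro hi'
      exact absurd hi hi'
  have := hli.fintype_card_le_finrank
  rw [Module.finrank_fin_fun] at this
  rw [Nat.card_eq_fintype_card]
  exact this

/-- Some projection in a prescribed set is non-zero when `u(a₀)` acts non-trivially and the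
characters outside the set are trivial on `a₀`. -/
theorem exists_lsIdem_ne_zero (hψ : ψ.IsPrimitive) (hq : (Fintype.card F : K) ≠ 0)
    (hu : ∀ a b, u (a + b) = u a * u b) (a₀ : Fin m → F) (ha₀ : R (u a₀) ≠ 1)
    (S₀ : Set (Fin m → F)) (hS₀ : ∀ l, l ∉ S₀ → ψ (l ⬝ᵥ a₀) = 1) :
    ∃ l ∈ S₀, lsIdem ψ R u l ≠ 0 := by
  by_contra hcon
  push Not at hcon
  apply ha₀
  have h1 : R (u a₀) = R (u a₀) * ∑ l : Fin m → F, lsIdem ψ R u l := by
    rw [sum_lsIdem ψ R u hψ hq hu, Matrix.mul_one]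
  rw [h1, Matrix.mul_sum]
  rw [← sum_lsIdem ψ R u hψ hq hu]
  refine Finset.sum_congr rfl (fun l _ => ?_)
  rw [lsIdem_mul_left ψ R u hu]
  by_cases hl : l ∈ S₀
  · rw [hcon l hl, smul_zero]
  · rw [hS₀ l hl, one_smul]

end LS

end Cfsg.Agent.H45
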