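import Mathlib
import Cfsg.Agent.H45.LS

/-!
# S2343 (team project, helper45): minimal degree of the small Ree groups — abstract setting.

`ReeRel G F`: elements of a group `G` subject to the relations of the Borel subgroup of `²G₂(q)`:
`A u v = R(0,u,v)` (an abelian group `F²`), `X t = R(t,0,0)`, torus elements `H s`, the involution
`i = h(-1,-1)` and a four-group `{1, j1, j2, j1 j2}` whose involutions are conjugate to `i`.
The characters of `A` are `l = ![b, c] : Fin 2 → F`, `a = ![u, v] ↦ ψ (b u + c v)`; the projections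
are `lsIdem ψ R D.uA l` (library `Cfsg.Agent.H45.LS`).
-/

set_option autoImplicit false

namespace Cfsg.Agent.H45.S43

open Matrix Cfsg.Agent.H45

universe u v

/-- Ree-type Borel relations in an abstract group -/
structure ReeRel (G : Type u) [Group G] (F : Type v) [Field F] where
  A : F → F → G
  X : F → G
  H : Fˣ → G
  κ : Fˣ → Fˣ
  i : G
  j1 : G
  j2 : G
  A_add : ∀ u v u' v' : F, A (u + u') (v + v') = A u v * A u' v'
  X_conj : ∀ t u v : F, X t * A u v = A u (v + t * u) * X t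
  H_conj : ∀ (s : Fˣ) (u v : F), H s * A u v = A ((κ s : F) * u) ((s : F) * v) * H s
  i_conj : ∀ u v : F, i * A u v = A u (-v) * i
  i_sq : i * i = 1
  j_comm : j1 * j2 = j2 * j1
  j1_conj : ∃ g : G, g * i * g⁻¹ = j1
  j2_conj : ∃ g : G, g * i * g⁻¹ = j2
  j12_conj : ∃ g : G, g * i * g⁻¹ = j1 * j2

/-- the parametrisation of the abelian group `A` by `F²` -/
def ReeRel.uA {G : Type u} [Group G] {F : Type v} [Field F] (D : ReeRel G F) (a : Fin 2 → F) : G :=
  D.A (a 0) (a 1)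

theorem ReeRel.uA_add {G : Type u} [Group G] {F : Type v} [Field F] (D : ReeRel G F)
    (a b : Fin 2 → F) : D.uA (a + b) = D.uA a * D.uA b := by
  unfold ReeRel.uA
  rw [Pi.add_apply, Pi.add_apply, D.A_add]

/-- (ORB) the projections of the characters non-trivial on `Z = A 0 *` are conjugate -/
def StOrb : Prop :=
  ∀ {G : Type u} [Group G] {F : Type v} [Field F] [Fintype F] (D : ReeRel G F) (ψ : AddChar F ℂ)
    {k : ℕ} (R : G →* Matrix (Fin k) (Fin k) ℂ) (l μ : Fin 2 → F), l 1 ≠ 0 → μ 1 ≠ 0 →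
    ∃ g : G, R g * lsIdem ψ R D.uA l * R g⁻¹ = lsIdem ψ R D.uA μ

/-- (EX) if `Z` acts non-trivially, some character non-trivial on `Z` occurs -/
def StEx : Prop :=
  ∀ {G : Type u} [Group G] {F : Type v} [Field F] [Fintype F] (D : ReeRel G F) (ψ : AddChar F ℂ),
    ψ.IsPrimitive → ∀ {k : ℕ} (R : G →* Matrix (Fin k) (Fin k) ℂ), R (D.A 0 1) ≠ 1 →
    ∃ l : Fin 2 → F, l 1 ≠ 0 ∧ lsIdem ψ R D.uA l ≠ 0

/-- (COUNTA) if all characters non-trivial on `Z` occur and also one trivial on `Z`, then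
`q² - q + 1 ≤ k` -/
def StCountA : Prop :=
  ∀ {G : Type u} [Group G] {F : Type v} [Field F] [Fintype F] (D : ReeRel G F) (ψ : AddChar F ℂ),
    ψ.IsPrimitive → ∀ {k : ℕ} (R : G →* Matrix (Fin k) (Fin k) ℂ),
    (∀ l : Fin 2 → F, l 1 ≠ 0 → lsIdem ψ R D.uA l ≠ 0) →
    (∃ l : Fin 2 → F, l 1 = 0 ∧ lsIdem ψ R D.uA l ≠ 0) →
    Fintype.card F ^ 2 - Fintype.card F + 1 ≤ k

/-- (TRI) if no character trivial on `Z` occurs, the involution `i` has trace 0 -/
def StTri : Prop :=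
  ∀ {G : Type u} [Group G] {F : Type v} [Field F] [Fintype F] (D : ReeRel G F) (ψ : AddChar F ℂ),
    ψ.IsPrimitive → Fintype.card F % 4 = 3 → ∀ {k : ℕ} (R : G →* Matrix (Fin k) (Fin k) ℂ),
    (∀ l : Fin 2 → F, l 1 = 0 → lsIdem ψ R D.uA l = 0) → Matrix.trace (R D.i) = 0

/-- (TRIDEM) the trace of an idempotent complex matrix is a natural number -/
def StTrIdem : Prop :=
  ∀ {k : ℕ} (M : Matrix (Fin k) (Fin k) ℂ), M * M = M → ∃ n : ℕ, Matrix.trace M = (n : ℂ)

/-- (FOUR) if `i` has trace 0, then `4 ∣ k` -/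
def StFour : Prop :=
  StTrIdem →
  ∀ {G : Type u} [Group G] {F : Type v} [Field F] (D : ReeRel G F)
    {k : ℕ} (R : G →* Matrix (Fin k) (Fin k) ℂ), Matrix.trace (R D.i) = 0 →
    ∃ n : ℕ, (k : ℂ) = 4 * (n : ℂ)

/-- (TRSUM) if no character trivial on `Z` occurs, then `q (q - 1) ∣ k` -/
def StTrSum : Prop :=
  StOrb.{u, v} → StTrIdem →
  ∀ {G : Type u} [Group G] {F : Type v} [Field F] [Fintype F] (D : ReeRel G F) (ψ : AddChar F ℂ),
    ψ.IsPrimitive → ∀ {k : ℕ} (R : G →* Matrix (Fin k) (Fin k) ℂ),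
    (∀ l : Fin 2 → F, l 1 = 0 → lsIdem ψ R D.uA l = 0) →
    ∃ r : ℕ, (k : ℂ) = (Fintype.card F : ℂ) * ((Fintype.card F : ℂ) - 1) * (r : ℂ)

/-- (ARITH) the final arithmetic -/
def StArith : Prop :=
  ∀ q k n r : ℕ, q % 4 = 3 → 2 ≤ k → (k : ℂ) = 4 * (n : ℂ) →
    (k : ℂ) = (q : ℂ) * ((q : ℂ) - 1) * (r : ℂ) → q ^ 2 - q + 1 ≤ k

/-- (MAT) an irreducible representation of degree `≥ 2` of a simple group gives a matrix
representation which is non-trivial on a given non-identity element -/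
def StMat : Prop :=
  ∀ {G : Type u} [Group G] [IsSimpleGroup G] {k : ℕ} (ρ : Representation ℂ G (Fin k → ℂ)),
    ρ.IsIrreducible → 2 ≤ k → ∀ z : G, z ≠ 1 →
    ∃ R : G →* Matrix (Fin k) (Fin k) ℂ, R z ≠ 1

end Cfsg.Agent.H45.S43
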