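import Mathlib
import Cfsg.Agent.H49.MinusForm
import Cfsg.Agent.H49.Eich2
import Cfsg.Agent.H49.Levi

set_option autoImplicit false
set_option linter.unusedSectionVars false

/-!
# Block framework for the minus-type orthogonal group (helper45, S2415)

Vectors of `(Fin k ⊕ Fin k) ⊕ Fin 2 → F` are written `tri x y z`; the form is
`QMin k F a b (tri x y z) = x ⬝ᵥ y + binQ a b z`.  Elements of the isometry group are described
by their action (`Cfsg.Agent.H49.act`) on the vectors `tri x y z`.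
-/

namespace Cfsg.Agent.H45.M

open Matrix Cfsg.Agent.H49

variable {F : Type*} [Field F] {k : ℕ}

/-- The isometry group of the minus-type form. -/
abbrev OM (k : ℕ) (F : Type*) [Field F] (a b : F) : Type _ :=
  ↥(Cfsg.isometryGroup F (⇑(QMin k F a b)))

/-- The vector with blocks `x`, `y`, `z`. -/
def tri (x y : Fin k → F) (z : Fin 2 → F) : (Fin k ⊕ Fin k) ⊕ Fin 2 → F :=
  Sum.elim (Sum.elim x y) z

theorem tri_eta (v : (Fin k ⊕ Fin k) ⊕ Fin 2 → F) :
    ∃ (x y : Fin k → F) (z : Fin 2 → F), v = tri x y z :=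
  ⟨fun i => v (Sum.inl (Sum.inl i)), fun i => v (Sum.inl (Sum.inr i)), fun i => v (Sum.inr i), by
    funext i
    rcases i with (i | i) | i <;> rfl⟩

theorem tri_add (x y x' y' : Fin k → F) (z z' : Fin 2 → F) :
    tri x y z + tri x' y' z' = tri (x + x') (y + y') (z + z') := by
  funext i
  rcases i with (i | i) | i <;> rfl

theorem tri_sub (x y x' y' : Fin k → F) (z z' : Fin 2 → F) :
    tri x y z - tri x' y' z' = tri (x - x') (y - y') (z - z') := by
  funext i
  rcases i with (i | i) | i <;> rfl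

theorem tri_smul (c : F) (x y : Fin k → F) (z : Fin 2 → F) :
    c • tri x y z = tri (c • x) (c • y) (c • z) := by
  funext i
  rcases i with (i | i) | i <;> rfl

theorem tri_neg (x y : Fin k → F) (z : Fin 2 → F) :
    - tri x y z = tri (-x) (-y) (-z) := by
  funext i
  rcases i with (i | i) | i <;> rfl

theorem tri_zero : tri (0 : Fin k → F) 0 0 = 0 := by
  funext i
  rcases i with (i | i) | i <;> rfl

theorem tri_inj {x y x' y' : Fin k → F} {z z' : Fin 2 → F} (h : tri x y z = tri x' y' z') :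
    x = x' ∧ y = y' ∧ z = z' :=
  ⟨funext fun i => congrFun h (Sum.inl (Sum.inl i)),
    funext fun i => congrFun h (Sum.inl (Sum.inr i)), funext fun i => congrFun h (Sum.inr i)⟩

theorem QMin_tri (a b : F) (x y : Fin k → F) (z : Fin 2 → F) :
    QMin k F a b (tri x y z) = x ⬝ᵥ y + binQ a b z := rfl

/-- The Gram matrix of the polar form of `binQ a b`. -/
def gam (a b : F) : Matrix (Fin 2) (Fin 2) F := !![2, a; a, 2 * b]

theorem polar_binQ_gam (a b : F) (z z' : Fin 2 → F) :
    QuadraticMap.polar (⇑(binQ a b)) z z' = z ⬝ᵥ (gam a b *ᵥ z') := by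
  rw [polar_binQ]
  simp only [gam, dotProduct, Matrix.mulVec, Fin.sum_univ_two, Matrix.of_apply,
    Matrix.cons_val', Matrix.cons_val_zero, Matrix.cons_val_one, Matrix.cons_val_fin_one]
  ring

theorem polar_tri (a b : F) (x y x' y' : Fin k → F) (z z' : Fin 2 → F) :
    QuadraticMap.polar (⇑(QMin k F a b)) (tri x y z) (tri x' y' z')
      = x ⬝ᵥ y' + x' ⬝ᵥ y + z ⬝ᵥ (gam a b *ᵥ z') := by
  rw [← polar_binQ_gam]
  simp only [QuadraticMap.polar, tri_add, QMin_tri, add_dotProduct, dotProduct_add]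
  ring

/-- Upper unipotent element with parameters `γ`, `S`. -/
def IsU {a b : F} (g : OM k F a b) (γ : Matrix (Fin 2) (Fin k) F)
    (S : Matrix (Fin k) (Fin k) F) : Prop :=
  ∀ (x y : Fin k → F) (z : Fin 2 → F),
    act g (tri x y z) = tri (x + S *ᵥ y - (γᵀ * gam a b) *ᵥ z) y (z + γ *ᵥ y)

/-- Lower unipotent element with parameters `γ`, `S`. -/
def IsL {a b : F} (g : OM k F a b) (γ : Matrix (Fin 2) (Fin k) F)
    (S : Matrix (Fin k) (Fin k) F) : Prop :=
  ∀ (x y : Fin k → F) (z : Fin 2 → F),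
    act g (tri x y z) = tri x (y + S *ᵥ x - (γᵀ * gam a b) *ᵥ z) (z + γ *ᵥ x)

/-- Levi element `diag(A, A', ρ)`. -/
def IsLevi {a b : F} (g : OM k F a b) (A A' : Matrix (Fin k) (Fin k) F)
    (ρ : Matrix (Fin 2) (Fin 2) F) : Prop :=
  ∀ (x y : Fin k → F) (z : Fin 2 → F), act g (tri x y z) = tri (A *ᵥ x) (A' *ᵥ y) (ρ *ᵥ z)

/-- Weyl-type element interchanging the `x` and `y` blocks. -/
def IsWeyl {a b : F} (g : OM k F a b) (N N' : Matrix (Fin k) (Fin k) F)
    (ν : Matrix (Fin 2) (Fin 2) F) : Prop :=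
  ∀ (x y : Fin k → F) (z : Fin 2 → F), act g (tri x y z) = tri (N *ᵥ y) (N' *ᵥ x) (ν *ᵥ z)

/-- `K` contains all upper unipotent elements. -/
def Qin {a b : F} (K : Subgroup (OM k F a b)) : Prop :=
  ∀ (g : OM k F a b) (γ : Matrix (Fin 2) (Fin k) F) (S : Matrix (Fin k) (Fin k) F),
    IsU g γ S → g ∈ K

/-- `K` contains all lower unipotent elements. -/
def Qlow {a b : F} (K : Subgroup (OM k F a b)) : Prop :=
  ∀ (g : OM k F a b) (γ : Matrix (Fin 2) (Fin k) F) (S : Matrix (Fin k) (Fin k) F),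
    IsL g γ S → g ∈ K

/-- The matrix of an isometry of the binary form. -/
abbrev bmat {a b : F} (r : ↥(Cfsg.isometryGroup F (⇑(binQ a b)))) : Matrix (Fin 2) (Fin 2) F :=
  ((r : Matrix.GeneralLinearGroup (Fin 2) F) : Matrix (Fin 2) (Fin 2) F)

/-- The block element `diag(A, A⁻ᵀ, r)`. -/
def lev (a b : F) (A : Matrix.GeneralLinearGroup (Fin k) F)
    (r : ↥(Cfsg.isometryGroup F (⇑(binQ a b)))) : OM k F a b :=
  blockIsoQ (QP k F) (binQ a b) (leviO k F A, r)

theorem isLevi_lev (a b : F) (A : Matrix.GeneralLinearGroup (Fin k) F)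
    (r : ↥(Cfsg.isometryGroup F (⇑(binQ a b)))) :
    IsLevi (lev a b A r) (A : Matrix (Fin k) (Fin k) F)
      ((A⁻¹ : Matrix.GeneralLinearGroup (Fin k) F) : Matrix (Fin k) (Fin k) F)ᵀ (bmat r) := by
  intro x y z
  have h1 := blockIsoQ_mulVec_inl (QP k F) (binQ a b) (leviO k F A, r) (tri x y z)
  have h2 := blockIsoQ_mulVec_inr (QP k F) (binQ a b) (leviO k F A, r) (tri x y z)
  have h3 := leviO_mulVec_inl k F A ((tri x y z) ∘ Sum.inl)
  have h4 := leviO_mulVec_inr k F A ((tri x y z) ∘ Sum.inl)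
  funext i
  rcases i with (i | i) | i
  · have := congrFun h1 (Sum.inl i)
    have h3' := h3 i
    simp only [Function.comp] at this h3'
    show act (lev a b A r) (tri x y z) (Sum.inl (Sum.inl i)) = _
    unfold act lev
    rw [this]
    exact h3'
  · have := congrFun h1 (Sum.inr i)
    have h4' := h4 i
    simp only [Function.comp] at this h4'
    show act (lev a b A r) (tri x y z) (Sum.inl (Sum.inr i)) = _
    unfold act lev
    rw [this]
    exact h4'
  · have := congrFun h2 i
    simp only [Function.comp] at this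
    show act (lev a b A r) (tri x y z) (Sum.inr i) = _
    unfold act lev
    rw [this]
    rfl

end Cfsg.Agent.H45.M
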