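import Mathlib
import Cfsg.Agent.H45.MDefs
import Cfsg.Agent.H45.MSeed
import Cfsg.Agent.H45.MWeyl
import Cfsg.Agent.H45.MMem
import Cfsg.Agent.H44.MBase
import Cfsg.Agent.H44.MXcyc
import Cfsg.Agent.Lib.Helper96.MField
import Cfsg.Agent.H4.MGen
import Cfsg.Agent.H25.MRot
import Cfsg.Agent.H60.MUnip
import Cfsg.Agent.H45.OAsm
import Cfsg.Agent.H49.OmegaGen
import Cfsg.Agent.H49.SimpleForms

set_option autoImplicit false
set_option linter.unusedSectionVars false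
set_option linter.unusedVariables false

/-!
# `PΩ⁻_{2m}(q)` is two-generated (helper45, assembly of the S2415 team project)
-/

namespace Cfsg.Agent.H45.M

open Matrix Cfsg.Agent.H49
open Cfsg.Agent.H44.M Cfsg.Agent.Lib.Helper96.M Cfsg.Agent.H4.M

variable {F : Type*} [Field F] {k : ℕ}

theorem bmat_mul {a b : F} (r s : ↥(Cfsg.isometryGroup F (⇑(binQ a b)))) :
    bmat (r * s) = bmat r * bmat s := rfl

theorem bmat_one {a b : F} : bmat (1 : ↥(Cfsg.isometryGroup F (⇑(binQ a b)))) = 1 := rfl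

theorem bmat_mul_inv {a b : F} (r : ↥(Cfsg.isometryGroup F (⇑(binQ a b)))) :
    bmat r * bmat r⁻¹ = 1 := by
  rw [← bmat_mul, mul_inv_cancel, bmat_one]

theorem bmat_pow {a b : F} (r : ↥(Cfsg.isometryGroup F (⇑(binQ a b)))) (n : ℕ) :
    bmat (r ^ n) = bmat r ^ n := by
  induction n with
  | zero => rw [pow_zero, pow_zero, bmat_one]
  | succ n ih => rw [pow_succ, pow_succ, bmat_mul, ih]

theorem closure_pow_mono {R : Type*} [Ring R] (x : R) (s : ℕ) :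
    AddSubgroup.closure (Set.range fun i : ℕ => (x ^ s) ^ i)
      ≤ AddSubgroup.closure (Set.range fun i : ℕ => x ^ i) := by
  apply AddSubgroup.closure_mono
  rintro _ ⟨i, rfl⟩
  exact ⟨s * i, by simp only [pow_mul]⟩

section main

variable [Fintype F]

theorem omega_minus_gen (a b : F)
    (hab : ∀ z₁ z₂ : F, z₁ ^ 2 + a * z₁ * z₂ + b * z₂ ^ 2 = 0 → z₁ = 0 ∧ z₂ = 0)
    (hk : 3 ≤ k) :
    ∃ g h : OM k F a b, g ∈ commutator (OM k F a b) ∧ h ∈ commutator (OM k F a b) ∧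
      Subgroup.closure {g, h} = commutator (OM k F a b) := by
  classical
  have hd : a ^ 2 - 4 * b ≠ 0 := disc_ne_zero_of_aniso a b hab
  obtain ⟨B, B', G, G', hBB', hB'B, hGG', hG'G, hGB, hBsq, hBo, hBcl, hBfix, hBtr⟩ :=
    field_M (F := F) k hk
  obtain ⟨r, hr, hrdet, hrd, hrefl⟩ := Cfsg.Agent.H25.M.rot a b hab
  let Bu : Matrix.GeneralLinearGroup (Fin k) F := ⟨B, B', hBB', hB'B⟩
  have hBuo : Bu ^ (Fintype.card F ^ k - 1) = 1 :=
    Units.ext (by rw [Units.val_pow_eq_pow_val]; exact hBo)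
  obtain ⟨j, hj, haΩ⟩ : ∃ j : ℕ, (j = 1 ∨ j = 2) ∧
      lev a b (Bu ^ j) r ∈ commutator (OM k F a b) := by
    rcases mem_a a b hab hk Bu hBsq hBuo r hr hrdet with h | h
    · exact ⟨1, Or.inl rfl, by rwa [pow_one]⟩
    · exact ⟨2, Or.inr rfl, by rwa [pow_two]⟩
  obtain ⟨n, N, N', ν, hnΩ, hnW, hNB, hN'N, hν⟩ :=
    mem_n a b hab hk B B' G G' hBB' hB'B hGG' hG'G hGB hBsq
  -- the Levi generator
  have hBj : B ^ j * B' ^ j = 1 := by
    rw [← (Commute.mul_pow (show Commute B B' from by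
      show B * B' = B' * B
      rw [hBB', hB'B]) j), hBB', one_pow]
  have hB'j : B' ^ j * B ^ j = 1 := by
    rw [← (Commute.mul_pow (show Commute B' B from by
      show B' * B = B * B'
      rw [hBB', hB'B]) j), hB'B, one_pow]
  obtain ⟨ga, hga⟩ : ∃ ga : OM k F a b, ga = lev a b (Bu ^ j) r := ⟨_, rfl⟩
  have hgaL : IsLevi ga (B ^ j) ((B' ^ j)ᵀ) (bmat r) := by
    have h := isLevi_lev a b (Bu ^ j) r
    have e1 : ((Bu ^ j : Matrix.GeneralLinearGroup (Fin k) F) : Matrix (Fin k) (Fin k) F)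
        = B ^ j := by rw [Units.val_pow_eq_pow_val]
    have e2 : (((Bu ^ j)⁻¹ : Matrix.GeneralLinearGroup (Fin k) F) : Matrix (Fin k) (Fin k) F)
        = B' ^ j := by
      rw [← inv_pow, Units.val_pow_eq_pow_val]
      rfl
    rw [e1, e2] at h
    rw [hga]
    exact h
  have hgaΩ : ga ∈ commutator (OM k F a b) := by rw [hga]; exact haΩ
  -- the unipotent element
  obtain ⟨i₀⟩ : Nonempty (Fin k) := ⟨⟨0, by omega⟩⟩
  obtain ⟨w₀, hw₀def⟩ : ∃ w₀ : Fin k → F, w₀ = Pi.single i₀ 1 := ⟨_, rfl⟩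
  have hw₀ : w₀ ≠ 0 := by
    intro h
    have := congrFun h i₀
    rw [hw₀def] at this
    simp at this
  obtain ⟨γ', hγ'⟩ : ∃ γ' : Matrix (Fin 2) (Fin k) F, γ' = Matrix.vecMulVec ![1, 0] w₀ :=
    ⟨_, rfl⟩
  have hS' : ∀ y : Fin k → F,
      y ⬝ᵥ (-(Matrix.vecMulVec w₀ w₀)) *ᵥ y + binQ a b (γ' *ᵥ y) = 0 := by
    intro y
    rw [hγ', Matrix.neg_mulVec, Matrix.vecMulVec_mulVec, Matrix.vecMulVec_mulVec, dotProduct_neg,
      binQ_apply]
    simp only [dotProduct_smul, Pi.smul_apply, MulOpposite.smul_eq_mul_unop,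
      MulOpposite.unop_op, Matrix.cons_val_zero, Matrix.cons_val_one]
    rw [dotProduct_comm y w₀]
    ring
  obtain ⟨u', hu'⟩ := exists_eU a b γ' _ hS'
  obtain ⟨S₀, hu⟩ := isU_comm_levi ga u' _ _ _ hgaL γ' _ hu'
  obtain ⟨u, hudef⟩ : ∃ u : OM k F a b, u = ga * u' * ga⁻¹ * u'⁻¹ := ⟨_, rfl⟩
  rw [← hudef] at hu
  obtain ⟨γ₀, hγ₀⟩ : ∃ γ₀ : Matrix (Fin 2) (Fin k) F, γ₀ = bmat r * γ' * (B ^ j)ᵀ - γ' :=
    ⟨_, rfl⟩
  rw [← hγ₀] at hu
  have huΩ : u ∈ commutator (OM k F a b) := by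
    rw [hudef, commutator_eq_closure]
    exact Subgroup.subset_closure ⟨ga, u', rfl⟩
  obtain ⟨gb, hgb⟩ : ∃ gb : OM k F a b, gb = u * n := ⟨_, rfl⟩
  have hgbΩ : gb ∈ commutator (OM k F a b) := by
    rw [hgb]
    exact Subgroup.mul_mem _ huΩ hnΩ
  obtain ⟨K, hK⟩ : ∃ K : Subgroup (OM k F a b), K = Subgroup.closure {ga, gb} := ⟨_, rfl⟩
  have haK : ga ∈ K := by rw [hK]; exact Subgroup.subset_closure (by simp)
  have hbK : gb ∈ K := by rw [hK]; exact Subgroup.subset_closure (by simp)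
  -- the conjugate Levi element
  have hg₁L := isLevi_conj_weyl n ga N N' (B ^ j) ((B' ^ j)ᵀ) (bmat ν) (bmat ν⁻¹) (bmat r) hnW
    (bmat_mul_inv ν) hgaL
  have hNN' : N * N'ᵀ = 1 := mul_eq_one_comm.mp hN'N
  have hNB' : N * B'ᵀ = B' * N := by
    have h1 : B' * (N * Bᵀ) * B'ᵀ = B' * (B * N) * B'ᵀ := by rw [hNB]
    rw [Matrix.mul_assoc, Matrix.mul_assoc, ← Matrix.transpose_mul, hB'B, Matrix.transpose_one,
      Matrix.mul_one, ← Matrix.mul_assoc B' B N, hB'B, Matrix.one_mul] at h1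
    exact h1.symm
  have hNB'pow : ∀ i : ℕ, N * (B'ᵀ) ^ i = B' ^ i * N := by
    intro i
    induction i with
    | zero => simp
    | succ i ih => rw [pow_succ, ← Matrix.mul_assoc, ih, Matrix.mul_assoc, hNB', ← Matrix.mul_assoc,
        ← pow_succ]
  have hNB'j : N * (B' ^ j)ᵀ = B' ^ j * N := by
    rw [Matrix.transpose_pow]
    exact hNB'pow j
  have hA₁ : N * (B' ^ j)ᵀ * N'ᵀ = B' ^ j := by
    rw [hNB'j, Matrix.mul_assoc, hNN', Matrix.mul_one]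
  rw [hA₁] at hg₁L
  -- ρ₁
  obtain ⟨ρ₁, hρ₁def⟩ : ∃ ρ₁ : Matrix (Fin 2) (Fin 2) F, ρ₁ = bmat ν * bmat r * bmat ν⁻¹ :=
    ⟨_, rfl⟩
  rw [← hρ₁def] at hg₁L
  have hρ₁ : ρ₁ = bmat r ∨ ρ₁ = bmat r⁻¹ := by
    rcases hν with h | h
    · left
      rw [hρ₁def, h, inv_one, bmat_one, Matrix.one_mul, Matrix.mul_one]
    · right
      rw [hρ₁def, h, reflG_inv, ← bmat_mul, ← bmat_mul, hrefl]
  have hρe : bmat r ^ (Fintype.card F + 1) = 1 := by rw [← bmat_pow, hr, bmat_one]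
  have hρρ' : bmat r * bmat r⁻¹ = 1 := bmat_mul_inv r
  have hρ'ρ : bmat r⁻¹ * bmat r = 1 := mul_eq_one_comm.mp hρρ'
  have hcommρ : bmat r * ρ₁ = ρ₁ * bmat r := by
    rcases hρ₁ with h | h
    · rw [h]
    · rw [h, hρρ', hρ'ρ]
  have hcommA : B ^ j * B' ^ j = B' ^ j * B ^ j := by rw [hBj, hB'j]
  obtain ⟨S₁, hs⟩ := seed ga (n * ga * n⁻¹) u (B ^ j) ((B' ^ j)ᵀ) (B' ^ j) (N' * B ^ j * Nᵀ)
    (bmat r) ρ₁ hgaL hg₁L hcommA hcommρ γ₀ S₀ hu
  have hsK : ga * (u * (n * ga * n⁻¹) * u⁻¹) * ga⁻¹ * (u * (n * ga * n⁻¹) * u⁻¹)⁻¹ ∈ K := by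
    have e : u * (n * ga * n⁻¹) * u⁻¹ = gb * ga * gb⁻¹ := by rw [hgb]; group
    rw [e]
    have h1 : gb * ga * gb⁻¹ ∈ K := K.mul_mem (K.mul_mem hbK haK) (K.inv_mem hbK)
    exact K.mul_mem (K.mul_mem (K.mul_mem haK h1) (K.inv_mem haK)) (K.inv_mem h1)
  -- cyclicity hypotheses
  have hBcl' : B ∈ AddSubgroup.closure
      (Set.range fun i : ℕ => ((B ^ j) ^ (Fintype.card F + 1)) ^ i) := by
    rcases hj with rfl | rfl
    · rw [pow_one]
      have h1 := closure_pow_mono (B ^ (Fintype.card F + 1)) 2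
      have e : (B ^ (Fintype.card F + 1)) ^ 2 = B ^ (2 * (Fintype.card F + 1)) := by
        rw [← pow_mul, mul_comm]
      rw [e] at h1
      exact h1 hBcl
    · rw [← pow_mul]
      exact hBcl
  have hfix' : ∀ v : Fin k → F, ((B ^ j) ^ (Fintype.card F + 1)) *ᵥ v = v → v = 0 := by
    intro v hv
    apply hBfix v
    rcases hj with rfl | rfl
    · rw [pow_one] at hv
      have e : B ^ (2 * (Fintype.card F + 1))
          = B ^ (Fintype.card F + 1) * B ^ (Fintype.card F + 1) := by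
        rw [← pow_add, two_mul]
      rw [e, ← Matrix.mulVec_mulVec, hv, hv]
    · rw [← pow_mul] at hv
      exact hv
  have hQin : Qin K := by
    apply Cfsg.Agent.H60.M.qin_of_seed a b hd K ga _ (B ^ j) ((B' ^ j)ᵀ) (bmat r) hgaL haK _ S₁ hs hsK
    intro C hC hmem
    refine xcyc B B' hBB' j (Fintype.card F + 1) (Nat.succ_pos _) (bmat r) (bmat r⁻¹) ρ₁ hρρ' hρe
      hρ₁ hBcl' hfix' w₀ (fun w hw => hBtr w₀ w hw₀ hw) ![1, 0] hrd C hC γ₀ _ ?_ ?_ hmem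
    · rw [hγ₀, hγ']
    · have e : bmat r * ρ₁ * γ₀ * (B' ^ j)ᵀ * (B ^ j)ᵀ = bmat r * ρ₁ * γ₀ := by
        rw [Matrix.mul_assoc (bmat r * ρ₁ * γ₀), ← Matrix.transpose_mul, hBj, Matrix.transpose_one,
          Matrix.mul_one]
      rw [e]
  have huK : u ∈ K := hQin u γ₀ S₀ hu
  have hnK : n ∈ K := by
    have e : n = u⁻¹ * gb := by rw [hgb]; group
    rw [e]
    exact K.mul_mem (K.inv_mem huK) hbK
  have hQlow : Qlow K := qlow_of_weyl K hQin n N N' (bmat ν) hnW hnK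
  have hsieg := gen a b hab hk K hQin hQlow
  have hQ := QMin_nondeg k a b hd
  have h3 := hasTS3_QMin (F := F) k hk a b
  have hle : commutator (OM k F a b) ≤ K :=
    (commutator_le_closure_siegelSet (QMin k F a b) hQ h3).trans ((Subgroup.closure_le K).2 hsieg)
  have hge : K ≤ commutator (OM k F a b) := by
    rw [hK, Subgroup.closure_le]
    rintro x (rfl | rfl)
    · exact hgaΩ
    · exact hgbΩ
  refine ⟨ga, gb, hgaΩ, hgbΩ, ?_⟩
  rw [← hK]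
  exact le_antisymm hge hle

theorem omega_minus_gen' (a b : F)
    (hab : ∀ z₁ z₂ : F, z₁ ^ 2 + a * z₁ * z₂ + b * z₂ ^ 2 = 0 → z₁ = 0 ∧ z₂ = 0)
    (hk : 3 ≤ k) :
    ∃ g h : ↥(Cfsg.isometryGroup F (Cfsg.quadFormMinus k F a b)),
      g ∈ commutator ↥(Cfsg.isometryGroup F (Cfsg.quadFormMinus k F a b)) ∧
      h ∈ commutator ↥(Cfsg.isometryGroup F (Cfsg.quadFormMinus k F a b)) ∧
      Subgroup.closure {g, h} = commutator ↥(Cfsg.isometryGroup F (Cfsg.quadFormMinus k F a b)) :=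
  omega_minus_gen a b hab hk

/-- `PΩ⁻_{2m}(q)`, `m ≥ 4`, is generated by two elements. -/
theorem pomega_minus_two_gen (m : ℕ) (hm : 4 ≤ m) (a b : F)
    (hab : ∀ z₁ z₂ : F, z₁ ^ 2 + a * z₁ * z₂ + b * z₂ ^ 2 = 0 → z₁ = 0 ∧ z₂ = 0) :
    ∃ g h : Cfsg.POmega F (Cfsg.quadFormMinus (m - 1) F a b),
      Subgroup.closure ({g, h} : Set (Cfsg.POmega F (Cfsg.quadFormMinus (m - 1) F a b))) = ⊤ := by
  obtain ⟨g, h, hg, hh, hgh⟩ := omega_minus_gen' (F := F) (k := m - 1) a b hab (by omega)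
  exact Cfsg.Agent.H45.O.quot_two_gen_of_closure
    (commutator ↥(Cfsg.isometryGroup F (Cfsg.quadFormMinus (m - 1) F a b))) g h hg hh hgh
    (Subgroup.center _)

end main

end Cfsg.Agent.H45.M
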