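import Mathlib
import Cfsg.Agent.H45.MDefs
import Cfsg.Agent.H45.MSeed
import Cfsg.Agent.H45.MWeyl
import Cfsg.Agent.H45.MMem
import Cfsg.Agent.H45.MAsm
import Cfsg.Agent.H45.MPBase
import Cfsg.Agent.H77.PUnipC
import Cfsg.Agent.H77.PSpread
import Cfsg.Agent.H16.PField
import Cfsg.Agent.H40.PComm
import Cfsg.Agent.H40.PIso
import Cfsg.Agent.H12.PGen
import Cfsg.Agent.H44.MBase
import Cfsg.Agent.H45.OAsm
import Cfsg.Agent.H49.OmegaGen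
import Cfsg.Agent.H49.SimpleForms

set_option autoImplicit false
set_option linter.unusedSectionVars false
set_option linter.unusedVariables false

/-!
# `PΩ⁺_{2m}(q)` is two-generated (helper45, assembly of the S2414 team project)

The plus form of dimension `2(k+1)` is `QMin k F 1 0 = x ⬝ᵥ y + z₀ (z₀ + z₁)`.
-/

namespace Cfsg.Agent.H45.MP

open Matrix Cfsg.Agent.H49 Cfsg.Agent.H45.M Cfsg.Agent.H44.M
open Cfsg.Agent.H77.MP
open Cfsg.Agent.H16.MP Cfsg.Agent.H40.MP Cfsg.Agent.H12.MP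

variable {F : Type*} [Field F] {k : ℕ}

theorem graph_mul (d₁ d₂ : Fin 2 → F) (B M : Matrix (Fin k) (Fin k) F) (hMB : M * B = B * M)
    (x : Fin k → F) :
    (vecMulVec d₁ x + vecMulVec d₂ (B *ᵥ x)) * Mᵀ
      = vecMulVec d₁ (M *ᵥ x) + vecMulVec d₂ (B *ᵥ (M *ᵥ x)) := by
  rw [Matrix.add_mul, vecMulVec_mul_transpose, vecMulVec_mul_transpose, Matrix.mulVec_mulVec,
    Matrix.mulVec_mulVec, hMB]

theorem graph_sub (d₁ d₂ : Fin 2 → F) (B : Matrix (Fin k) (Fin k) F) (x x' : Fin k → F) :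
    (vecMulVec d₁ x + vecMulVec d₂ (B *ᵥ x)) - (vecMulVec d₁ x' + vecMulVec d₂ (B *ᵥ x'))
      = vecMulVec d₁ (x - x') + vecMulVec d₂ (B *ᵥ (x - x')) := by
  rw [Matrix.mulVec_sub]
  ext i j
  simp only [Matrix.add_apply, Matrix.sub_apply, Matrix.vecMulVec_apply, Pi.sub_apply]
  ring

theorem graph_add (d₁ d₂ : Fin 2 → F) (B : Matrix (Fin k) (Fin k) F) (x x' : Fin k → F) :
    (vecMulVec d₁ x + vecMulVec d₂ (B *ᵥ x)) + (vecMulVec d₁ x' + vecMulVec d₂ (B *ᵥ x'))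
      = vecMulVec d₁ (x + x') + vecMulVec d₂ (B *ᵥ (x + x')) := by
  rw [Matrix.mulVec_add]
  ext i j
  simp only [Matrix.add_apply, Matrix.vecMulVec_apply, Pi.add_apply]
  ring

theorem graph_zero (d₁ d₂ : Fin 2 → F) (B : Matrix (Fin k) (Fin k) F) :
    vecMulVec d₁ (0 : Fin k → F) + vecMulVec d₂ (B *ᵥ (0 : Fin k → F)) = 0 := by
  rw [Matrix.mulVec_zero]
  ext i j
  simp only [Matrix.add_apply, Matrix.vecMulVec_apply, Pi.zero_apply, Matrix.zero_apply]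
  ring

theorem two_gen_transfer {G₁ G₂ : Type*} [Group G₁] [Group G₂] (e : G₁ ≃* G₂)
    (h : ∃ g h : G₁, g ∈ commutator G₁ ∧ h ∈ commutator G₁ ∧
      Subgroup.closure {g, h} = commutator G₁) :
    ∃ g h : G₂, g ∈ commutator G₂ ∧ h ∈ commutator G₂ ∧
      Subgroup.closure {g, h} = commutator G₂ := by
  obtain ⟨g, h, hg, hh, hgh⟩ := h
  have hmap : Subgroup.map e.toMonoidHom (commutator G₁) = commutator G₂ := by
    rw [commutator_def, Subgroup.map_commutator, ← MonoidHom.range_eq_map,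
      MonoidHom.range_eq_top.mpr e.surjective, commutator_def]
  refine ⟨e g, e h, ?_, ?_, ?_⟩
  · rw [← hmap]
    exact Subgroup.mem_map_of_mem _ hg
  · rw [← hmap]
    exact Subgroup.mem_map_of_mem _ hh
  · rw [← hmap, ← hgh, MonoidHom.map_closure, Set.image_pair]
    rfl

section main

variable [Fintype F]

theorem omega_plus_gen (hk : 3 ≤ k) :
    ∃ g h : OM k F 1 0, g ∈ commutator (OM k F 1 0) ∧ h ∈ commutator (OM k F 1 0) ∧
      Subgroup.closure {g, h} = commutator (OM k F 1 0) := by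
  classical
  have hd : (1 : F) ^ 2 - 4 * 0 ≠ 0 := by
    rw [one_pow, mul_zero, sub_zero]
    exact one_ne_zero
  obtain ⟨B, B', G, G', hBB', hB'B, hGG', hG'G, hGB, hBsq, hsimple, hfix, hDB, hBeig⟩ :=
    field_P (F := F) k hk
  let Bu : Matrix.GeneralLinearGroup (Fin k) F := ⟨B, B', hBB', hB'B⟩
  obtain ⟨n, N, N', ν, hnΩ, hnW, hNB, hN'N, hν⟩ :=
    mem_n' (1 : F) 0 hd hk B B' G G' hBB' hB'B hGG' hG'G hGB hBsq
  -- the Levi generator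
  have hBj : B ^ 2 * B' ^ 2 = 1 := by
    rw [← (Commute.mul_pow (show Commute B B' from by
      show B * B' = B' * B
      rw [hBB', hB'B]) 2), hBB', one_pow]
  have hB'j : B' ^ 2 * B ^ 2 = 1 := by
    rw [← (Commute.mul_pow (show Commute B' B from by
      show B' * B = B * B'
      rw [hBB', hB'B]) 2), hB'B, one_pow]
  obtain ⟨ga, hga⟩ : ∃ ga : OM k F 1 0, ga = lev 1 0 (Bu ^ 2) 1 := ⟨_, rfl⟩
  have hgaL : IsLevi ga (B ^ 2) ((B' ^ 2)ᵀ) 1 := by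
    have h := isLevi_lev (1 : F) 0 (Bu ^ 2) 1
    have e1 : ((Bu ^ 2 : Matrix.GeneralLinearGroup (Fin k) F) : Matrix (Fin k) (Fin k) F)
        = B ^ 2 := by rw [Units.val_pow_eq_pow_val]
    have e2 : (((Bu ^ 2)⁻¹ : Matrix.GeneralLinearGroup (Fin k) F) : Matrix (Fin k) (Fin k) F)
        = B' ^ 2 := by
      rw [← inv_pow, Units.val_pow_eq_pow_val]
      rfl
    rw [e1, e2, bmat_one] at h
    rw [hga]
    exact h
  have hgaΩ : ga ∈ commutator (OM k F 1 0) := by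
    have hQ := QMin_nondeg k (1 : F) 0 hd
    have h5 : 5 ≤ Module.finrank F ((Fin k ⊕ Fin k) ⊕ Fin 2 → F) := by
      rw [finrank_minus]
      omega
    have hsq := sq_mem_commutator (reflSet (QMin k F 1 0)) (reflSet_invol _)
      (closure_reflSet_eq_top_all _ hQ h5) (lev 1 0 Bu 1)
    rw [lev_mul, mul_one, ← pow_two] at hsq
    rw [hga]
    exact hsq
  -- the unipotent element
  obtain ⟨i₀⟩ : Nonempty (Fin k) := ⟨⟨0, by omega⟩⟩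
  obtain ⟨w₀, hw₀def⟩ : ∃ w₀ : Fin k → F, w₀ = Pi.single i₀ 1 := ⟨_, rfl⟩
  have hw₀ : w₀ ≠ 0 := by
    intro h
    have := congrFun h i₀
    rw [hw₀def] at this
    simp at this
  obtain ⟨d₁, hd₁⟩ : ∃ d₁ : Fin 2 → F, d₁ = ![0, 1] := ⟨_, rfl⟩
  obtain ⟨d₂, hd₂⟩ : ∃ d₂ : Fin 2 → F, d₂ = ![1, -1] := ⟨_, rfl⟩
  have h11 : d₁ ⬝ᵥ gam (1 : F) 0 *ᵥ d₁ = 0 := by
    rw [hd₁]
    simp [gam, dotProduct, Matrix.mulVec, Fin.sum_univ_two]
  have h22 : d₂ ⬝ᵥ gam (1 : F) 0 *ᵥ d₂ = 0 := by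
    rw [hd₂]
    simp [gam, dotProduct, Matrix.mulVec, Fin.sum_univ_two]
    ring
  have h12 : d₁ ⬝ᵥ gam (1 : F) 0 *ᵥ d₂ = 1 := by
    rw [hd₁, hd₂]
    simp [gam, dotProduct, Matrix.mulVec, Fin.sum_univ_two]
  have h21 : d₂ ⬝ᵥ gam (1 : F) 0 *ᵥ d₁ = 1 := by
    rw [hd₁, hd₂]
    simp [gam, dotProduct, Matrix.mulVec, Fin.sum_univ_two]
  have hbasis : ∀ γ : Matrix (Fin 2) (Fin k) F, ∃ w₁ w₂ : Fin k → F,
      γ = vecMulVec d₁ w₁ + vecMulVec d₂ w₂ := by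
    intro γ
    refine ⟨γ 1 + γ 0, γ 0, ?_⟩
    have key : ∀ i j, γ i j = d₁ i * (γ 1 + γ 0) j + d₂ i * (γ 0) j := by
      intro i j
      rw [hd₁, hd₂]
      fin_cases i
      · simp
      · simp
    ext i j
    rw [Matrix.add_apply, Matrix.vecMulVec_apply, Matrix.vecMulVec_apply]
    exact key i j
  have hB2B : B ^ 2 * B = B * B ^ 2 := by
    rw [← pow_succ, ← pow_succ']
  have hB'B2 : B' ^ 2 * B = B * B' ^ 2 := by
    rw [pow_two, Matrix.mul_assoc, hB'B, Matrix.mul_one, ← Matrix.mul_assoc, hBB', Matrix.one_mul]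
  obtain ⟨u', S', hu'⟩ := exists_U (k := k) (1 : F) 0 (vecMulVec d₁ w₀ + vecMulVec d₂ (B *ᵥ w₀))
  obtain ⟨S₀, hu⟩ := isU_comm_levi ga u' _ _ _ hgaL _ _ hu'
  obtain ⟨u, hudef⟩ : ∃ u : OM k F 1 0, u = ga * u' * ga⁻¹ * u'⁻¹ := ⟨_, rfl⟩
  rw [← hudef] at hu
  obtain ⟨x₀, hx₀⟩ : ∃ x₀ : Fin k → F, x₀ = (B ^ 2) *ᵥ w₀ - w₀ := ⟨_, rfl⟩
  have hγ₀ : (1 : Matrix (Fin 2) (Fin 2) F) * (vecMulVec d₁ w₀ + vecMulVec d₂ (B *ᵥ w₀))
      * (B ^ 2)ᵀ - (vecMulVec d₁ w₀ + vecMulVec d₂ (B *ᵥ w₀))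
      = vecMulVec d₁ x₀ + vecMulVec d₂ (B *ᵥ x₀) := by
    rw [Matrix.one_mul, graph_mul d₁ d₂ B (B ^ 2) hB2B, graph_sub, hx₀]
  rw [hγ₀] at hu
  have huΩ : u ∈ commutator (OM k F 1 0) := by
    rw [hudef, commutator_eq_closure]
    exact Subgroup.subset_closure ⟨ga, u', rfl⟩
  obtain ⟨gb, hgb⟩ : ∃ gb : OM k F 1 0, gb = u * n := ⟨_, rfl⟩
  have hgbΩ : gb ∈ commutator (OM k F 1 0) := by
    rw [hgb]
    exact Subgroup.mul_mem _ huΩ hnΩ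
  obtain ⟨K, hK⟩ : ∃ K : Subgroup (OM k F 1 0), K = Subgroup.closure {ga, gb} := ⟨_, rfl⟩
  have haK : ga ∈ K := by rw [hK]; exact Subgroup.subset_closure (by simp)
  have hbK : gb ∈ K := by rw [hK]; exact Subgroup.subset_closure (by simp)
  -- the conjugate Levi element
  have hg₁L := isLevi_conj_weyl n ga N N' (B ^ 2) ((B' ^ 2)ᵀ) (bmat ν) (bmat ν⁻¹) 1 hnW
    (bmat_mul_inv ν) hgaL
  have hNN' : N * N'ᵀ = 1 := mul_eq_one_comm.mp hN'N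
  have hNB' : N * B'ᵀ = B' * N := by
    have h1 : B' * (N * Bᵀ) * B'ᵀ = B' * (B * N) * B'ᵀ := by rw [hNB]
    rw [Matrix.mul_assoc, Matrix.mul_assoc, ← Matrix.transpose_mul, hB'B, Matrix.transpose_one,
      Matrix.mul_one, ← Matrix.mul_assoc B' B N, hB'B, Matrix.one_mul] at h1
    exact h1.symm
  have hNB'pow : ∀ i : ℕ, N * (B'ᵀ) ^ i = B' ^ i * N := by
    intro i
    induction i with
    | zero => simp
    | succ i ih => rw [pow_succ, ← Matrix.mul_assoc, ih, Matrix.mul_assoc, hNB', ← Matrix.mul_assoc,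
        ← pow_succ]
  have hNB'j : N * (B' ^ 2)ᵀ = B' ^ 2 * N := by
    rw [Matrix.transpose_pow]
    exact hNB'pow 2
  have hA₁ : N * (B' ^ 2)ᵀ * N'ᵀ = B' ^ 2 := by
    rw [hNB'j, Matrix.mul_assoc, hNN', Matrix.mul_one]
  have hρ₁ : bmat ν * (1 : Matrix (Fin 2) (Fin 2) F) * bmat ν⁻¹ = 1 := by
    rw [Matrix.mul_one, bmat_mul_inv]
  rw [hA₁, hρ₁] at hg₁L
  have hcommA : B ^ 2 * B' ^ 2 = B' ^ 2 * B ^ 2 := by rw [hBj, hB'j]
  obtain ⟨S₁, hs⟩ := seed ga (n * ga * n⁻¹) u (B ^ 2) ((B' ^ 2)ᵀ) (B' ^ 2) (N' * B ^ 2 * Nᵀ)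
    1 1 hgaL hg₁L hcommA rfl _ S₀ hu
  obtain ⟨x₁, hx₁def⟩ : ∃ x₁ : Fin k → F,
      x₁ = (B ^ 2) *ᵥ x₀ - x₀ + ((B' ^ 2) *ᵥ x₀ - x₀) := ⟨_, rfl⟩
  have hγ₁ : (1 : Matrix (Fin 2) (Fin 2) F) * (vecMulVec d₁ x₀ + vecMulVec d₂ (B *ᵥ x₀))
        * (B ^ 2)ᵀ
      - (1 : Matrix (Fin 2) (Fin 2) F) * 1 * (vecMulVec d₁ x₀ + vecMulVec d₂ (B *ᵥ x₀))
        * (B' ^ 2)ᵀ * (B ^ 2)ᵀ
      + (1 : Matrix (Fin 2) (Fin 2) F) * (vecMulVec d₁ x₀ + vecMulVec d₂ (B *ᵥ x₀)) * (B' ^ 2)ᵀ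
      - (vecMulVec d₁ x₀ + vecMulVec d₂ (B *ᵥ x₀))
      = vecMulVec d₁ x₁ + vecMulVec d₂ (B *ᵥ x₁) := by
    have e1 : (1 : Matrix (Fin 2) (Fin 2) F) * 1 * (vecMulVec d₁ x₀ + vecMulVec d₂ (B *ᵥ x₀))
        * (B' ^ 2)ᵀ * (B ^ 2)ᵀ = vecMulVec d₁ x₀ + vecMulVec d₂ (B *ᵥ x₀) := by
      rw [Matrix.mul_assoc _ ((B' ^ 2)ᵀ), ← Matrix.transpose_mul, hBj, Matrix.transpose_one,
        Matrix.mul_one, Matrix.one_mul, Matrix.one_mul]
    rw [e1, Matrix.one_mul, graph_mul d₁ d₂ B (B ^ 2) hB2B, graph_mul d₁ d₂ B (B' ^ 2) hB'B2,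
      graph_sub, add_sub_assoc, graph_sub, graph_add, hx₁def]
  rw [hγ₁] at hs
  have hx₀ne : x₀ ≠ 0 := by
    intro h
    apply hw₀
    apply hfix
    rw [hx₀] at h
    exact sub_eq_zero.mp h
  have hx₁ : x₁ ≠ 0 := by
    intro h
    apply hx₀ne
    apply hfix
    have h1 : (B ^ 2) *ᵥ ((B ^ 2) *ᵥ x₀ - x₀) = (B ^ 2) *ᵥ x₀ - x₀ := by
      have h2 : (B ^ 2) *ᵥ x₁ = 0 := by rw [h, Matrix.mulVec_zero]
      rw [hx₁def] at h2
      simp only [Matrix.mulVec_add, Matrix.mulVec_sub, Matrix.mulVec_mulVec, hBj,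
        Matrix.one_mulVec] at h2
      rw [Matrix.mulVec_sub, Matrix.mulVec_mulVec]
      linear_combination h2
    have h3 := hfix _ h1
    exact sub_eq_zero.mp h3
  have hsK : ga * (u * (n * ga * n⁻¹) * u⁻¹) * ga⁻¹ * (u * (n * ga * n⁻¹) * u⁻¹)⁻¹ ∈ K := by
    have e : u * (n * ga * n⁻¹) * u⁻¹ = gb * ga * gb⁻¹ := by rw [hgb]; group
    rw [e]
    have h1 : gb * ga * gb⁻¹ ∈ K := K.mul_mem (K.mul_mem hbK haK) (K.inv_mem hbK)
    exact K.mul_mem (K.mul_mem (K.mul_mem haK h1) (K.inv_mem haK)) (K.inv_mem h1)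
  -- the graph subgroup
  have hC := unip_c (1 : F) 0 K ga _ (B ^ 2) ((B' ^ 2)ᵀ) B hgaL haK hB2B hsimple hDB d₁ d₂
    h11 h22 h12 h21 x₁ hx₁ S₁ hs hsK
  have huK : u ∈ K := hC u x₀ S₀ hu
  have hnK : n ∈ K := by
    have e : n = u⁻¹ * gb := by rw [hgb]; group
    rw [e]
    exact K.mul_mem (K.inv_mem huK) hbK
  have hZ : ∀ (h : OM k F 1 0) (S : Matrix (Fin k) (Fin k) F), IsU h 0 S → h ∈ K := by
    intro h S hh
    apply hC h 0 S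
    rw [graph_zero]
    exact hh
  have hZ' := qlow0_of_weyl K hZ n N N' (bmat ν) hnW hnK
  have hT : ∀ (i l : Fin k), i ≠ l → ∀ (c : F) (h : OM k F 1 0),
      IsLevi h (1 + c • Matrix.single i l (1 : F)) (1 - c • Matrix.single l i (1 : F)) 1 →
        h ∈ K :=
    fun i l hil c h hh => levi_transv_mem (1 : F) 0 hk K hZ hZ' i l hil c h hh
  have hQin : Qin K :=
    qin_of_graph (1 : F) 0 (by omega) K ga (B ^ 2) ((B' ^ 2)ᵀ) B hgaL haK hsimple hBeig d₁ d₂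
      hbasis hC hT
  have hQlow : Qlow K := qlow_of_weyl K hQin n N N' (bmat ν) hnW hnK
  have hsieg := gen_h (1 : F) 0 hd hk K hQin hQlow
  have hQ := QMin_nondeg k (1 : F) 0 hd
  have h3 := hasTS3_QMin (F := F) k hk 1 0
  have hle : commutator (OM k F 1 0) ≤ K :=
    (commutator_le_closure_siegelSet (QMin k F 1 0) hQ h3).trans ((Subgroup.closure_le K).2 hsieg)
  have hge : K ≤ commutator (OM k F 1 0) := by
    rw [hK, Subgroup.closure_le]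
    rintro x (rfl | rfl)
    · exact hgaΩ
    · exact hgbΩ
  refine ⟨ga, gb, hgaΩ, hgbΩ, ?_⟩
  rw [← hK]
  exact le_antisymm hge hle

theorem omega_plus_gen' (k : ℕ) (hk : 3 ≤ k) :
    ∃ g h : ↥(Cfsg.isometryGroup F (Cfsg.quadFormMinus k F 1 0)),
      g ∈ commutator ↥(Cfsg.isometryGroup F (Cfsg.quadFormMinus k F 1 0)) ∧
      h ∈ commutator ↥(Cfsg.isometryGroup F (Cfsg.quadFormMinus k F 1 0)) ∧
      Subgroup.closure {g, h} = commutator ↥(Cfsg.isometryGroup F (Cfsg.quadFormMinus k F 1 0)) :=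
  omega_plus_gen hk

theorem omega_plus_gen'' (k : ℕ) (hk : 3 ≤ k) :
    ∃ g h : ↥(Cfsg.isometryGroup F (Cfsg.quadFormPlus (k + 1) F)),
      g ∈ commutator ↥(Cfsg.isometryGroup F (Cfsg.quadFormPlus (k + 1) F)) ∧
      h ∈ commutator ↥(Cfsg.isometryGroup F (Cfsg.quadFormPlus (k + 1) F)) ∧
      Subgroup.closure {g, h} = commutator ↥(Cfsg.isometryGroup F (Cfsg.quadFormPlus (k + 1) F)) := by
  obtain ⟨e⟩ := iso_plus F k
  exact two_gen_transfer e (omega_plus_gen' k hk)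

/-- `PΩ⁺_{2m}(q)`, `m ≥ 4`, is generated by two elements. -/
theorem pomega_plus_two_gen (m : ℕ) (hm : 4 ≤ m) :
    ∃ g h : Cfsg.POmega F (Cfsg.quadFormPlus m F),
      Subgroup.closure ({g, h} : Set (Cfsg.POmega F (Cfsg.quadFormPlus m F))) = ⊤ := by
  obtain ⟨k, rfl⟩ : ∃ k, m = k + 1 := ⟨m - 1, by omega⟩
  obtain ⟨g, h, hg, hh, hgh⟩ := omega_plus_gen'' (F := F) k (by omega)
  exact Cfsg.Agent.H45.O.quot_two_gen_of_closure
    (commutator ↥(Cfsg.isometryGroup F (Cfsg.quadFormPlus (k + 1) F))) g h hg hh hgh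
    (Subgroup.center _)

end main

end Cfsg.Agent.H45.MP
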