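import Mathlib
import Cfsg.Agent.H45.IsoGen
import Cfsg.Agent.H45.OrthUnip
import Cfsg.Agent.H49.CD
import Cfsg.Agent.S0292

set_option autoImplicit false

namespace Cfsg.Agent.H45

open Matrix Polynomial Module Cfsg.Agent.H49

universe u

section OrthRev

variable {F : Type u} [Field F]
variable {ι : Type} [Fintype ι] [DecidableEq ι]

/-- Divisors of the characteristic polynomial of an orthogonal matrix are closed under
reversal. -/
theorem orth_rev (Q : QuadraticForm F (ι → F))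
    (hnd : ∀ x : ι → F, (∀ y, QuadraticMap.polar (⇑Q) x y = 0) → x = 0)
    (g : ↥(Cfsg.isometryGroup F (⇑Q))) (f : F[X])
    (hf : f ∣ ((g : Matrix.GeneralLinearGroup ι F) : Matrix ι ι F).charpoly) :
    f.reverse ∣ ((g : Matrix.GeneralLinearGroup ι F) : Matrix ι ι F).charpoly := by
  have hG0 := stdGram_conj Q g
  obtain ⟨M, hM⟩ : ∃ M : Matrix ι ι F,
      M = ((g : Matrix.GeneralLinearGroup ι F) : Matrix ι ι F) := ⟨_, rfl⟩
  rw [← hM] at hf hG0 ⊢
  have hGdet := stdGram_det_ne_zero Q hnd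
  have hMdet : M.det ≠ 0 := by
    intro h0
    apply hGdet
    rw [← hG0, Matrix.det_mul, h0, mul_zero]
  have hMunit : IsUnit M.det := IsUnit.mk0 _ hMdet
  have h1 : stdGram Q * M⁻¹ = Mᵀ * stdGram Q := by
    calc stdGram Q * M⁻¹ = (Mᵀ * stdGram Q * M) * M⁻¹ := by rw [hG0]
      _ = Mᵀ * stdGram Q := Matrix.mul_nonsing_inv_cancel_right _ _ hMunit
  have h2 : M⁻¹.charpoly = Mᵀ.charpoly :=
    charpoly_eq_of_conj (stdGram Q) M⁻¹ Mᵀ (IsUnit.mk0 _ hGdet) h1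
  rw [Matrix.charpoly_transpose, charpoly_inv_eq M hMdet] at h2
  obtain ⟨c, hc⟩ := hf
  rw [← h2]
  refine Dvd.dvd.mul_left ?_ _
  rw [hc, reverse_mul_of_domain]
  exact dvd_mul_right _ _

/-- Divisors of the characteristic polynomial of a symplectic matrix are closed under
reversal. -/
theorem sp_rev [Fintype F] (n : ℕ) (g : ↥(Matrix.symplecticGroup (Fin n) F)) (f : F[X])
    (hf : f ∣ (((spIso n F g : ↥(Cfsg.isometryGroup F (fun _ : Fin n ⊕ Fin n → F => (0 : F)))) :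
      Matrix.GeneralLinearGroup (Fin n ⊕ Fin n) F) :
        Matrix (Fin n ⊕ Fin n) (Fin n ⊕ Fin n) F).charpoly) :
    f.reverse ∣ (((spIso n F g : ↥(Cfsg.isometryGroup F (fun _ : Fin n ⊕ Fin n → F => (0 : F)))) :
      Matrix.GeneralLinearGroup (Fin n ⊕ Fin n) F) :
        Matrix (Fin n ⊕ Fin n) (Fin n ⊕ Fin n) F).charpoly := by
  have e : (((spIso n F g : ↥(Cfsg.isometryGroup F (fun _ : Fin n ⊕ Fin n → F => (0 : F)))) :
      Matrix.GeneralLinearGroup (Fin n ⊕ Fin n) F) :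
        Matrix (Fin n ⊕ Fin n) (Fin n ⊕ Fin n) F) =
      (g : Matrix (Fin n ⊕ Fin n) (Fin n ⊕ Fin n) F) := rfl
  rw [e] at hf ⊢
  obtain ⟨c, hc⟩ := hf
  refine ⟨c.reverse, ?_⟩
  rw [← reverse_mul_of_domain, ← hc, sp_charpoly_reverse n _ g.2]

/-- Squares of isometries lie in the commutator subgroup (odd characteristic). -/
theorem sq_mem_commutator (Q : QuadraticForm F (ι → F)) (h2 : (2 : F) ≠ 0)
    (hQ : (QuadraticMap.polarBilin Q).Nondegenerate) (g : ↥(Cfsg.isometryGroup F (⇑Q))) :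
    g ^ 2 ∈ commutator ↥(Cfsg.isometryGroup F (⇑Q)) := by
  let ψ : ↥(Cfsg.isometryGroup F (⇑Q)) →* Abelianization ↥(Cfsg.isometryGroup F (⇑Q)) :=
    (powMonoidHom 2).comp Abelianization.of
  have hker : Subgroup.closure (reflSet Q) ≤ ψ.ker := by
    rw [Subgroup.closure_le]
    rintro x ⟨v, hv, rfl⟩
    show (Abelianization.of (reflG Q v)) ^ 2 = 1
    rw [← map_pow, pow_two, reflG_mul_self, map_one]
  rw [closure_reflSet_eq_top Q h2 hQ] at hker
  have h1 : (Abelianization.of g) ^ 2 = 1 := hker (Subgroup.mem_top g)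
  rw [← Abelianization.ker_of, MonoidHom.mem_ker, map_pow]
  exact h1

/-- Isometries of odd order lie in the commutator subgroup. -/
theorem mem_commutator_of_odd (Q : QuadraticForm F (ι → F)) (h2 : (2 : F) ≠ 0)
    (hQ : (QuadraticMap.polarBilin Q).Nondegenerate) (g : ↥(Cfsg.isometryGroup F (⇑Q)))
    (hodd : Odd (orderOf g)) : g ∈ commutator ↥(Cfsg.isometryGroup F (⇑Q)) := by
  obtain ⟨c, hc⟩ := hodd
  have h1 : g = (g ^ 2) ^ (c + 1) := by
    rw [← pow_mul, show 2 * (c + 1) = orderOf g + 1 by omega, pow_succ, pow_orderOf_eq_one,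
      one_mul]
  rw [h1]
  exact Subgroup.pow_mem _ (sq_mem_commutator Q h2 hQ g) _

theorem om_has_of_mem (h2 : (2 : F) ≠ 0) (n : ℕ) (hn : 2 ≤ n)
    (g : ↥(Cfsg.isometryGroup F ⇑(H7.qOdd n F)))
    (hg : g ∈ commutator ↥(Cfsg.isometryGroup F ⇑(H7.qOdd n F))) :
    orderOf g ∈ Set.range (orderOf : Cfsg.POmega F ⇑(H7.qOdd n F) → ℕ) := by
  have hcenter := Cfsg.Agent.S0292.center_eq_bot (F := F) h2 n hn
  have hπinj : Function.Injective
      (QuotientGroup.mk' (Subgroup.center (Cfsg.Omega F ⇑(H7.qOdd n F)))) := by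
    rw [← MonoidHom.ker_eq_bot_iff, QuotientGroup.ker_mk', hcenter]
  refine ⟨QuotientGroup.mk' _ ⟨g, hg⟩, ?_⟩
  rw [orderOf_injective _ hπinj, ← Subgroup.orderOf_coe]

theorem om_lift (h2 : (2 : F) ≠ 0) (n : ℕ) (hn : 2 ≤ n) (N : ℕ)
    (h : N ∈ Set.range (orderOf : Cfsg.POmega F ⇑(H7.qOdd n F) → ℕ)) :
    ∃ g : ↥(Cfsg.isometryGroup F ⇑(H7.qOdd n F)),
      g ∈ commutator ↥(Cfsg.isometryGroup F ⇑(H7.qOdd n F)) ∧ orderOf g = N := by
  obtain ⟨y, hy⟩ := h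
  obtain ⟨g₀, rfl⟩ := QuotientGroup.mk'_surjective _ y
  have hcenter := Cfsg.Agent.S0292.center_eq_bot (F := F) h2 n hn
  have hπinj : Function.Injective
      (QuotientGroup.mk' (Subgroup.center (Cfsg.Omega F ⇑(H7.qOdd n F)))) := by
    rw [← MonoidHom.ker_eq_bot_iff, QuotientGroup.ker_mk', hcenter]
  rw [orderOf_injective _ hπinj, ← Subgroup.orderOf_coe] at hy
  exact ⟨g₀.1, g₀.2, hy⟩

theorem om_has_odd (h2 : (2 : F) ≠ 0) (n : ℕ) (hn : 2 ≤ n)
    (G : ↥(Cfsg.isometryGroup F ⇑(H7.qOdd n F))) (N : ℕ) (hN : orderOf G = N) (hodd : Odd N) :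
    N ∈ Set.range (orderOf : Cfsg.POmega F ⇑(H7.qOdd n F) → ℕ) := by
  rw [← hN]
  apply om_has_of_mem h2 n hn
  apply mem_commutator_of_odd (H7.qOdd n F) h2 (H7.qOdd_nondeg n h2)
  rw [hN]
  exact hodd

theorem om_has_four (h2 : (2 : F) ≠ 0) (n : ℕ) (hn : 2 ≤ n)
    (G : ↥(Cfsg.isometryGroup F ⇑(H7.qOdd n F))) (M : ℕ) (hG : orderOf G = 4 * M) :
    2 * M ∈ Set.range (orderOf : Cfsg.POmega F ⇑(H7.qOdd n F) → ℕ) := by
  have h1 : orderOf (G ^ 2) = 2 * M := by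
    rw [orderOf_pow' G (by norm_num), hG,
      Nat.gcd_eq_right (Dvd.intro (2 * M) (by ring) : 2 ∣ 4 * M)]
    omega
  rw [← h1]
  exact om_has_of_mem h2 n hn _ (sq_mem_commutator (H7.qOdd n F) h2 (H7.qOdd_nondeg n h2) G)

end OrthRev

end Cfsg.Agent.H45
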