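import Mathlib
import Cfsg.Agent.H45.OrthRev
import Cfsg.Agent.H49.StdBasis
import Cfsg.Agent.H49.Similar

set_option autoImplicit false

namespace Cfsg.Agent.H45

open Matrix Polynomial Module Cfsg.Agent.H49

universe u

section OData

variable {F : Type u} [Field F]

/-- An abstract quadratic space of dimension `d` with an isometry of finite order all of whose
trivial powers have exponent divisible by `N`. -/
def OData (F : Type u) [Field F] (d N : ℕ) : Prop :=
  ∃ (W : Type u) (_ : AddCommGroup W) (_ : Module F W) (_ : FiniteDimensional F W)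
    (Q : QuadraticForm F W) (g : Module.End F W),
    Module.finrank F W = d ∧ (∀ x, (∀ y, QuadraticMap.polar ⇑Q x y = 0) → x = 0) ∧
    (∀ x, Q (g x) = Q x) ∧ (∃ m : ℕ, 0 < m ∧ g ^ m = 1) ∧ ∀ j : ℕ, g ^ j = 1 → N ∣ j

theorem odata_sum {d₁ d₂ N₁ N₂ : ℕ} (h₁ : OData F d₁ N₁) (h₂ : OData F d₂ N₂)
    (hcop : Nat.Coprime N₁ N₂) : OData F (d₁ + d₂) (N₁ * N₂) := by
  obtain ⟨W₁, _, _, _, Q₁, g₁, hfr₁, hnd₁, hiso₁, ⟨m₁, hm₁, hg₁⟩, hN₁⟩ := h₁
  obtain ⟨W₂, _, _, _, Q₂, g₂, hfr₂, hnd₂, hiso₂, ⟨m₂, hm₂, hg₂⟩, hN₂⟩ := h₂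
  have hpow : ∀ j : ℕ, (g₁.prodMap g₂) ^ j = (g₁ ^ j).prodMap (g₂ ^ j) := by
    intro j
    induction j with
    | zero => rw [pow_zero, pow_zero, pow_zero, LinearMap.prodMap_one]
    | succ j ih => rw [pow_succ, ih, LinearMap.prodMap_mul, ← pow_succ, ← pow_succ]
  refine ⟨W₁ × W₂, inferInstance, inferInstance, inferInstance, Q₁.prod Q₂, g₁.prodMap g₂, ?_, ?_,
    ?_, ⟨m₁ * m₂, Nat.mul_pos hm₁ hm₂, ?_⟩, ?_⟩
  · rw [Module.finrank_prod, hfr₁, hfr₂]
  · intro x hx
    have h1 : x.1 = 0 := by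
      apply hnd₁
      intro y
      have h := hx (y, 0)
      rw [QuadraticMap.polar_prod] at h
      simpa using h
    have h2 : x.2 = 0 := by
      apply hnd₂
      intro y
      have h := hx (0, y)
      rw [QuadraticMap.polar_prod] at h
      simpa using h
    exact Prod.ext h1 h2
  · intro x
    rw [QuadraticMap.prod_apply, QuadraticMap.prod_apply, LinearMap.prodMap_apply, hiso₁, hiso₂]
  · have e1 : g₁ ^ (m₁ * m₂) = 1 := by rw [pow_mul, hg₁, one_pow]
    have e2 : g₂ ^ (m₁ * m₂) = 1 := by rw [mul_comm, pow_mul, hg₂, one_pow]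
    rw [hpow, e1, e2, LinearMap.prodMap_one]
  · intro j hj
    rw [hpow] at hj
    have h1 : g₁ ^ j = 1 := by
      apply LinearMap.ext
      intro x
      have h := congrArg (fun φ : Module.End F (W₁ × W₂) => (φ (x, 0)).1) hj
      simpa using h
    have h2 : g₂ ^ j = 1 := by
      apply LinearMap.ext
      intro x
      have h := congrArg (fun φ : Module.End F (W₁ × W₂) => (φ (0, x)).2) hj
      simpa using h
    exact hcop.mul_dvd_of_dvd_of_dvd (hN₁ j h1) (hN₂ j h2)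

theorem odata_zero : OData F 0 1 := by
  refine ⟨PUnit.{u + 1}, inferInstance, inferInstance, inferInstance, 0, 1, ?_, ?_, fun x => rfl,
    ⟨1, one_pos, pow_one 1⟩, fun _ _ => one_dvd _⟩
  · exact Module.finrank_zero_of_subsingleton
  · intro x _
    exact Subsingleton.elim _ _

theorem odata_one (h2 : (2 : F) ≠ 0) : OData F 1 1 := by
  refine ⟨F, inferInstance, inferInstance, inferInstance, QuadraticMap.sq, 1, ?_, ?_,
    fun x => rfl, ⟨1, one_pos, pow_one 1⟩, fun _ _ => one_dvd _⟩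
  · exact Module.finrank_self F
  · intro x hx
    have h := hx 1
    simp only [QuadraticMap.polar, QuadraticMap.sq_apply] at h
    have h3 : (2 : F) * x = 0 := by linear_combination h
    exact (mul_eq_zero.mp h3).resolve_left h2

theorem odata_pad (h2 : (2 : F) ≠ 0) (j : ℕ) : OData F j 1 := by
  induction j with
  | zero => exact odata_zero
  | succ j ih =>
    have h := odata_sum ih (odata_one h2) (Nat.coprime_one_right 1)
    rw [mul_one] at h
    exact h

/-- The unipotent maps `x ↦ (x₀ + 2 c x₁ + c² x₂, x₁ + c x₂, x₂)`. -/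
def unipMap (c : F) : Module.End F (Fin 3 → F) where
  toFun x := ![x 0 + 2 * c * x 1 + c * c * x 2, x 1 + c * x 2, x 2]
  map_add' x y := by
    funext i
    fin_cases i <;> simp <;> ring
  map_smul' a x := by
    funext i
    fin_cases i <;> simp <;> ring

theorem unipMap_apply (c : F) (x : Fin 3 → F) :
    unipMap c x = ![x 0 + 2 * c * x 1 + c * c * x 2, x 1 + c * x 2, x 2] := rfl

theorem unipMap_mul (a b : F) : unipMap a * unipMap b = unipMap (a + b) := by
  apply LinearMap.ext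
  intro x
  rw [Module.End.mul_apply, unipMap_apply, unipMap_apply, unipMap_apply]
  funext i
  fin_cases i <;> simp <;> ring

theorem unipMap_zero : unipMap (0 : F) = 1 := by
  apply LinearMap.ext
  intro x
  rw [unipMap_apply]
  funext i
  fin_cases i <;> simp

theorem unipMap_pow (j : ℕ) : unipMap (1 : F) ^ j = unipMap (j : F) := by
  induction j with
  | zero => rw [pow_zero, Nat.cast_zero, unipMap_zero]
  | succ j ih => rw [pow_succ, ih, unipMap_mul, Nat.cast_succ]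

/-- The quadratic form `x₁² - x₀ x₂`. -/
def unipForm (F : Type u) [Field F] : QuadraticForm F (Fin 3 → F) :=
  QuadraticMap.proj (1 : Fin 3) 1 - QuadraticMap.proj (0 : Fin 3) 2

theorem unipForm_apply (x : Fin 3 → F) : unipForm F x = x 1 * x 1 - x 0 * x 2 := rfl

theorem odata_unip (h2 : (2 : F) ≠ 0) (p : ℕ) [Fact p.Prime] [CharP F p] : OData F 3 p := by
  have hp : p.Prime := Fact.out
  refine ⟨Fin 3 → F, inferInstance, inferInstance, inferInstance, unipForm F, unipMap 1, ?_, ?_,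
    ?_, ⟨p, hp.pos, ?_⟩, ?_⟩
  · rw [Module.finrank_fintype_fun_eq_card, Fintype.card_fin]
  · intro x hx
    have h0 := hx ![1, 0, 0]
    have h1 := hx ![0, 1, 0]
    have h2' := hx ![0, 0, 1]
    simp only [QuadraticMap.polar, unipForm_apply, Pi.add_apply] at h0 h1 h2'
    simp at h0 h1 h2'
    funext i
    fin_cases i
    · show x 0 = 0
      linear_combination (-1 : F) * h2'
    · show x 1 = 0
      have h3 : (2 : F) * x 1 = 0 := by linear_combination h1
      exact (mul_eq_zero.mp h3).resolve_left h2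
    · show x 2 = 0
      linear_combination (-1 : F) * h0
  · intro x
    rw [unipForm_apply, unipForm_apply, unipMap_apply]
    simp
    ring
  · rw [unipMap_pow, CharP.cast_eq_zero, unipMap_zero]
  · intro j hj
    rw [unipMap_pow] at hj
    have h := congrArg (fun φ : Module.End F (Fin 3 → F) => φ ![0, 0, 1] 1) hj
    simp [unipMap_apply] at h
    exact (CharP.cast_eq_zero_iff F p j).mp h

/-- The form trick: a symplectic isometry without eigenvalues `±1` is orthogonal for a suitable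
nondegenerate quadratic form. -/
theorem odata_of_symp (h2 : (2 : F) ≠ 0) (p : ℕ) [Fact p.Prime] [CharP F p] (P₀ : F[X]) (N : ℕ)
    (hr : Realizable (RingHom.id F) (-1) p P₀) (h1 : P₀.eval 1 ≠ 0) (hm1 : P₀.eval (-1) ≠ 0)
    (hfA : ∀ (ι : Type) [Fintype ι] [DecidableEq ι] (A : Matrix ι ι F) (j : ℕ),
      P₀ ∣ A.charpoly → A ^ j = 1 → N ∣ j) : OData F P₀.natDegree N := by
  classical
  obtain ⟨V, _, _, _, B, g, hd, hc, m, hm, hgm⟩ := hr
  have hp : p.Prime := Fact.out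
  have hm0 : 0 < m := Nat.pos_of_ne_zero (fun h => hm (by rw [h]; exact dvd_zero p))
  obtain ⟨gi, hgi⟩ : ∃ gi : Module.End F V, gi = g ^ (m - 1) := ⟨_, rfl⟩
  have hggi : g * gi = 1 := by rw [hgi, ← pow_succ', Nat.sub_add_cancel hm0, hgm]
  have hgig : gi * g = 1 := by rw [hgi, ← pow_succ, Nat.sub_add_cancel hm0, hgm]
  have hggi' : ∀ x, g (gi x) = x := fun x => by
    rw [← Module.End.mul_apply, hggi, Module.End.one_apply]
  have hgig' : ∀ x, gi (g x) = x := fun x => by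
    rw [← Module.End.mul_apply, hgig, Module.End.one_apply]
  obtain ⟨h, hh⟩ : ∃ h : Module.End F V, h = g - gi := ⟨_, rfl⟩
  have hhx : ∀ x, h x = g x - gi x := fun x => by rw [hh, LinearMap.sub_apply]
  have hskew : ∀ x y, B y x = -B x y := by
    intro x y
    rw [hd.herm x y, RingHom.id_apply, neg_one_mul]
  have hgi_adj : ∀ x y, B x (g y) = B (gi x) y := by
    intro x y
    have h3 := hd.isom (gi x) y
    rw [hggi'] at h3
    exact h3
  have hg_adj : ∀ x y, B x (gi y) = B (g x) y := by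
    intro x y
    have h3 := hd.isom x (gi y)
    rw [hggi'] at h3
    exact h3.symm
  have hsymm : ∀ x y, B y (h x) = B x (h y) := by
    intro x y
    rw [hhx, hhx, map_sub, map_sub, hgi_adj y x, hg_adj y x, hskew x (gi y), hskew x (g y)]
    ring
  have hcomm : ∀ x, h (g x) = g (h x) := fun x => by
    rw [hhx, hhx, map_sub, hgig', hggi']
  have hinj : ∀ x, h x = 0 → x = 0 := by
    intro x hx
    rw [hhx, sub_eq_zero] at hx
    have h3 : g (g x) = x := by rw [hx, hggi']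
    by_contra hx0
    by_cases hy : g x + x = 0
    · have hev : g.HasEigenvalue (-1) := Module.End.hasEigenvalue_of_hasEigenvector
        ⟨Module.End.mem_eigenspace_iff.mpr (by
          rw [neg_one_smul]
          exact eq_neg_of_add_eq_zero_left hy), hx0⟩
      rw [Module.End.hasEigenvalue_iff_isRoot_charpoly, hc] at hev
      exact hm1 hev
    · have hev : g.HasEigenvalue 1 := Module.End.hasEigenvalue_of_hasEigenvector
        ⟨Module.End.mem_eigenspace_iff.mpr (by rw [one_smul, map_add, h3, add_comm]), hy⟩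
      rw [Module.End.hasEigenvalue_iff_isRoot_charpoly, hc] at hev
      exact h1 hev
  have hsurj : Function.Surjective h :=
    LinearMap.injective_iff_surjective.mp ((injective_iff_map_eq_zero h).mpr hinj)
  let B' : LinearMap.BilinMap F V F := LinearMap.compl₂ B h
  have hB' : ∀ x y, B' x y = B x (h y) := fun x y => rfl
  refine ⟨V, inferInstance, inferInstance, inferInstance, B'.toQuadraticMap, g, ?_, ?_, ?_,
    ⟨m, hm0, hgm⟩, ?_⟩
  · rw [← hc, LinearMap.charpoly_natDegree]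
  · intro x hx
    apply hd.nondeg
    intro y'
    obtain ⟨y, rfl⟩ := hsurj y'
    have h3 := hx y
    rw [LinearMap.BilinMap.polar_toQuadraticMap, hB', hB', hsymm x y, ← two_mul] at h3
    exact (mul_eq_zero.mp h3).resolve_left h2
  · intro x
    rw [LinearMap.BilinMap.toQuadraticMap_apply, LinearMap.BilinMap.toQuadraticMap_apply, hB', hB',
      hcomm, hd.isom]
  · intro j hj
    apply hfA (Fin (Module.finrank F V))
      (LinearMap.toMatrix (Module.finBasis F V) (Module.finBasis F V) g) j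
    · rw [LinearMap.charpoly_toMatrix, hc]
    · rw [LinearMap.toMatrix_pow, hj, LinearMap.toMatrix_one]

theorem act_pow_eq' {ι : Type} [Fintype ι] [DecidableEq ι] {Qf : (ι → F) → F}
    (Z : ↥(Cfsg.isometryGroup F Qf)) (j : ℕ) (x : ι → F) :
    act (Z ^ j) x = (((Z : Matrix.GeneralLinearGroup ι F) : Matrix ι ι F) ^ j) *ᵥ x := by
  induction j generalizing x with
  | zero => rw [pow_zero, pow_zero, act_one, Matrix.one_mulVec]
  | succ j ih =>
    rw [pow_succ, pow_succ, act_mul, ih, ← Matrix.mulVec_mulVec]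
    rfl

/-- Any nondegenerate quadratic form in `2 n + 1` variables is similar to the standard one. -/
theorem std_odd [Fintype F] (n : ℕ)
    (Q₁ : QuadraticForm F (Unit ⊕ (Fin n ⊕ Fin n) → F))
    (hnd : ∀ x, (∀ y, QuadraticMap.polar ⇑Q₁ x y = 0) → x = 0) :
    ∃ (a : F) (φ : (Unit ⊕ (Fin n ⊕ Fin n) → F) ≃ₗ[F] (Unit ⊕ (Fin n ⊕ Fin n) → F)), a ≠ 0 ∧
      ∀ v, H7.qOdd n F (φ v) = a * Q₁ v := by
  classical
  have hQ₁ : (QuadraticMap.polarBilin Q₁).Nondegenerate :=
    ⟨fun x hx => hnd x hx, fun y hy => hnd y (fun x => by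
      rw [QuadraticMap.polar_comm]
      exact hy x)⟩
  have hV : Module.finrank F (Unit ⊕ (Fin n ⊕ Fin n) → F) = 2 * n + 1 := by
    rw [Module.finrank_fintype_fun_eq_card]
    simp
    ring
  obtain ⟨b, h0, h1, h2', h3, h4⟩ := odd_standard_basis hV Q₁ hQ₁
  obtain ⟨a, ha⟩ : ∃ a, a = Q₁ (b (Sum.inl ())) := ⟨_, rfl⟩
  rw [← ha] at h0
  have hcomm : ∀ x y, QuadraticMap.polar ⇑Q₁ x y = QuadraticMap.polar ⇑Q₁ y x :=
    fun x y => QuadraticMap.polar_comm _ _ _
  obtain ⟨φ, hφ, -⟩ := exists_similarity_of_basis b Q₁ (H7.qOdd n F) hnd a⁻¹ (inv_ne_zero h0)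
    (Sum.elim (fun _ => Pi.single (Sum.inl ()) 1)
      (Sum.elim (fun i => a⁻¹ • Pi.single (Sum.inr (Sum.inl i)) 1)
        (fun i => Pi.single (Sum.inr (Sum.inr i)) 1))) (by
      rintro (⟨⟩ | i | i)
      · show H7.qOdd n F (Pi.single (Sum.inl ()) 1) = a⁻¹ * Q₁ (b (Sum.inl ()))
        rw [H7.qOdd_zero, ← ha, inv_mul_cancel₀ h0]
      · show H7.qOdd n F (a⁻¹ • Pi.single (Sum.inr (Sum.inl i)) 1) =
          a⁻¹ * Q₁ (b (Sum.inr (Sum.inl i)))
        rw [QuadraticMap.map_smul, H7.qOdd_single_inr, (h2' i).1, smul_zero, mul_zero]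
      · show H7.qOdd n F (Pi.single (Sum.inr (Sum.inr i)) 1) =
          a⁻¹ * Q₁ (b (Sum.inr (Sum.inr i)))
        rw [H7.qOdd_single_inr, (h2' i).2, mul_zero]) (by
      rintro (⟨⟩ | i | i) (⟨⟩ | j | j)
      · show QuadraticMap.polar ⇑(H7.qOdd n F) (Pi.single (Sum.inl ()) 1)
          (Pi.single (Sum.inl ()) 1) = a⁻¹ * QuadraticMap.polar ⇑Q₁ (b (Sum.inl ())) (b (Sum.inl ()))
        rw [H7.polar_qOdd_zero, Pi.single_eq_same, QuadraticMap.polar_self, ← ha, two_nsmul]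
        first | (field_simp; ring) | field_simp
      · show QuadraticMap.polar ⇑(H7.qOdd n F) (Pi.single (Sum.inl ()) 1)
          (a⁻¹ • Pi.single (Sum.inr (Sum.inl j)) 1) =
          a⁻¹ * QuadraticMap.polar ⇑Q₁ (b (Sum.inl ())) (b (Sum.inr (Sum.inl j)))
        rw [H7.polar_qOdd_zero, (h1 j).1]
        simp
      · show QuadraticMap.polar ⇑(H7.qOdd n F) (Pi.single (Sum.inl ()) 1)
          (Pi.single (Sum.inr (Sum.inr j)) 1) =
          a⁻¹ * QuadraticMap.polar ⇑Q₁ (b (Sum.inl ())) (b (Sum.inr (Sum.inr j)))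
        rw [H7.polar_qOdd_zero, (h1 j).2]
        simp
      · show QuadraticMap.polar ⇑(H7.qOdd n F) (a⁻¹ • Pi.single (Sum.inr (Sum.inl i)) 1)
          (Pi.single (Sum.inl ()) 1) =
          a⁻¹ * QuadraticMap.polar ⇑Q₁ (b (Sum.inr (Sum.inl i))) (b (Sum.inl ()))
        rw [QuadraticMap.polar_smul_left, H7.polar_qOdd_inl, hcomm, (h1 i).1]
        simp
      · show QuadraticMap.polar ⇑(H7.qOdd n F) (a⁻¹ • Pi.single (Sum.inr (Sum.inl i)) 1)
          (a⁻¹ • Pi.single (Sum.inr (Sum.inl j)) 1) =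
          a⁻¹ * QuadraticMap.polar ⇑Q₁ (b (Sum.inr (Sum.inl i))) (b (Sum.inr (Sum.inl j)))
        rw [QuadraticMap.polar_smul_left, H7.polar_qOdd_inl, (h4 i j).1]
        simp
      · show QuadraticMap.polar ⇑(H7.qOdd n F) (a⁻¹ • Pi.single (Sum.inr (Sum.inl i)) 1)
          (Pi.single (Sum.inr (Sum.inr j)) 1) =
          a⁻¹ * QuadraticMap.polar ⇑Q₁ (b (Sum.inr (Sum.inl i))) (b (Sum.inr (Sum.inr j)))
        rw [QuadraticMap.polar_smul_left, H7.polar_qOdd_inl, h3 i j]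
        by_cases hij : i = j
        · subst hij
          simp
        · have hji : j ≠ i := fun h => hij h.symm
          simp [hij, hji]
      · show QuadraticMap.polar ⇑(H7.qOdd n F) (Pi.single (Sum.inr (Sum.inr i)) 1)
          (Pi.single (Sum.inl ()) 1) =
          a⁻¹ * QuadraticMap.polar ⇑Q₁ (b (Sum.inr (Sum.inr i))) (b (Sum.inl ()))
        rw [H7.polar_qOdd_inr, hcomm, (h1 i).2]
        simp
      · show QuadraticMap.polar ⇑(H7.qOdd n F) (Pi.single (Sum.inr (Sum.inr i)) 1)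
          (a⁻¹ • Pi.single (Sum.inr (Sum.inl j)) 1) =
          a⁻¹ * QuadraticMap.polar ⇑Q₁ (b (Sum.inr (Sum.inr i))) (b (Sum.inr (Sum.inl j)))
        rw [H7.polar_qOdd_inr, hcomm, h3 j i]
        by_cases hij : i = j
        · subst hij
          simp
        · have hji : j ≠ i := fun h => hij h.symm
          simp [hij, hji]
      · show QuadraticMap.polar ⇑(H7.qOdd n F) (Pi.single (Sum.inr (Sum.inr i)) 1)
          (Pi.single (Sum.inr (Sum.inr j)) 1) =
          a⁻¹ * QuadraticMap.polar ⇑Q₁ (b (Sum.inr (Sum.inr i))) (b (Sum.inr (Sum.inr j)))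
        rw [H7.polar_qOdd_inr, (h4 i j).2]
        simp)
  exact ⟨a⁻¹, φ, inv_ne_zero h0, hφ⟩

/-- An abstract orthogonal datum of dimension `2 n + 1` yields an element of order `N` of the
standard orthogonal group. -/
theorem odata_std [Fintype F] (n N : ℕ) (hN : 0 < N) (h : OData F (2 * n + 1) N) :
    ∃ G : ↥(Cfsg.isometryGroup F ⇑(H7.qOdd n F)), orderOf G = N := by
  classical
  obtain ⟨W, _, _, _, Q, g, hfr, hnd, hiso, ⟨m, hm0, hgm⟩, hN'⟩ := h
  have hE : Module.finrank F W = Module.finrank F (Unit ⊕ (Fin n ⊕ Fin n) → F) := by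
    rw [hfr, Module.finrank_fintype_fun_eq_card]
    simp
    ring
  obtain ⟨e⟩ : Nonempty (W ≃ₗ[F] (Unit ⊕ (Fin n ⊕ Fin n) → F)) :=
    ⟨LinearEquiv.ofFinrankEq W _ hE⟩
  obtain ⟨Q₁, hQ₁⟩ : ∃ Q₁ : QuadraticForm F (Unit ⊕ (Fin n ⊕ Fin n) → F),
      ∀ v, Q₁ v = Q (e.symm v) := ⟨Q.comp e.symm.toLinearMap, fun v => rfl⟩
  have hpol : ∀ x y, QuadraticMap.polar ⇑Q₁ x y =
      QuadraticMap.polar ⇑Q (e.symm x) (e.symm y) := by
    intro x y
    simp only [QuadraticMap.polar, hQ₁, map_add]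
  have hnd₁ : ∀ x, (∀ y, QuadraticMap.polar ⇑Q₁ x y = 0) → x = 0 := by
    intro x hx
    have h1 : e.symm x = 0 := by
      apply hnd
      intro y
      have h3 := hx (e y)
      rw [hpol, e.symm_apply_apply] at h3
      exact h3
    exact e.symm.map_eq_zero_iff.mp h1
  obtain ⟨a, φ, ha, hφ⟩ := std_odd n Q₁ hnd₁
  obtain ⟨Φ, hΦdef⟩ : ∃ Φ : W ≃ₗ[F] (Unit ⊕ (Fin n ⊕ Fin n) → F), ∀ w, Φ w = φ (e w) :=
    ⟨e.trans φ, fun w => rfl⟩
  have hΦ : ∀ w, H7.qOdd n F (Φ w) = a * Q w := by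
    intro w
    rw [hΦdef, hφ, hQ₁, e.symm_apply_apply]
  obtain ⟨γ, hγ⟩ : ∃ γ : Module.End F (Unit ⊕ (Fin n ⊕ Fin n) → F), γ = Φ.conj g := ⟨_, rfl⟩
  have hγpow : ∀ j, γ ^ j = Φ.conj (g ^ j) := fun j => by
    rw [hγ]
    exact (map_pow Φ.conjRingEquiv g j).symm
  have hγiso : ∀ v, H7.qOdd n F (γ v) = H7.qOdd n F v := by
    intro v
    rw [hγ, LinearEquiv.conj_apply_apply, hΦ, hiso, ← hΦ, Φ.apply_symm_apply]
  obtain ⟨M, hM⟩ : ∃ M : Matrix (Unit ⊕ (Fin n ⊕ Fin n)) (Unit ⊕ (Fin n ⊕ Fin n)) F,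
      M = LinearMap.toMatrix' γ := ⟨_, rfl⟩
  have hMpow : ∀ j, M ^ j = LinearMap.toMatrix' (γ ^ j) := fun j => by
    rw [hM]
    exact (map_pow LinearMap.toMatrixAlgEquiv' γ j).symm
  have hpow1 : ∀ j, M ^ j = 1 → g ^ j = 1 := by
    intro j hj
    rw [hMpow, hγpow] at hj
    have h1 : Φ.conj (g ^ j) = 1 := by
      apply LinearMap.toMatrix'.injective
      rw [hj, LinearMap.toMatrix'_one]
    apply Φ.conj.injective
    rw [h1]
    exact (LinearEquiv.conj_id Φ).symm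
  have hMm : M ^ m = 1 := by
    rw [hMpow, hγpow, hgm]
    have h1 : Φ.conj (1 : Module.End F W) = 1 := LinearEquiv.conj_id Φ
    rw [h1, LinearMap.toMatrix'_one]
  have hMv : ∀ x, M *ᵥ x = γ x := fun x => by rw [hM, LinearMap.toMatrix'_mulVec]
  let G₀ : Matrix.GeneralLinearGroup (Unit ⊕ (Fin n ⊕ Fin n)) F :=
    ⟨M, M ^ (m - 1), by rw [← pow_succ', Nat.sub_add_cancel hm0]; exact hMm,
      by rw [← pow_succ, Nat.sub_add_cancel hm0]; exact hMm⟩
  have hG₀ : G₀ ∈ Cfsg.isometryGroup F ⇑(H7.qOdd n F) := by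
    rw [mem_isometryGroup_iff]
    intro x
    show H7.qOdd n F (M *ᵥ x) = H7.qOdd n F x
    rw [hMv, hγiso]
  obtain ⟨G, hG⟩ : ∃ G : ↥(Cfsg.isometryGroup F ⇑(H7.qOdd n F)), G = ⟨G₀, hG₀⟩ := ⟨_, rfl⟩
  have hGact : ∀ (j : ℕ) (x : Unit ⊕ (Fin n ⊕ Fin n) → F), act (G ^ j) x = M ^ j *ᵥ x := by
    intro j x
    subst hG
    exact act_pow_eq' _ j x
  have hGm : G ^ m = 1 := by
    apply act_ext
    intro x
    rw [hGact, hMm, Matrix.one_mulVec, act_one]
  have hpow2 : ∀ j, G ^ j = 1 → g ^ j = 1 := by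
    intro j hj
    apply hpow1
    apply H49.matrix_ext_mulVec
    intro x
    rw [← hGact, hj, act_one, Matrix.one_mulVec]
  have hfin : IsOfFinOrder G := isOfFinOrder_iff_pow_eq_one.mpr ⟨m, hm0, hGm⟩
  have hNG : N ∣ orderOf G := hN' _ (hpow2 _ (pow_orderOf_eq_one G))
  exact ⟨G ^ (orderOf G / N), orderOf_pow_orderOf_div hfin.orderOf_pos.ne' hNG⟩

/-- Orthogonal elements from symplectic-realisable polynomials without roots `±1`. -/
theorem o_exists [Fintype F] (h2 : (2 : F) ≠ 0) (p : ℕ) [Fact p.Prime] [CharP F p] (n η N : ℕ)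
    (hη : η ≤ n) (hN : 0 < N) (P₀ : F[X]) (hr₀ : Realizable (RingHom.id F) (-1) p P₀)
    (hdeg₀ : P₀.natDegree = 2 * η) (h1 : P₀.eval 1 ≠ 0) (hm1 : P₀.eval (-1) ≠ 0)
    (hfA : ∀ (ι : Type) [Fintype ι] [DecidableEq ι] (A : Matrix ι ι F) (j : ℕ),
      P₀ ∣ A.charpoly → A ^ j = 1 → N ∣ j) :
    ∃ G : ↥(Cfsg.isometryGroup F ⇑(H7.qOdd n F)), orderOf G = N := by
  have hd := odata_of_symp h2 p P₀ N hr₀ h1 hm1 hfA
  rw [hdeg₀] at hd
  have hpad := odata_pad (F := F) h2 (2 * (n - η) + 1)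
  have hsum := odata_sum hd hpad (Nat.coprime_one_right N)
  rw [mul_one, show 2 * η + (2 * (n - η) + 1) = 2 * n + 1 by omega] at hsum
  exact odata_std n N hN hsum

/-- The same with a commuting unipotent element. -/
theorem o_exists_p [Fintype F] (h2 : (2 : F) ≠ 0) (p : ℕ) [Fact p.Prime] [CharP F p]
    (n η N : ℕ) (hη : η + 1 ≤ n) (hN : 0 < N) (hNp : Nat.Coprime N p) (P₀ : F[X])
    (hr₀ : Realizable (RingHom.id F) (-1) p P₀)
    (hdeg₀ : P₀.natDegree = 2 * η) (h1 : P₀.eval 1 ≠ 0) (hm1 : P₀.eval (-1) ≠ 0)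
    (hfA : ∀ (ι : Type) [Fintype ι] [DecidableEq ι] (A : Matrix ι ι F) (j : ℕ),
      P₀ ∣ A.charpoly → A ^ j = 1 → N ∣ j) :
    ∃ G : ↥(Cfsg.isometryGroup F ⇑(H7.qOdd n F)), orderOf G = N * p := by
  have hp : p.Prime := Fact.out
  have hd := odata_of_symp h2 p P₀ N hr₀ h1 hm1 hfA
  rw [hdeg₀] at hd
  have hu := odata_unip (F := F) h2 p
  have hs1 := odata_sum hd hu hNp
  have hpad := odata_pad (F := F) h2 (2 * (n - η - 1))
  have hsum := odata_sum hs1 hpad (Nat.coprime_one_right _)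
  rw [mul_one, show 2 * η + 3 + 2 * (n - η - 1) = 2 * n + 1 by omega] at hsum
  exact odata_std n (N * p) (Nat.mul_pos hN hp.pos) hsum

end OData

end Cfsg.Agent.H45
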