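import Mathlib
import Cfsg.Agent.H45.OData

set_option autoImplicit false

namespace Cfsg.Agent.H45

open Matrix Polynomial Module Cfsg.Agent.H49

universe u

section RealEv

variable {F : Type u} [Field F] [Fintype F]

/-- The realisable symplectic block attached to `N ≥ 3`, with no roots `±1`. -/
theorem real_block_ev (p : ℕ) [Fact p.Prime] [CharP F p] (N : ℕ) (hN3 : 3 ≤ N)
    (hNF : ((N : ℕ) : F) ≠ 0) (η : ℕ)
    (hη : η = orderOf ((Fintype.card F : ℕ) : ZMod N) ∨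
      (2 * η = orderOf ((Fintype.card F : ℕ) : ZMod N) ∧ N ∣ Fintype.card F ^ η + 1)) :
    ∃ P₀ : F[X], Realizable (RingHom.id F) (-1) p P₀ ∧ P₀.Monic ∧ P₀.natDegree = 2 * η ∧
      P₀.eval 1 ≠ 0 ∧ P₀.eval (-1) ≠ 0 ∧
      ∀ (ι : Type) [Fintype ι] [DecidableEq ι] (A : Matrix ι ι F) (j : ℕ),
        P₀ ∣ A.charpoly → A ^ j = 1 → N ∣ j := by
  classical
  have hcyc : ¬ IsUnit (cyclotomic N F) := by
    intro h
    have h1 := natDegree_eq_zero_of_isUnit h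
    rw [natDegree_cyclotomic] at h1
    exact (Nat.totient_pos.mpr (by omega)).ne' h1
  obtain ⟨f, hfm, hf, hfdvd⟩ := exists_monic_irreducible_factor (cyclotomic N F) hcyc
  obtain ⟨hdeg, hf0, hfA, hfX, hfsd⟩ := cyc_factor N (by omega) hNF f hf hfm hfdvd
  have hσ : ∀ a : F, (RingHom.id F) ((RingHom.id F) a) = a := fun _ => rfl
  have hε : (-1 : F) * (RingHom.id F) (-1) = 1 := by simp
  have hnt : ¬ f ∣ X ^ 2 - 1 := by
    intro h
    have := Nat.le_of_dvd (by norm_num) (hfX 2 h)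
    omega
  obtain ⟨hf1, hfm1⟩ := eval_ne_of_not_dvd f hf hnt
  rcases hη with hηd | ⟨hηd, hdvd⟩
  · have hr2' := realizable_nsd (σ := RingHom.id F) p hσ (-1) hε (fun _ => rfl) f hfm hf0
    have hc0 : ((RingHom.id F) (f.coeff 0))⁻¹ ≠ 0 := by
      rw [Ne, inv_eq_zero]
      exact hf0
    have hc : C ((RingHom.id F) (f.coeff 0))⁻¹ ≠ 0 := by
      rw [Ne, C_eq_zero]
      exact hc0
    have hd := dualPoly_ne_zero (RingHom.id F) f hf0
    refine ⟨_, hr2', ?_, ?_, ?_, ?_, ?_⟩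
    · apply Monic.mul hfm
      rw [Monic, leadingCoeff_mul, leadingCoeff_C, dualPoly_leadingCoeff _ _ hf0]
      exact inv_mul_cancel₀ hf0
    · rw [natDegree_mul hfm.ne_zero (mul_ne_zero hc hd), natDegree_mul hc hd, natDegree_C, zero_add,
        dualPoly_natDegree _ _ hf0, hdeg, ← hηd]
      ring
    · rw [eval_mul, eval_mul, eval_C, dualPoly_id, eval_one_reverse]
      exact mul_ne_zero hf1 (mul_ne_zero hc0 hf1)
    · rw [eval_mul, eval_mul, eval_C, dualPoly_id]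
      exact mul_ne_zero hfm1 (mul_ne_zero hc0 (eval_neg_one_reverse f hfm1))
    · intro ι _ _ A j hA hAj
      exact hfA ι A j (dvd_trans (dvd_mul_right _ _) hA) hAj
  · have hsd : f ∣ f.reverse := hfsd η hdvd
    refine ⟨f, realizable_sd p hσ (-1) hε f hf hfm hf0 (by rw [dualPoly_id]; exact hsd)
      (Or.inr ⟨rfl, hnt⟩), hfm, by rw [hdeg, hηd], hf1, hfm1, ?_⟩
    intro ι _ _ A j hA hAj
    exact hfA ι A j hA hAj

theorem eta_alt (p : ℕ) [Fact p.Prime] [CharP F p] (r : ℕ) (hr : r.Prime) (hrp : r ≠ p)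
    (k η : ℕ) (hk : k = orderOf ((Fintype.card F : ℕ) : ZMod r))
    (hη : (Odd k ∧ η = k) ∨ (Even k ∧ 2 * η = k)) :
    η = orderOf ((Fintype.card F : ℕ) : ZMod r) ∨
      (2 * η = orderOf ((Fintype.card F : ℕ) : ZMod r) ∧ r ∣ Fintype.card F ^ η + 1) := by
  have hk0 : 0 < k := by
    rw [hk]
    exact ord_pos p r hr hrp
  rcases hη with ⟨-, e⟩ | ⟨-, e⟩
  · left
    rw [e]
    exact hk
  · right
    have e' : 2 * η = orderOf ((Fintype.card F : ℕ) : ZMod r) := e.trans hk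
    exact ⟨e', dvd_pow_add_one_of_even_ord r hr _ η (by omega) e'⟩

/-- The block of an odd prime `r ≠ p`, with no roots `±1`. -/
theorem real_block_prime (p : ℕ) [Fact p.Prime] [CharP F p] (r : ℕ) (hr : r.Prime) (hr2 : r ≠ 2)
    (hrp : r ≠ p) (k η : ℕ) (hk : k = orderOf ((Fintype.card F : ℕ) : ZMod r))
    (hη : (Odd k ∧ η = k) ∨ (Even k ∧ 2 * η = k)) :
    ∃ P₀ : F[X], Realizable (RingHom.id F) (-1) p P₀ ∧ P₀.Monic ∧ P₀.natDegree = 2 * η ∧
      P₀.eval 1 ≠ 0 ∧ P₀.eval (-1) ≠ 0 ∧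
      ∀ (ι : Type) [Fintype ι] [DecidableEq ι] (A : Matrix ι ι F) (j : ℕ),
        P₀ ∣ A.charpoly → A ^ j = 1 → r ∣ j := by
  have hr3 : 3 ≤ r := by
    have := hr.two_le
    omega
  exact real_block_ev p r hr3 (prime_cast_ne_zero p r hr hrp) η (eta_alt p r hr hrp k η hk hη)

theorem sq_mod_four (q : ℕ) (hq : q % 2 = 1) : q * q % 4 = 1 := by
  have h : q % 4 = 1 ∨ q % 4 = 3 := by omega
  rcases h with h | h <;> rw [Nat.mul_mod, h]

theorem pow_even_mod_four (q m : ℕ) (hq : Odd q) (hm : Even m) : q ^ m % 4 = 1 := by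
  obtain ⟨c, hc⟩ := hm
  rw [hc, pow_add]
  exact sq_mod_four (q ^ c) (Nat.odd_iff.mp hq.pow)

theorem pow_odd_mod_four (q m : ℕ) (hq : Odd q) (hm : Odd m) : q ^ m % 4 = q % 4 := by
  obtain ⟨c, hc⟩ := hm
  have h1 := pow_even_mod_four q (2 * c) hq (even_two_mul c)
  rw [hc, pow_succ, Nat.mul_mod, h1, one_mul, Nat.mod_mod]

theorem four_dvd_pow_add_one (q m n : ℕ) (hq : Odd q) (h : 4 ∣ q ^ m + 1) (hnm : n ∣ m) :
    4 ∣ q ^ n + 1 := by
  have hm : Odd m := by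
    rcases Nat.even_or_odd m with he | ho
    · have h1 := pow_even_mod_four q m hq he
      omega
    · exact ho
  have hn : Odd n := by
    obtain ⟨c, hc⟩ := hnm
    rw [hc] at hm
    exact (Nat.odd_mul.mp hm).1
  have h1 := pow_odd_mod_four q m hq hm
  have h2 := pow_odd_mod_four q n hq hn
  omega

theorem four_cast_ne_zero (h2 : (2 : F) ≠ 0) : ((4 : ℕ) : F) ≠ 0 := by
  rw [show (4 : ℕ) = 2 * 2 by norm_num, Nat.cast_mul, Nat.cast_ofNat]
  exact mul_ne_zero h2 h2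

/-- The block of degree two carrying elements of order four. -/
theorem real_block_four (hodd : Odd (Fintype.card F)) (p : ℕ) [Fact p.Prime] [CharP F p] :
    ∃ P₀ : F[X], Realizable (RingHom.id F) (-1) p P₀ ∧ P₀.Monic ∧ P₀.natDegree = 2 * 1 ∧
      P₀.eval 1 ≠ 0 ∧ P₀.eval (-1) ≠ 0 ∧
      ∀ (ι : Type) [Fintype ι] [DecidableEq ι] (A : Matrix ι ι F) (j : ℕ),
        P₀ ∣ A.charpoly → A ^ j = 1 → 4 ∣ j := by
  have h2 : (2 : F) ≠ 0 := H7.two_ne_zero_of_odd_card hodd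
  apply real_block_ev p 4 (by norm_num) (four_cast_ne_zero h2) 1
  have hq : Fintype.card F % 4 = 1 ∨ Fintype.card F % 4 = 3 := by
    have := Nat.odd_iff.mp hodd
    omega
  rcases hq with hq | hq
  · left
    have h1 : ((Fintype.card F : ℕ) : ZMod 4) = ((1 : ℕ) : ZMod 4) :=
      (ZMod.natCast_eq_natCast_iff' _ 1 4).mpr (by omega)
    rw [h1, Nat.cast_one, orderOf_one]
  · right
    have h1 : ((Fintype.card F : ℕ) : ZMod 4) = ((3 : ℕ) : ZMod 4) :=
      (ZMod.natCast_eq_natCast_iff' _ 3 4).mpr (by omega)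
    have h3 : orderOf (((3 : ℕ) : ZMod 4)) = 2 := by
      haveI : Fact (Nat.Prime 2) := ⟨Nat.prime_two⟩
      exact orderOf_eq_prime (by decide) (by decide)
    constructor
    · rw [h1, h3]
    · rw [pow_one]
      omega

/-- A symplectic element of order `N` from a realisable polynomial. -/
theorem sp_exists_ss (p : ℕ) [Fact p.Prime] [CharP F p] (n η N : ℕ)
    (hη : η ≤ n) (P₀ : F[X])
    (hr₀ : Realizable (RingHom.id F) (-1) p P₀)
    (hm₀ : P₀.Monic) (hdeg₀ : P₀.natDegree = 2 * η)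
    (hfA : ∀ (ι : Type) [Fintype ι] [DecidableEq ι] (A : Matrix ι ι F) (j : ℕ),
      P₀ ∣ A.charpoly → A ^ j = 1 → N ∣ j) :
    ∃ x : ↥(Matrix.symplecticGroup (Fin n) F), orderOf x = N := by
  classical
  have hp : p.Prime := Fact.out
  obtain ⟨G, hGr, hGm, hGd, -⟩ := realizable_pad (F := F) p (n - η)
  have hr := realizable_mul p hr₀ hGr
  obtain ⟨P, hP⟩ : ∃ P, P = P₀ * G := ⟨_, rfl⟩
  rw [← hP] at hr
  have hdegP : P.natDegree = 2 * n := by
    rw [hP, natDegree_mul hm₀.ne_zero hGm.ne_zero, hdeg₀, hGd]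
    omega
  have hfP : P₀ ∣ P := by rw [hP]; exact dvd_mul_right _ _
  obtain ⟨A, hA, hAc, k, hk, hAk⟩ := exists_sp_of_realizable p n P hr hdegP
  obtain ⟨s, hs⟩ : ∃ s : ↥(Matrix.symplecticGroup (Fin n) F), s = ⟨A, hA⟩ := ⟨_, rfl⟩
  have hcoe_pow : ∀ (x : ↥(Matrix.symplecticGroup (Fin n) F)) (j : ℕ),
      ((x ^ j : ↥(Matrix.symplecticGroup (Fin n) F)) :
        Matrix (Fin n ⊕ Fin n) (Fin n ⊕ Fin n) F) =
      (x : Matrix (Fin n ⊕ Fin n) (Fin n ⊕ Fin n) F) ^ j :=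
    fun x j => rfl
  have hsk : s ^ k = 1 := by
    apply Subtype.ext
    rw [hcoe_pow, hs]
    exact hAk
  have hk0 : 0 < k := Nat.pos_of_ne_zero (fun h => hk (by rw [h]; exact dvd_zero p))
  have hsfin : IsOfFinOrder s := isOfFinOrder_iff_pow_eq_one.mpr ⟨k, hk0, hsk⟩
  have hNs : N ∣ orderOf s := by
    apply hfA _ A (orderOf s) (by rw [hAc]; exact hfP)
    have hsA : (s : Matrix (Fin n ⊕ Fin n) (Fin n ⊕ Fin n) F) = A := by
      rw [hs]
    rw [← hsA, ← hcoe_pow, pow_orderOf_eq_one]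
    rfl
  exact ⟨s ^ (orderOf s / N), orderOf_pow_orderOf_div hsfin.orderOf_pos.ne' hNs⟩

omit [Fintype F] in
/-- A symplectic element of order `4 M` gives an element of order `2 M` of `PSp`. -/
theorem psp_has_of_four (n : ℕ) [Nonempty (Fin n)] (M : ℕ) (hM : 0 < M)
    (A : ↥(Matrix.symplecticGroup (Fin n) F)) (hA : orderOf A = 4 * M) :
    ∃ x : Cfsg.PSp n F, orderOf x = 2 * M := by
  obtain ⟨j, hj⟩ : ∃ j, j = orderOf (QuotientGroup.mk A : Cfsg.PSp n F) := ⟨_, rfl⟩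
  have h1 : j ∣ 4 * M := by
    rw [hj, ← hA]
    exact orderOf_map_dvd (QuotientGroup.mk' _) A
  have h2 : 2 * M ∣ j := by
    have h3 := pow_orderOf_eq_one (QuotientGroup.mk A : Cfsg.PSp n F)
    rw [← hj, ← QuotientGroup.mk_pow, QuotientGroup.eq_one_iff, sp_mem_center_iff] at h3
    have h4 : A ^ (2 * j) = 1 := by
      rw [mul_comm, pow_mul]
      rcases h3 with h3 | h3
      · rw [h3, one_pow]
      · rw [h3, pow_two]
        exact sp_negOne_sq n
    have h5 := orderOf_dvd_of_pow_eq_one h4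
    rw [hA] at h5
    obtain ⟨c, hc⟩ := h5
    exact ⟨c, Nat.eq_of_mul_eq_mul_left (by norm_num : 0 < 2) (by rw [hc]; ring)⟩
  have hj0 : 0 < j := Nat.pos_of_dvd_of_pos h1 (by omega)
  refine ⟨(QuotientGroup.mk A : Cfsg.PSp n F) ^ (j / (2 * M)), ?_⟩
  rw [hj]
  exact orderOf_pow_orderOf_div (by rw [← hj]; omega) (by rw [← hj]; exact h2)

/-- Polynomial data for elements of order `r s`. -/
theorem real_rs (p : ℕ) [Fact p.Prime] [CharP F p] (n : ℕ) (r s : ℕ)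
    (hr : r.Prime) (hs : s.Prime) (hr2 : r ≠ 2) (hs2 : s ≠ 2) (hrp : r ≠ p) (hsp : s ≠ p)
    (hrs : r ≠ s) (k l ηk ηl : ℕ)
    (hk : k = orderOf ((Fintype.card F : ℕ) : ZMod r))
    (hl : l = orderOf ((Fintype.card F : ℕ) : ZMod s))
    (hηk : (Odd k ∧ ηk = k) ∨ (Even k ∧ 2 * ηk = k))
    (hηl : (Odd l ∧ ηl = l) ∨ (Even l ∧ 2 * ηl = l)) (hηn : ηl ≤ n)
    (h : ηk + ηl ≤ n ∨ ∃ t : ℕ, Odd t ∧ l = k * t) :
    ∃ (η' : ℕ) (P₀ : F[X]), η' ≤ n ∧ Realizable (RingHom.id F) (-1) p P₀ ∧ P₀.Monic ∧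
      P₀.natDegree = 2 * η' ∧ P₀.eval 1 ≠ 0 ∧ P₀.eval (-1) ≠ 0 ∧
      ∀ (ι : Type) [Fintype ι] [DecidableEq ι] (A : Matrix ι ι F) (j : ℕ),
        P₀ ∣ A.charpoly → A ^ j = 1 → r * s ∣ j := by
  classical
  have hp : p.Prime := Fact.out
  have hcop : Nat.Coprime r s := (Nat.coprime_primes hr hs).mpr hrs
  rcases h with h | ⟨t, ht, hlk⟩
  · obtain ⟨P₁, hP₁r, hP₁m, hP₁d, hP₁e, hP₁e', hP₁A⟩ :=
      real_block_prime (F := F) p r hr hr2 hrp k ηk hk hηk
    obtain ⟨P₂, hP₂r, hP₂m, hP₂d, hP₂e, hP₂e', hP₂A⟩ :=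
      real_block_prime (F := F) p s hs hs2 hsp l ηl hl hηl
    refine ⟨ηk + ηl, P₁ * P₂, h, realizable_mul p hP₁r hP₂r, hP₁m.mul hP₂m, ?_, ?_, ?_, ?_⟩
    · rw [natDegree_mul hP₁m.ne_zero hP₂m.ne_zero, hP₁d, hP₂d]
      ring
    · rw [eval_mul]
      exact mul_ne_zero hP₁e hP₂e
    · rw [eval_mul]
      exact mul_ne_zero hP₁e' hP₂e'
    · intro ι _ _ B j hB hBj
      exact hcop.mul_dvd_of_dvd_of_dvd (hP₁A ι B j (dvd_trans (dvd_mul_right _ _) hB) hBj)
        (hP₂A ι B j (dvd_trans (dvd_mul_left _ _) hB) hBj)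
  · have hrF := prime_cast_ne_zero (F := F) p r hr hrp
    have hsF := prime_cast_ne_zero (F := F) p s hs hsp
    have hNF : ((r * s : ℕ) : F) ≠ 0 := by
      rw [Nat.cast_mul]
      exact mul_ne_zero hrF hsF
    have hq1 : 1 ≤ Fintype.card F := Fintype.card_pos
    have hk0 : 0 < k := by
      rw [hk]
      exact ord_pos p r hr hrp
    have hl0 : 0 < l := by
      rw [hl]
      exact ord_pos p s hs hsp
    have hord : orderOf ((Fintype.card F : ℕ) : ZMod (r * s)) = l := by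
      rw [hl]
      apply orderOf_mul_of_dvd r s _ hq1 hcop
      rw [← hk, ← hl, hlk]
      exact dvd_mul_right k t
    have hN3 : 3 ≤ r * s := by
      have h1 := hr.two_le
      have h2 := hs.two_le
      nlinarith
    have hη : ηl = orderOf ((Fintype.card F : ℕ) : ZMod (r * s)) ∨
        (2 * ηl = orderOf ((Fintype.card F : ℕ) : ZMod (r * s)) ∧
          r * s ∣ Fintype.card F ^ ηl + 1) := by
      rw [hord]
      rcases hηl with ⟨-, e⟩ | ⟨heven, e⟩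
      · exact Or.inl e
      · refine Or.inr ⟨e, ?_⟩
        have hkeven : Even k := by
          rw [hlk] at heven
          exact (Nat.even_mul.mp heven).resolve_right (Nat.not_even_iff_odd.mpr ht)
        have hk2 : 2 * ηk = k := by
          rcases hηk with ⟨hodd, -⟩ | ⟨-, e'⟩
          · exact absurd hkeven (Nat.not_even_iff_odd.mpr hodd)
          · exact e'
        have hηlk : ηl = ηk * t := by
          have h1 : 2 * ηl = 2 * (ηk * t) := by
            rw [e, hlk, ← hk2]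
            ring
          omega
        apply hcop.mul_dvd_of_dvd_of_dvd
        · rw [hηlk]
          apply dvd_pow_mul_add_one r _ ηk t ht
          exact dvd_pow_add_one_of_even_ord r hr _ ηk (by omega) (hk2.trans hk)
        · exact dvd_pow_add_one_of_even_ord s hs _ ηl (by omega) (e.trans hl)
    obtain ⟨P₀, hP₀r, hP₀m, hP₀d, hP₀e, hP₀e', hP₀A⟩ :=
      real_block_ev (F := F) p (r * s) hN3 hNF ηl hη
    exact ⟨ηl, P₀, hηn, hP₀r, hP₀m, hP₀d, hP₀e, hP₀e', hP₀A⟩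

/-- Polynomial data for elements of order `4 r`. -/
theorem real_four_r (hodd : Odd (Fintype.card F)) (p : ℕ) [Fact p.Prime] [CharP F p] (n : ℕ)
    (hn : 1 ≤ n) (r : ℕ) (hr : r.Prime) (hr2 : r ≠ 2) (hrp : r ≠ p) (k η : ℕ)
    (hk : k = orderOf ((Fintype.card F : ℕ) : ZMod r))
    (hη : (Odd k ∧ η = k) ∨ (Even k ∧ 2 * η = k))
    (hD : η < n ∨ (η = n ∧ ((Even k ∧ 4 ∣ Fintype.card F ^ n + 1) ∨
      (Odd k ∧ 4 ∣ Fintype.card F ^ n - 1)))) :
    ∃ (η' : ℕ) (P₀ : F[X]), η' ≤ n ∧ Realizable (RingHom.id F) (-1) p P₀ ∧ P₀.Monic ∧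
      P₀.natDegree = 2 * η' ∧ P₀.eval 1 ≠ 0 ∧ P₀.eval (-1) ≠ 0 ∧
      ∀ (ι : Type) [Fintype ι] [DecidableEq ι] (A : Matrix ι ι F) (j : ℕ),
        P₀ ∣ A.charpoly → A ^ j = 1 → 4 * r ∣ j := by
  classical
  have hp : p.Prime := Fact.out
  have h2 : (2 : F) ≠ 0 := H7.two_ne_zero_of_odd_card hodd
  have hrF := prime_cast_ne_zero (F := F) p r hr hrp
  have hr3 : 3 ≤ r := by
    have := hr.two_le
    omega
  have hcop : Nat.Coprime 4 r :=
    Nat.Coprime.pow_left 2 ((Nat.coprime_primes Nat.prime_two hr).mpr (Ne.symm hr2))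
  have hNF : ((4 * r : ℕ) : F) ≠ 0 := by
    rw [Nat.cast_mul]
    exact mul_ne_zero (four_cast_ne_zero h2) hrF
  have hq1 : 1 ≤ Fintype.card F := Fintype.card_pos
  have hk0 : 0 < k := by
    rw [hk]
    exact ord_pos p r hr hrp
  have hkord : ∀ j : ℕ, 4 * r ∣ Fintype.card F ^ j - 1 → k ∣ j := by
    intro j hj
    rw [hk]
    exact ord_dvd_of_dvd r _ j hq1 (dvd_trans (dvd_mul_left r 4) hj)
  have hk4 : k ∣ orderOf ((Fintype.card F : ℕ) : ZMod (4 * r)) := by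
    apply hkord
    rw [← natCast_pow_eq_one_iff (4 * r) _ _ hq1]
    exact pow_orderOf_eq_one _
  rcases hD with hlt | ⟨hηn, hc⟩
  · obtain ⟨P₁, hP₁r, hP₁m, hP₁d, hP₁e, hP₁e', hP₁A⟩ :=
      real_block_prime (F := F) p r hr hr2 hrp k η hk hη
    obtain ⟨P₂, hP₂r, hP₂m, hP₂d, hP₂e, hP₂e', hP₂A⟩ := real_block_four (F := F) hodd p
    refine ⟨η + 1, P₁ * P₂, hlt, realizable_mul p hP₁r hP₂r, hP₁m.mul hP₂m, ?_, ?_, ?_, ?_⟩
    · rw [natDegree_mul hP₁m.ne_zero hP₂m.ne_zero, hP₁d, hP₂d]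
      ring
    · rw [eval_mul]
      exact mul_ne_zero hP₁e hP₂e
    · rw [eval_mul]
      exact mul_ne_zero hP₁e' hP₂e'
    · intro ι _ _ B j hB hBj
      exact hcop.mul_dvd_of_dvd_of_dvd (hP₂A ι B j (dvd_trans (dvd_mul_left _ _) hB) hBj)
        (hP₁A ι B j (dvd_trans (dvd_mul_right _ _) hB) hBj)
  · rcases hc with ⟨heven, h4⟩ | ⟨hodd', h4⟩
    · have hk2 : 2 * n = k := by
        rcases hη with ⟨ho, -⟩ | ⟨-, e⟩
        · exact absurd heven (Nat.not_even_iff_odd.mpr ho)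
        · rw [← hηn]
          exact e
      have hdvd_r : r ∣ Fintype.card F ^ n + 1 :=
        dvd_pow_add_one_of_even_ord r hr _ n hn (hk2.trans hk)
      have h4r : 4 * r ∣ Fintype.card F ^ n + 1 := hcop.mul_dvd_of_dvd_of_dvd h4 hdvd_r
      have hord : 2 * n = orderOf ((Fintype.card F : ℕ) : ZMod (4 * r)) := by
        apply Nat.dvd_antisymm
        · rw [hk2]
          exact hk4
        · exact (ord_of_dvd_pow_add_one (4 * r) _ n (by omega) h4r).1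
      obtain ⟨P₀, hP₀r, hP₀m, hP₀d, hP₀e, hP₀e', hP₀A⟩ :=
        real_block_ev (F := F) p (4 * r) (by omega) hNF n (Or.inr ⟨hord, h4r⟩)
      exact ⟨n, P₀, le_rfl, hP₀r, hP₀m, hP₀d, hP₀e, hP₀e', hP₀A⟩
    · have hkn : n = k := by
        rcases hη with ⟨-, e⟩ | ⟨he, -⟩
        · rw [← hηn]
          exact e
        · exact absurd he (Nat.not_even_iff_odd.mpr hodd')
      have hdvd_r : r ∣ Fintype.card F ^ n - 1 := by
        rw [← natCast_pow_eq_one_iff r _ n hq1, hkn, hk]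
        exact pow_orderOf_eq_one _
      have h4r : 4 * r ∣ Fintype.card F ^ n - 1 := hcop.mul_dvd_of_dvd_of_dvd h4 hdvd_r
      have hord : n = orderOf ((Fintype.card F : ℕ) : ZMod (4 * r)) := by
        apply Nat.dvd_antisymm
        · rw [hkn]
          exact hk4
        · exact ord_dvd_of_dvd (4 * r) _ n hq1 h4r
      obtain ⟨P₀, hP₀r, hP₀m, hP₀d, hP₀e, hP₀e', hP₀A⟩ :=
        real_block_ev (F := F) p (4 * r) (by omega) hNF n (Or.inl hord)
      exact ⟨n, P₀, le_rfl, hP₀r, hP₀m, hP₀d, hP₀e, hP₀e', hP₀A⟩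

end RealEv

end Cfsg.Agent.H45
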