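import Cfsg.Agent.H45.S43Defs

/-!
# S2343 (team project, helper45): the abstract bound from the pieces.
-/

set_option autoImplicit false

namespace Cfsg.Agent.H45.S43

open Matrix Cfsg.Agent.H45

universe u v

theorem exists_prim {F : Type v} [Field F] [Fintype F] : ∃ ψ : AddChar F ℂ, ψ.IsPrimitive := by
  obtain ⟨ψ, hψ⟩ := (AddChar.exists_apply_ne_zero (α := F) (a := 1)).mpr one_ne_zero
  refine ⟨ψ, AddChar.IsPrimitive.of_ne_one ?_⟩
  intro h
  rw [h] at hψ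
  simp at hψ

/-- the abstract bound -/
theorem ree_abs (hOrb : StOrb.{u, v}) (hEx : StEx.{u, v}) (hCountA : StCountA.{u, v})
    (hTri : StTri.{u, v}) (hTrIdem : StTrIdem) (hFour : StFour.{u, v}) (hTrSum : StTrSum.{u, v})
    (hArith : StArith)
    {G : Type u} [Group G] {F : Type v} [Field F] [Fintype F] (D : ReeRel G F)
    (hq4 : Fintype.card F % 4 = 3) {k : ℕ} (R : G →* Matrix (Fin k) (Fin k) ℂ)
    (hR : R (D.A 0 1) ≠ 1) (hk : 2 ≤ k) :
    Fintype.card F ^ 2 - Fintype.card F + 1 ≤ k := by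
  obtain ⟨ψ, hψ⟩ := exists_prim (F := F)
  obtain ⟨l₀, hl₀, hne⟩ := hEx D ψ hψ R hR
  have hall : ∀ l : Fin 2 → F, l 1 ≠ 0 → lsIdem ψ R D.uA l ≠ 0 := by
    intro l hl h0
    obtain ⟨g, hg⟩ := hOrb D ψ R l l₀ hl hl₀
    apply hne
    rw [← hg, h0, Matrix.mul_zero, Matrix.zero_mul]
  by_cases hA : ∃ l : Fin 2 → F, l 1 = 0 ∧ lsIdem ψ R D.uA l ≠ 0
  · exact hCountA D ψ hψ R hall hA
  · have hA' : ∀ l : Fin 2 → F, l 1 = 0 → lsIdem ψ R D.uA l = 0 := by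
      intro l hl
      by_contra h
      exact hA ⟨l, hl, h⟩
    have htr := hTri D ψ hψ hq4 R hA'
    obtain ⟨n, hn⟩ := hFour hTrIdem D R htr
    obtain ⟨r, hr⟩ := hTrSum hOrb hTrIdem D ψ hψ R hA'
    exact hArith _ k n r hq4 hk hn hr

end Cfsg.Agent.H45.S43
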