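import Mathlib
import Cfsg.Agent.H45.S43Defs

/-!
# S2343 (team project, helper45): piece S43-MAT (proof by helper20, re-housed by helper45
because the trailing `example` of H20/S43Mat.lean does not compile).
-/

set_option autoImplicit false

namespace Cfsg.Agent.H45.S43

universe u

theorem mat_subrep_bot {G : Type*} [Group G] {V : Type*} [AddCommGroup V] [Module ℂ V]
    (ρ : Representation ℂ G V) : (⊥ : Subrepresentation ρ).toSubmodule = ⊥ := rfl

theorem mat_subrep_top {G : Type*} [Group G] {V : Type*} [AddCommGroup V] [Module ℂ V]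
    (ρ : Representation ℂ G V) : (⊤ : Subrepresentation ρ).toSubmodule = ⊤ := rfl

/-- an irreducible representation on which the group acts trivially has dimension at most one -/
theorem mat_finrank_le_one {G : Type*} [Group G] {V : Type*} [AddCommGroup V] [Module ℂ V]
    [FiniteDimensional ℂ V]
    (ρ : Representation ℂ G V) (hall : ∀ g, ρ g = 1) (hirr : ρ.IsIrreducible) :
    Module.finrank ℂ V ≤ 1 := by
  by_contra hlt
  push Not at hlt
  have hnt : Nontrivial V := Module.nontrivial_of_finrank_pos (R := ℂ) (by omega)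
  obtain ⟨v, hv⟩ := exists_ne (0 : V)
  have hL : ∀ (g : G) ⦃w : V⦄, w ∈ Submodule.span ℂ {v} → ρ g w ∈ Submodule.span ℂ {v} := by
    intro g w hw
    rw [hall g]; exact hw
  rcases hirr.eq_bot_or_eq_top (⟨Submodule.span ℂ {v}, hL⟩ : Subrepresentation ρ) with h | h
  · have h4 := congrArg Subrepresentation.toSubmodule h
    rw [mat_subrep_bot] at h4
    have h5 : Submodule.span ℂ {v} = ⊥ := h4
    rw [Submodule.span_singleton_eq_bot] at h5
    exact hv h5
  · have h4 := congrArg Subrepresentation.toSubmodule h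
    rw [mat_subrep_top] at h4
    have h5 : Submodule.span ℂ {v} = ⊤ := h4
    have h6 := finrank_span_singleton (K := ℂ) hv
    rw [h5, finrank_top] at h6
    omega

theorem mat' : Cfsg.Agent.H45.S43.StMat.{u} := by
  intro G _ _ k ρ hirr hk z hz
  refine ⟨((LinearMap.toMatrixAlgEquiv' (R := ℂ) (n := Fin k)).toAlgHom :
      ((Fin k → ℂ) →ₗ[ℂ] (Fin k → ℂ)) →* Matrix (Fin k) (Fin k) ℂ).comp ρ, ?_⟩
  intro h1
  have hρz : ρ z = 1 := by
    apply (LinearMap.toMatrixAlgEquiv' (R := ℂ) (n := Fin k)).injective
    rw [map_one]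
    exact h1
  have hker : MonoidHom.ker ρ = ⊤ := by
    rcases (MonoidHom.normal_ker ρ).eq_bot_or_eq_top with h | h
    · exfalso
      have h3 : z ∈ MonoidHom.ker ρ := MonoidHom.mem_ker.2 hρz
      rw [h] at h3
      exact hz (Subgroup.mem_bot.1 h3)
    · exact h
  have hall : ∀ g, ρ g = 1 := fun g => MonoidHom.mem_ker.1 (by rw [hker]; trivial)
  have h9 := mat_finrank_le_one ρ hall hirr
  rw [Module.finrank_fin_fun] at h9
  omega

end Cfsg.Agent.H45.S43
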