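import Cfsg.Agent.H45.S43Ree
import Cfsg.Agent.H45.S8Fin
import Cfsg.Agent.H22.S8OmA
import Cfsg.Agent.H14.S43Four
import Cfsg.Agent.H14.S43TrSum
import Cfsg.Agent.H14.S43Tri
import Cfsg.Agent.H19.S43CountA
import Cfsg.Agent.H19.S43Ex
import Cfsg.Agent.H20.S43Arith
import Cfsg.Agent.H45.S43Mat
import Cfsg.Agent.H65.S43HConj
import Cfsg.Agent.H65.S43J
import Cfsg.Agent.H87.S43Orb
import Cfsg.Agent.H87.S43TrIdem
/-!
Team project S2343 (helper45): all pieces plugged in.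
-/
set_option autoImplicit false
set_option synthInstance.maxHeartbeats 400000
open Cfsg Cfsg.Lie

namespace Cfsg.Agent.H45.S43

open Cfsg.Agent.H45.S8 Cfsg.Agent.H22 Cfsg.Agent.H22.GEx Cfsg.Agent.H22.Ree Cfsg.Agent.H7.RT

universe u

theorem s2343_final {K : Type u} [Field K] [Fintype K] [CharP K 3] {m : ℕ} (C : Ctx K (3 ^ m))
    (hK : Fintype.card K = 3 ^ (2 * m + 1)) (hm : 1 ≤ m) (hcan : CanonG2 K) (hW : WeylG2 K)
    (h1152 : ∀ a : ↥(twistedG2 K (3 ^ m)),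
      (a : GL chevG2.Idx K) ∈ chevG2.diagonalSubgroup K → a ≠ 1 → a * a = 1 →
      Nonempty (↥(Subgroup.centralizer {a}) ≃*
        Multiplicative (ZMod 2) × Matrix.ProjectiveSpecialLinearGroup (Fin 2) K) ∧
        ∀ S : Sylow 2 ↥(twistedG2 K (3 ^ m)), Nat.card S = 8 ∧ ∀ x ∈ S, x * x = 1)
    (h1157 : ∀ S : Sylow 2 ↥(twistedG2 K (3 ^ m)),
      Subgroup.centralizer ((S : Subgroup ↥(twistedG2 K (3 ^ m))) : Set ↥(twistedG2 K (3 ^ m))) = S ∧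
      Nat.card (Subgroup.normalizer
        ((S : Subgroup ↥(twistedG2 K (3 ^ m))) : Set ↥(twistedG2 K (3 ^ m)))) = 168)
    (h1156 : ∀ {p : ℕ} [Fact p.Prime], 3 < p → ∀ P : Sylow p ↥(twistedG2 K (3 ^ m)),
      IsCyclic (P : Subgroup ↥(twistedG2 K (3 ^ m))))
    (hSplit : HSplit ↥(twistedG2 K (3 ^ m)) m) (hQuarter : HQuarter ↥(twistedG2 K (3 ^ m)) m)
    (k : ℕ) (ρ : Representation ℂ ↥(twistedG2 K (3 ^ m)) (Fin k → ℂ)) (hirr : ρ.IsIrreducible)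
    (hk : 2 ≤ k) :
    (3 ^ (2 * m + 1)) ^ 2 - 3 ^ (2 * m + 1) + 1 ≤ k := by
  have hA := Cfsg.Agent.H22.S8.aInv C
  have hSyl := (h1152 (aEl C) hA.2.2 hA.1 hA.2.1).2
  have R8 := s8_facts_final C hK hm hcan hW h1152 h1157 h1156 hSplit hQuarter
  exact s2343_of_pieces C hK hm hcan hW
    (hH := (Cfsg.Agent.H65.S43.hconj C hK))
    (hJ := (Cfsg.Agent.H65.S43.j C R8 hSyl))
    (hOrb := Cfsg.Agent.H87.S43.orb)
    (hEx := Cfsg.Agent.H19.S43.ex)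
    (hCountA := Cfsg.Agent.H19.S43.countA)
    (hTri := Cfsg.Agent.H14.S43.tri)
    (hTrIdem := Cfsg.Agent.H87.S43.trIdem)
    (hFour := Cfsg.Agent.H14.S43.four)
    (hTrSum := Cfsg.Agent.H14.S43.trSum)
    (hArith := Cfsg.Agent.H20.S43.arith)
    (hMat := Cfsg.Agent.H45.S43.mat')
    k ρ hirr hk

end Cfsg.Agent.H45.S43
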