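import Cfsg.Agent.H45.S43Asm
import Cfsg.Agent.H45.S8Strong
import Cfsg.Agent.H22.ReeGen
import Cfsg.Agent.H22.ReeSimple
import Cfsg.Agent.H19.R2ConjR

/-!
# S2343 (team project, helper45): the Ree-type relations hold in `²G₂(q)`.
-/

set_option autoImplicit false
set_option synthInstance.maxHeartbeats 400000
open Cfsg Cfsg.Lie

namespace Cfsg.Agent.H45.S43

open Cfsg.Agent.H45.S8 Cfsg.Agent.H22 Cfsg.Agent.H22.GEx Cfsg.Agent.H22.Ree Cfsg.Agent.H7.RT

universe u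

section

variable {K : Type u} [Field K] [CharP K 3] {e : ℕ} (C : Ctx K e)

/-- the Ree word `R(t,u,v)` as an element of `²G₂` -/
def rG (t u v : K) : ↥(twistedG2 K e) :=
  ⟨(C.SP.R C.τ t u v : GL chevG2.Idx K), (C.reeEl (t, u, v)).2.2⟩

theorem rG_coe (t u v : K) :
    ((rG C t u v : ↥(twistedG2 K e)) : GL chevG2.Idx K) =
      (C.SP.R C.τ t u v : GL chevG2.Idx K) := rfl

/-- the torus element `h(τ s, s)` as an element of `²G₂` -/
def hG [Fintype K] {m : ℕ} (hK : Fintype.card K = 3 ^ (2 * m + 1)) (s : Kˣ) : ↥(twistedG2 K e) :=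
  ⟨(C.hh (C.τ (s : K)) (s : K) : GL chevG2.Idx K), C.hh_mem hK (s : K) s.ne_zero⟩

theorem hG_coe [Fintype K] {m : ℕ} (hK : Fintype.card K = 3 ^ (2 * m + 1)) (s : Kˣ) :
    ((hG C hK s : ↥(twistedG2 K e)) : GL chevG2.Idx K) =
      (C.hh (C.τ (s : K)) (s : K) : GL chevG2.Idx K) := rfl

/-- (HCONJ) conjugation of `R(0,u,v)` by the torus element `h(τ s, s)` -/
def StHConj [Fintype K] {m : ℕ} (hK : Fintype.card K = 3 ^ (2 * m + 1)) : Prop :=
  ∀ s : Kˣ, ∃ κ : Kˣ, ∀ u v : K,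
    hG C hK s * rG C 0 u v = rG C 0 ((κ : K) * u) ((s : K) * v) * hG C hK s

/-- (J) a four-group whose involutions are conjugate to `h(-1,-1)` -/
def StJ : Prop :=
  ∃ j1 j2 : ↥(twistedG2 K e), j1 * j2 = j2 * j1 ∧ (∃ g : ↥(twistedG2 K e), g * aEl C * g⁻¹ = j1) ∧
    (∃ g : ↥(twistedG2 K e), g * aEl C * g⁻¹ = j2) ∧
    (∃ g : ↥(twistedG2 K e), g * aEl C * g⁻¹ = j1 * j2)

theorem rG_mul (t u v t' u' v' : K) :
    rG C t u v * rG C t' u' v' =
      rG C (t + t') (u + u' - C.τ t' ^ 3 * t)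
        (v + v' - t' * u + C.τ t' ^ 3 * t * t' - C.τ t' ^ 3 * t ^ 2) := by
  apply Subtype.ext
  rw [Subgroup.coe_mul, rG_coe, rG_coe, rG_coe]
  exact congrArg (fun z : ↥(chevG2.group K) => (z : GL chevG2.Idx K)) (C.R_mul t u v t' u' v')

theorem rG_inj (t u v t' u' v' : K) (h : rG C t u v = rG C t' u' v') :
    t = t' ∧ u = u' ∧ v = v' := by
  have h1 : (C.SP.R C.τ t u v : GL chevG2.Idx K) = (C.SP.R C.τ t' u' v' : GL chevG2.Idx K) :=
    congrArg (fun z : ↥(twistedG2 K e) => (z : GL chevG2.Idx K)) h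
  have h2 : C.SP.R C.τ t u v = C.SP.R C.τ t' u' v' := Subtype.ext h1
  exact USys.R_inj (signs_pos K C.θ) C.τ C.E_inj _ _ _ _ _ _ h2

theorem rG_zero : rG C 0 0 0 = 1 := by
  apply Subtype.ext
  rw [rG_coe, C.R_zero]
  rfl

/-- the relations of the Borel subgroup -/
theorem exists_reeRel [Fintype K] {m : ℕ} (hK : Fintype.card K = 3 ^ (2 * m + 1))
    (hH : StHConj C hK) (hJ : StJ C) :
    ∃ D : ReeRel ↥(twistedG2 K e) K, D.A 0 1 ≠ 1 := by
  choose κ hκ using hH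
  obtain ⟨j1, j2, hcomm, h1, h2, h12⟩ := hJ
  have hτ0 : C.τ 0 = 0 := map_zero _
  refine ⟨{ A := fun u v => rG C 0 u v
            X := fun t => rG C t 0 0
            H := fun s => hG C hK s
            κ := κ
            i := aEl C
            j1 := j1
            j2 := j2
            A_add := ?_
            X_conj := ?_
            H_conj := fun s u v => hκ s u v
            i_conj := ?_
            i_sq := aEl_mul_self C
            j_comm := hcomm
            j1_conj := h1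
            j2_conj := h2
            j12_conj := h12 }, ?_⟩
  · intro u v u' v'
    show rG C 0 (u + u') (v + v') = rG C 0 u v * rG C 0 u' v'
    rw [rG_mul, hτ0]
    congr 1 <;> ring
  · intro t u v
    show rG C t 0 0 * rG C 0 u v = rG C 0 u (v + t * u) * rG C t 0 0
    rw [rG_mul, rG_mul, hτ0]
    congr 1 <;> ring
  · intro u v
    show aEl C * rG C 0 u v = rG C 0 u (-v) * aEl C
    apply Subtype.ext
    rw [Subgroup.coe_mul, Subgroup.coe_mul, aEl_coe, rG_coe, rG_coe]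
    have h := Cfsg.Agent.H19.R2.conjR C 0 u v
    rw [neg_zero] at h
    exact congrArg (fun z : ↥(chevG2.group K) => (z : GL chevG2.Idx K)) h
  · show rG C 0 0 1 ≠ 1
    intro h
    rw [← rG_zero C] at h
    exact one_ne_zero (rG_inj C _ _ _ _ _ _ h).2.2

end

/-- S2343 from the pieces -/
theorem s2343_of_pieces {K : Type u} [Field K] [Fintype K] [CharP K 3] {m : ℕ} (C : Ctx K (3 ^ m))
    (hK : Fintype.card K = 3 ^ (2 * m + 1)) (hm : 1 ≤ m) (hcan : CanonG2 K) (hW : WeylG2 K)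
    (hH : StHConj C hK) (hJ : StJ C)
    (hOrb : StOrb.{u, u}) (hEx : StEx.{u, u}) (hCountA : StCountA.{u, u})
    (hTri : StTri.{u, u}) (hTrIdem : StTrIdem) (hFour : StFour.{u, u}) (hTrSum : StTrSum.{u, u})
    (hArith : StArith) (hMat : StMat.{u})
    (k : ℕ) (ρ : Representation ℂ ↥(twistedG2 K (3 ^ m)) (Fin k → ℂ)) (hirr : ρ.IsIrreducible)
    (hk : 2 ≤ k) :
    (3 ^ (2 * m + 1)) ^ 2 - 3 ^ (2 * m + 1) + 1 ≤ k := by
  have hsimple : IsSimpleGroup ↥(twistedG2 K (3 ^ m)) := (C.simple hK hm hcan hW).1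
  obtain ⟨D, hD⟩ := exists_reeRel C hK hH hJ
  obtain ⟨R, hR⟩ := hMat ρ hirr hk (D.A 0 1) hD
  have hq4 : Fintype.card K % 4 = 3 := by
    rw [hK, pow_succ, pow_mul]; norm_num [Nat.mul_mod, Nat.pow_mod]
  have h := ree_abs hOrb hEx hCountA hTri hTrIdem hFour hTrSum hArith D hq4 R hR hk
  rw [hK] at h
  exact h

end Cfsg.Agent.H45.S43
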