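import Cfsg.Agent.H45.S7Defs
/-!
Team project S2357 (helper45): the assembly. All pieces enter as hypotheses.
-/
set_option autoImplicit false
set_option synthInstance.maxHeartbeats 400000
open Cfsg Cfsg.Lie

namespace Cfsg.Agent.H45.S7

open Cfsg.Agent.H45.S8 Cfsg.Agent.H22 Cfsg.Agent.H22.GEx Cfsg.Agent.H22.Ree Cfsg.Agent.H7.RT

universe u

theorem s2357_of_pieces {K : Type u} [Field K] [Fintype K] [CharP K 3] {m : ℕ} (C : Ctx K (3 ^ m))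
    (hK : Fintype.card K = 3 ^ (2 * m + 1)) (hm : 1 ≤ m) (hcan : CanonG2 K) (hW : WeylG2 K)
    (R : ReeS8 C)
    (hOrd : StOrdCount.{u}) (hInv2 : StInv2.{u}) (hSplitCnt : StSplitCnt.{u})
    (hQ1 : StQuartCnt1.{u}) (hQ2 : StQuartCnt2.{u}) (hHall : StHallCnt.{u}) (hTI : StTICnt.{u})
    (hSix : StSixCnt.{u}) (hC3 : StC3Cnt.{u}) (hAr7 : StAr7) (hInvCnt : StInvCnt.{u})
    (hHConj : StHConj.{u}) (hArCop : StArCop)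
    (hU39 : StU39 K m) (hN3 : StN3 K m) (hUA : StUA K m) (hUB : StUB K (3 ^ m))
    (hF3 : StF3 K (3 ^ m)) :
    Nat.card {g : ↥(twistedG2 K (3 ^ m)) // orderOf g = 2} = (3 ^ (2 * m + 1)) ^ 2 * ((3 ^ (2 * m + 1)) ^ 2 - 3 ^ (2 * m + 1) + 1) ∧
    Nat.card {g : ↥(twistedG2 K (3 ^ m)) // orderOf g = 3} = ((3 ^ (2 * m + 1)) ^ 2 - 1) * ((3 ^ (2 * m + 1)) ^ 3 + 1) ∧
    Nat.card {g : ↥(twistedG2 K (3 ^ m)) // orderOf g = 6} = (3 ^ (2 * m + 1)) ^ 2 * (3 ^ (2 * m + 1) - 1) * ((3 ^ (2 * m + 1)) ^ 3 + 1) ∧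
    Nat.card {g : ↥(twistedG2 K (3 ^ m)) // orderOf g = 9} = (3 ^ (2 * m + 1)) ^ 2 * (3 ^ (2 * m + 1) - 1) * ((3 ^ (2 * m + 1)) ^ 3 + 1) ∧
    (∀ i : ℕ, 2 < i → i ∣ 3 ^ (2 * m + 1) - 1 →
      2 * Nat.card {g : ↥(twistedG2 K (3 ^ m)) // orderOf g = i} = Nat.totient i * (3 ^ (2 * m + 1)) ^ 3 * ((3 ^ (2 * m + 1)) ^ 3 + 1)) ∧
    (∀ i : ℕ, 1 < i → i ∣ (3 ^ (2 * m + 1) + 1) / 4 →
      6 * Nat.card {g : ↥(twistedG2 K (3 ^ m)) // orderOf g = i} =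
          Nat.totient i * (3 ^ (2 * m + 1)) ^ 3 * (3 ^ (2 * m + 1) - 1) * ((3 ^ (2 * m + 1)) ^ 2 - 3 ^ (2 * m + 1) + 1) ∧
        2 * Nat.card {g : ↥(twistedG2 K (3 ^ m)) // orderOf g = 2 * i} =
          Nat.totient i * (3 ^ (2 * m + 1)) ^ 3 * (3 ^ (2 * m + 1) - 1) * ((3 ^ (2 * m + 1)) ^ 2 - 3 ^ (2 * m + 1) + 1)) ∧
    (∀ i : ℕ, 1 < i → i ∣ 3 ^ (2 * m + 1) - 3 ^ (m + 1) + 1 →
      6 * Nat.card {g : ↥(twistedG2 K (3 ^ m)) // orderOf g = i} =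
        Nat.totient i * (3 ^ (2 * m + 1)) ^ 3 * ((3 ^ (2 * m + 1)) ^ 2 - 1) * (3 ^ (2 * m + 1) + 3 ^ (m + 1) + 1)) ∧
    (∀ i : ℕ, 1 < i → i ∣ 3 ^ (2 * m + 1) + 3 ^ (m + 1) + 1 →
      6 * Nat.card {g : ↥(twistedG2 K (3 ^ m)) // orderOf g = i} =
        Nat.totient i * (3 ^ (2 * m + 1)) ^ 3 * ((3 ^ (2 * m + 1)) ^ 2 - 1) * (3 ^ (2 * m + 1) - 3 ^ (m + 1) + 1)) := by
  classical
  haveI : Fact (Nat.Prime 3) := ⟨Nat.prime_three⟩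
  obtain ⟨hab, hH7, hH8, hA4, hA6⟩ := hAr7 m hm
  obtain ⟨P₀, hP₀⟩ := C.exists_sylow_eq_U1 hK hcan hW
  have hTI3 := C.sylow3_TI hK hcan hW
  have hconja : ∀ z : ↥(twistedG2 K (3 ^ m)), z ≠ 1 → z * z = 1 →
      ∃ c : ↥(twistedG2 K (3 ^ m)), c * aEl C * c⁻¹ = z :=
    fun z hz1 hz2 => R.invConj (aEl C) z R.a_ne R.a_sq hz1 hz2
  have h2 := hInv2 ↥(twistedG2 K (3 ^ m)) m hm R.cardG hInvCnt (aEl C) R.a_ne R.a_sq hconja R.cardCa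
  refine ⟨h2, ?_, ?_, ?_, ?_, ?_, ?_, ?_⟩
  · -- order 3
    have h := hTI ↥(twistedG2 K (3 ^ m)) 3 hTI3 P₀ 1 le_rfl
    rw [pow_one, hP₀, hN3, hU39.1] at h
    rw [h, mul_comm]
    rfl
  · -- order 6
    have h6 := hSix ↥(twistedG2 K (3 ^ m)) (aEl C) R.a_ne R.a_sq hconja
    have h3 := hC3 ↥(twistedG2 K (3 ^ m)) (B1sub K (3 ^ m)) (U1sub K (3 ^ m)) (qq m - 1) hUB.1 hUB.2 hF3
      hUA (aEl C) R.a_ne R.a_sq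
    have hfix : Nat.card ↥(MulAction.fixedBy (↥(twistedG2 K (3 ^ m)) ⧸ B1sub K (3 ^ m)) (aEl C)) = qq m + 1 :=
      R.omFixA
    rw [h6, h2, h3, hfix]
    exact hA6
  · -- order 9
    have h := hTI ↥(twistedG2 K (3 ^ m)) 3 hTI3 P₀ 2 (by norm_num)
    have e9 : (3 : ℕ) ^ 2 = 9 := by norm_num
    rw [e9, hP₀, hN3, hU39.2] at h
    rw [h]
    exact hA4
  · intro i hi hdvd
    exact hSplitCnt ↥(twistedG2 K (3 ^ m)) m hm R.cardG R.split R.sylh hHConj hOrd hArCop (H1G K (3 ^ m))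
      R.h1.1 R.h1.2.1 R.normH i hi hdvd
  · intro i hi hdvd
    obtain ⟨A, hAc, hAn, -, hANC, -⟩ := R.exA2
    exact ⟨hQ1 ↥(twistedG2 K (3 ^ m)) m hm R.cardG R.quarter R.sylk hOrd hArCop A hAc hAn hANC i hi hdvd,
      hQ2 ↥(twistedG2 K (3 ^ m)) m hm R.cardG R.quarter R.sylk hOrd hArCop A hAc hAn hANC i hi hdvd⟩
  · intro i hi hdvd
    obtain ⟨A₃, A₄, ⟨h3c, h3n, h3N, h3s, -⟩, -⟩ := R.exA34
    have h := hHall ↥(twistedG2 K (3 ^ m)) A₃ h3c h3s (by rw [h3N, h3n])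
      (fun p _ hp P => R.sylM p (dvd_trans (h3n ▸ hp) ⟨_, hab.symm⟩) P) hOrd i hi
      (by rw [h3n]; exact hdvd)
    rw [h3n, R.cardG] at h
    exact hH7 _ _ h
  · intro i hi hdvd
    obtain ⟨A₃, A₄, -, ⟨h4c, h4n, h4N, h4s, -⟩⟩ := R.exA34
    have h := hHall ↥(twistedG2 K (3 ^ m)) A₄ h4c h4s (by rw [h4N, h4n])
      (fun p _ hp P => R.sylM p (dvd_trans (h4n ▸ hp) ⟨qq m - rr m + 1, by rw [← hab, mul_comm]⟩) P)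
      hOrd i hi (by rw [h4n]; exact hdvd)
    rw [h4n, R.cardG] at h
    exact hH8 _ _ h

end Cfsg.Agent.H45.S7
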