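import Cfsg.Agent.H45.S8Strong
/-!
Team project S2357 (helper45): the numbers of elements of each order in the small Ree group
`²G₂(q)`, `q = 3^(2m+1) ≥ 27`. Sequel of S1158: built on `Cfsg.Agent.H45.S8.ReeS8`.

This file: exact statements (as `Prop`-valued definitions) of the pieces.
-/
set_option autoImplicit false
set_option synthInstance.maxHeartbeats 400000
open Cfsg Cfsg.Lie

namespace Cfsg.Agent.H45.S7

open Cfsg.Agent.H45.S8 Cfsg.Agent.H22 Cfsg.Agent.H22.GEx Cfsg.Agent.H22.Ree Cfsg.Agent.H7.RT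

universe u

/-! ### abstract pieces (Mathlib + `H45.S8Defs0` only) -/

/-- (ORDCLS) the number of elements of order `i` conjugate into a subgroup `C` that is the
centraliser of each of its elements of order `i` -/
def StOrdCount : Prop :=
  ∀ (G : Type u) [Group G] [Finite G] (C : Subgroup G) (i : ℕ),
    (∀ x ∈ C, orderOf x = i → Subgroup.centralizer ({x} : Set G) = C) →
    Nat.card {g : G // orderOf g = i ∧ ∃ c : G, c * g * c⁻¹ ∈ C} *
        Nat.card ↥(Subgroup.normalizer (C : Set G)) =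
      Nat.card G * Nat.card {x : G // x ∈ C ∧ orderOf x = i}

/-- (INV2) the number of involutions -/
def StInv2 : Prop :=
  ∀ (G : Type u) [Group G] [Finite G] (m : ℕ), 1 ≤ m → Nat.card G = GG m → StInvCnt.{u} →
    ∀ a : G, a ≠ 1 → a * a = 1 → (∀ z : G, z ≠ 1 → z * z = 1 → ∃ c : G, c * a * c⁻¹ = z) →
    Nat.card ↥(Subgroup.centralizer ({a} : Set G)) = qq m * (qq m ^ 2 - 1) →
    Nat.card {g : G // orderOf g = 2} = qq m ^ 2 * (qq m ^ 2 - qq m + 1)

/-- (SPLITCNT) the elements of order `i > 2` dividing `q - 1` -/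
def StSplitCnt : Prop :=
  ∀ (G : Type u) [Group G] [Finite G] (m : ℕ), 1 ≤ m → Nat.card G = GG m → HSplit G m →
    HSyl G ((qq m - 1) / 2) → StHConj.{u} → StOrdCount.{u} → StArCop →
    ∀ Hd : Subgroup G, IsCyclic ↥Hd → Nat.card ↥Hd = qq m - 1 →
      Nat.card ↥(Subgroup.normalizer (Hd : Set G)) = 2 * (qq m - 1) →
      ∀ i : ℕ, 2 < i → i ∣ qq m - 1 →
        2 * Nat.card {g : G // orderOf g = i} = Nat.totient i * qq m ^ 3 * (qq m ^ 3 + 1)

/-- (QUARTCNT1) the elements of order `i > 1` dividing `k = (q+1)/4` -/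
def StQuartCnt1 : Prop :=
  ∀ (G : Type u) [Group G] [Finite G] (m : ℕ), 1 ≤ m → Nat.card G = GG m → HQuarter G m →
    HSyl G (kk m) → StOrdCount.{u} → StArCop →
    ∀ A : Subgroup G, IsCyclic ↥A → Nat.card ↥A = kk m →
      Nat.card ↥(Subgroup.normalizer
        ((Subgroup.centralizer (A : Set G) : Subgroup G) : Set G)) = 6 * (qq m + 1) →
      ∀ i : ℕ, 1 < i → i ∣ kk m →
        6 * Nat.card {g : G // orderOf g = i} =
          Nat.totient i * qq m ^ 3 * (qq m - 1) * (qq m ^ 2 - qq m + 1)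

/-- (QUARTCNT2) the elements of order `2i`, `i > 1` dividing `k = (q+1)/4` -/
def StQuartCnt2 : Prop :=
  ∀ (G : Type u) [Group G] [Finite G] (m : ℕ), 1 ≤ m → Nat.card G = GG m → HQuarter G m →
    HSyl G (kk m) → StOrdCount.{u} → StArCop →
    ∀ A : Subgroup G, IsCyclic ↥A → Nat.card ↥A = kk m →
      Nat.card ↥(Subgroup.normalizer
        ((Subgroup.centralizer (A : Set G) : Subgroup G) : Set G)) = 6 * (qq m + 1) →
      ∀ i : ℕ, 1 < i → i ∣ kk m →
        2 * Nat.card {g : G // orderOf g = 2 * i} =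
          Nat.totient i * qq m ^ 3 * (qq m - 1) * (qq m ^ 2 - qq m + 1)

/-- (HALLCNT) the elements of order `i > 1` dividing `|A|`, `A` cyclic, self-centralising, with
`|N(A)| = 6|A|` and cyclic Sylow subgroups for the primes dividing `|A|` -/
def StHallCnt : Prop :=
  ∀ (G : Type u) [Group G] [Finite G] (A : Subgroup G), IsCyclic ↥A → SelfC A →
    Nat.card ↥(Subgroup.normalizer (A : Set G)) = 6 * Nat.card ↥A →
    (∀ (p : ℕ) [Fact p.Prime], p ∣ Nat.card ↥A → ∀ P : Sylow p G, IsCyclic ↥(P : Subgroup G)) →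
    StOrdCount.{u} →
    ∀ i : ℕ, 1 < i → i ∣ Nat.card ↥A →
      6 * Nat.card ↥A * Nat.card {g : G // orderOf g = i} = Nat.card G * Nat.totient i

/-- (TICNT) counting the elements of order `p^j` when the Sylow `p`-subgroups intersect
trivially -/
def StTICnt : Prop :=
  ∀ (G : Type u) [Group G] [Finite G] (p : ℕ) [Fact p.Prime],
    (∀ P Q : Sylow p G, P ≠ Q → (P : Subgroup G) ⊓ (Q : Subgroup G) = ⊥) →
    ∀ (P : Sylow p G) (j : ℕ), 1 ≤ j →
      Nat.card {g : G // orderOf g = p ^ j} =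
        Nat.card (Sylow p G) * Nat.card {u : G // u ∈ (P : Subgroup G) ∧ orderOf u = p ^ j}

/-- (SIXCNT) the elements of order 6 are the products of an involution and a commuting element
of order 3 -/
def StSixCnt : Prop :=
  ∀ (G : Type u) [Group G] [Finite G] (a : G), a ≠ 1 → a * a = 1 →
    (∀ z : G, z ≠ 1 → z * z = 1 → ∃ c : G, c * a * c⁻¹ = z) →
    Nat.card {g : G // orderOf g = 6} =
      Nat.card {g : G // orderOf g = 2} * Nat.card {w : G // orderOf w = 3 ∧ w * a = a * w}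

/-- (C3CNT) the elements of order 3 commuting with an involution `a`, sorted by their unique
fixed point on `G/B` -/
def StC3Cnt : Prop :=
  ∀ (G : Type u) [Group G] [Finite G] (B U : Subgroup G) (n : ℕ),
    (∀ w ∈ B, orderOf w = 3 → w ∈ U) → U ≤ B →
    (∀ w : G, orderOf w = 3 → ∃! x : G ⧸ B, w • x = x) →
    (∀ a' ∈ B, a' ≠ 1 → a' * a' = 1 →
      Nat.card {u : G // u ∈ U ∧ orderOf u = 3 ∧ u * a' = a' * u} = n) →
    ∀ a : G, a ≠ 1 → a * a = 1 →
      Nat.card {w : G // orderOf w = 3 ∧ w * a = a * w} =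
        Nat.card ↥(MulAction.fixedBy (G ⧸ B) a) * n

/-- (AR7) arithmetic -/
def StAr7 : Prop :=
  ∀ m : ℕ, 1 ≤ m →
    (qq m - rr m + 1) * (qq m + rr m + 1) = MM m ∧
    (∀ N φ : ℕ, 6 * (qq m - rr m + 1) * N = GG m * φ →
      6 * N = φ * qq m ^ 3 * (qq m ^ 2 - 1) * (qq m + rr m + 1)) ∧
    (∀ N φ : ℕ, 6 * (qq m + rr m + 1) * N = GG m * φ →
      6 * N = φ * qq m ^ 3 * (qq m ^ 2 - 1) * (qq m - rr m + 1)) ∧
    (qq m ^ 3 + 1) * (qq m ^ 3 - qq m ^ 2) = qq m ^ 2 * (qq m - 1) * (qq m ^ 3 + 1) ∧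
    qq m ^ 2 * (qq m ^ 2 - qq m + 1) * ((qq m + 1) * (qq m - 1)) =
      qq m ^ 2 * (qq m - 1) * (qq m ^ 3 + 1)

/-! ### pieces about the Ree group (helper22's library) -/

/-- (U39) the numbers of elements of order 3 and 9 in `U¹` -/
def StU39 (K : Type*) [Field K] (m : ℕ) : Prop :=
  Nat.card {u : ↥(twistedG2 K (3 ^ m)) // u ∈ U1sub K (3 ^ m) ∧ orderOf u = 3} = qq m ^ 2 - 1 ∧
  Nat.card {u : ↥(twistedG2 K (3 ^ m)) // u ∈ U1sub K (3 ^ m) ∧ orderOf u = 9} =
    qq m ^ 3 - qq m ^ 2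

/-- (N3) the number of Sylow 3-subgroups is `q³ + 1` -/
def StN3 (K : Type*) [Field K] (m : ℕ) : Prop :=
  Nat.card (Sylow 3 ↥(twistedG2 K (3 ^ m))) = qq m ^ 3 + 1

/-- (UA) for an involution `a'` of `B¹`, exactly `q - 1` elements of order 3 of `U¹` commute
with `a'` -/
def StUA (K : Type*) [Field K] (m : ℕ) : Prop :=
  ∀ a' ∈ B1sub K (3 ^ m), a' ≠ 1 → a' * a' = 1 →
    Nat.card {u : ↥(twistedG2 K (3 ^ m)) // u ∈ U1sub K (3 ^ m) ∧ orderOf u = 3 ∧
      u * a' = a' * u} = qq m - 1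

/-- (UB) the elements of order 3 of `B¹` lie in `U¹ ≤ B¹` -/
def StUB (K : Type*) [Field K] (e : ℕ) : Prop :=
  (∀ w ∈ B1sub K e, orderOf w = 3 → w ∈ U1sub K e) ∧ U1sub K e ≤ B1sub K e

/-- (F3) an element of order 3 fixes exactly one point of `Ω = G/B¹` -/
def StF3 (K : Type*) [Field K] (e : ℕ) : Prop :=
  ∀ w : ↥(twistedG2 K e), orderOf w = 3 → ∃! x : Om K e, w • x = x

end Cfsg.Agent.H45.S7
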