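import Cfsg.Agent.H45.S7Defs
import Cfsg.Agent.H22.S8OmFixA
import Cfsg.Agent.H22.S8OmA
import Cfsg.Agent.H22.ReeCube
import Cfsg.Agent.H12.S7N3

/-!
# S2357 (team project, helper45): piece S7-UA — an involution of `B¹` commutes with exactly
`q - 1` elements of order 3 of `U¹`.
-/

set_option autoImplicit false
set_option synthInstance.maxHeartbeats 400000
open Cfsg Cfsg.Lie
open scoped Pointwise

namespace Cfsg.Agent.H45.S7UA

open Cfsg.Agent.H45.S8 Cfsg.Agent.H45.S7 Cfsg.Agent.H22 Cfsg.Agent.H22.GEx Cfsg.Agent.H22.Ree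
  Cfsg.Agent.H7.RT Cfsg.Agent.H22.S8

universe u

/-- a Sylow 2-subgroup of order 2 through a given involution -/
theorem syl_of_inv {G : Type*} [Group G] [Finite G] (h4 : ¬ 4 ∣ Nat.card G) (x : G)
    (hx : x ≠ 1) (hx2 : x * x = 1) :
    ∃ P : Sylow 2 G, x ∈ P ∧ ∀ y ∈ P, y = 1 ∨ y = x := by
  have : Fact (Nat.Prime 2) := ⟨Nat.prime_two⟩
  have hox : orderOf x = 2 := orderOf_eq_prime (by rw [pow_two]; exact hx2) hx
  have hpg : IsPGroup 2 (Subgroup.zpowers x) := by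
    apply IsPGroup.of_card (n := 1)
    rw [Nat.card_zpowers, hox]; rfl
  obtain ⟨P, hP⟩ := hpg.exists_le_sylow
  refine ⟨P, hP (Subgroup.mem_zpowers x), ?_⟩
  have hcard : Nat.card P = 2 := by
    obtain ⟨n, hn⟩ := (IsPGroup.iff_card.mp P.isPGroup')
    have hdvd : Nat.card P ∣ Nat.card G := Subgroup.card_subgroup_dvd_card _
    have h2 : 2 ∣ Nat.card P := by
      have := Subgroup.card_dvd_of_le hP
      rwa [Nat.card_zpowers, hox] at this
    rcases n with _ | _ | n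
    · rw [hn] at h2; norm_num at h2
    · rw [hn]; rfl
    · exfalso; apply h4
      refine dvd_trans ?_ hdvd
      rw [hn]; exact ⟨2 ^ n, by ring⟩
  have heq : Subgroup.zpowers x = P := by
    apply Subgroup.eq_of_le_of_card_ge hP
    rw [hcard, Nat.card_zpowers, hox]
  intro y hy
  have hy' : y ∈ Subgroup.zpowers x := by rw [heq]; exact hy
  obtain ⟨k, rfl⟩ := Subgroup.mem_zpowers_iff.mp hy'
  have h1 : x ^ k = x ^ (k % (orderOf x : ℤ)) := (zpow_mod_orderOf x k).symm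
  rw [hox] at h1
  rcases Int.emod_two_eq_zero_or_one k with hk | hk
  · left; rw [h1]; simp [hk]
  · right; rw [h1]; simp [hk]

/-- involutions are conjugate when `4 ∤ |G|` -/
theorem inv_conj_of_not_four {G : Type*} [Group G] [Finite G] (h4 : ¬ 4 ∣ Nat.card G) (a b : G)
    (ha : a ≠ 1) (ha2 : a * a = 1) (hb : b ≠ 1) (hb2 : b * b = 1) :
    ∃ g : G, g * a * g⁻¹ = b := by
  have : Fact (Nat.Prime 2) := ⟨Nat.prime_two⟩
  obtain ⟨P, -, hP⟩ := syl_of_inv h4 a ha ha2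
  obtain ⟨Q, hbQ, -⟩ := syl_of_inv h4 b hb hb2
  obtain ⟨g, hg⟩ := MulAction.exists_smul_eq G P Q
  rw [← hg] at hbQ
  have h1 : b ∈ MulAut.conj g • (P : Subgroup G) := by
    rw [← Sylow.pointwise_smul_def]; exact hbQ
  rw [Subgroup.mem_pointwise_smul_iff_inv_smul_mem] at h1
  have h2 : g⁻¹ * b * g ∈ (P : Subgroup G) := by
    simpa [MulAut.smul_def] using h1
  rcases hP _ h2 with h3 | h3
  · exfalso; apply hb
    calc b = g * (g⁻¹ * b * g) * g⁻¹ := by group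
      _ = 1 := by rw [h3]; group
  · refine ⟨g, ?_⟩
    rw [← h3]; group

/-- `R(0,x,0)` has order 3 iff `x ≠ 0` -/
theorem orderOf_rEl {K : Type u} [Field K] [CharP K 3] {e : ℕ} (C : Ctx K e) (x : K) :
    orderOf (rEl C x) = 3 ↔ x ≠ 0 := by
  have h : orderOf (rEl C x) = orderOf (C.reeEl (0, x, 0)) := by
    rw [← Subgroup.orderOf_coe (rEl C x), ← Subgroup.orderOf_coe (C.reeEl (0, x, 0))]
    rfl
  rw [h, C.orderOf_reeEl]
  simp

/-- (UA) -/
theorem ua {K : Type u} [Field K] [Fintype K] [CharP K 3] {m : ℕ} (C : Ctx K (3 ^ m))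
    (hK : Fintype.card K = 3 ^ (2 * m + 1)) (hcan : CanonG2 K) : StUA K m := by
  classical
  intro a' ha'B ha'1 ha'2
  have haB : aEl C ∈ B1sub K (3 ^ m) := by
    rw [Subgroup.mem_subgroupOf]; exact ⟨H_le_B (aEl_mem_H C), (aEl C).2⟩
  have h4 : ¬ 4 ∣ Nat.card ↥(B1sub K (3 ^ m)) := by
    rw [Cfsg.Agent.H22.S8.card_B1sub C hK hcan]
    have hq : 3 ^ (2 * m + 1) % 4 = 3 := by
      rw [pow_succ, pow_mul]; norm_num [Nat.mul_mod, Nat.pow_mod]
    generalize 3 ^ (2 * m + 1) = q at hq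
    obtain ⟨k, rfl⟩ : ∃ k, q = 4 * k + 3 := ⟨q / 4, by omega⟩
    rw [Nat.dvd_iff_mod_eq_zero]
    have e1 : 4 * k + 3 - 1 = 4 * k + 2 := by omega
    rw [e1]
    simp [Nat.mul_mod, Nat.pow_mod, Nat.add_mod]
  obtain ⟨hA1, hA2, -⟩ := Cfsg.Agent.H22.S8.aInv C
  obtain ⟨⟨g, hgB⟩, hg⟩ := inv_conj_of_not_four h4 (⟨aEl C, haB⟩ : ↥(B1sub K (3 ^ m)))
    ⟨a', ha'B⟩ (fun h => hA1 (congrArg Subtype.val h)) (Subtype.ext hA2)
    (fun h => ha'1 (congrArg Subtype.val h)) (Subtype.ext ha'2)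
  have hg' : g * aEl C * g⁻¹ = a' := congrArg Subtype.val hg
  have hgBor : (g : GL chevG2.Idx K) ∈ chevG2.borelSubgroup K :=
    (Subgroup.mem_subgroupOf.mp hgB).1
  have hconjU : ∀ u : ↥(twistedG2 K (3 ^ m)), u ∈ U1sub K (3 ^ m) →
      g * u * g⁻¹ ∈ U1sub K (3 ^ m) := by
    intro u hu
    rw [mem_U1sub] at hu ⊢
    have h1 := C.B_conj_U (g : GL chevG2.Idx K) (u : GL chevG2.Idx K) hgBor hu
    rw [Subgroup.coe_mul, Subgroup.coe_mul, Subgroup.coe_inv]; exact h1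
  have hconjU' : ∀ u : ↥(twistedG2 K (3 ^ m)), u ∈ U1sub K (3 ^ m) →
      g⁻¹ * u * g ∈ U1sub K (3 ^ m) := by
    intro u hu
    rw [mem_U1sub] at hu ⊢
    have h1 := C.B_conj_U ((g : GL chevG2.Idx K)⁻¹) (u : GL chevG2.Idx K) (inv_mem hgBor) hu
    rw [inv_inv] at h1
    rw [Subgroup.coe_mul, Subgroup.coe_mul, Subgroup.coe_inv]; exact h1
  have hord : ∀ u : ↥(twistedG2 K (3 ^ m)), orderOf (g * u * g⁻¹) = orderOf u := by
    intro u
    exact (MulAut.conj g).orderOf_eq u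
  obtain ⟨f, hf⟩ : ∃ f : {x : K // ¬ (x = 0)} → {u : ↥(twistedG2 K (3 ^ m)) //
      u ∈ U1sub K (3 ^ m) ∧ orderOf u = 3 ∧ u * a' = a' * u},
      ∀ x, ((f x : {u : ↥(twistedG2 K (3 ^ m)) //
        u ∈ U1sub K (3 ^ m) ∧ orderOf u = 3 ∧ u * a' = a' * u}) : ↥(twistedG2 K (3 ^ m))) =
        g * rEl C x.1 * g⁻¹ := by
    refine ⟨fun x => ⟨g * rEl C x.1 * g⁻¹, hconjU _ ((mem_U1sub _).mpr (rEl_mem_U C x.1)), ?_, ?_⟩,
      fun x => rfl⟩
    · rw [hord]; exact (orderOf_rEl C x.1).mpr x.2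
    · rw [← hg']
      calc g * rEl C x.1 * g⁻¹ * (g * aEl C * g⁻¹) = g * (rEl C x.1 * aEl C) * g⁻¹ := by group
        _ = g * (aEl C * rEl C x.1) * g⁻¹ := by rw [← aEl_comm_rEl]
        _ = g * aEl C * g⁻¹ * (g * rEl C x.1 * g⁻¹) := by group
  have hbij : Function.Bijective f := by
    constructor
    · intro x y hxy
      have h1 := congrArg Subtype.val hxy
      rw [hf, hf] at h1
      have h2 : rEl C x.1 = rEl C y.1 := by
        calc rEl C x.1 = g⁻¹ * (g * rEl C x.1 * g⁻¹) * g := by group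
          _ = g⁻¹ * (g * rEl C y.1 * g⁻¹) * g := by rw [h1]
          _ = rEl C y.1 := by group
      exact Subtype.ext (rEl_inj C h2)
    · rintro ⟨w, hwU, hw3, hwc⟩
      have hvU := hconjU' w hwU
      have hcomm : aEl C * (g⁻¹ * w * g) = (g⁻¹ * w * g) * aEl C := by
        have e1 : aEl C = g⁻¹ * a' * g := by rw [← hg']; group
        rw [e1]
        calc g⁻¹ * a' * g * (g⁻¹ * w * g) = g⁻¹ * (a' * w) * g := by group
          _ = g⁻¹ * (w * a') * g := by rw [hwc]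
          _ = g⁻¹ * w * g * (g⁻¹ * a' * g) := by group
      have hcomm' : (C.hh (-1) (-1) : GL chevG2.Idx K) *
          ((g⁻¹ * w * g : ↥(twistedG2 K (3 ^ m))) : GL chevG2.Idx K) =
          ((g⁻¹ * w * g : ↥(twistedG2 K (3 ^ m))) : GL chevG2.Idx K) *
            (C.hh (-1) (-1) : GL chevG2.Idx K) :=
        congrArg (fun z : ↥(twistedG2 K (3 ^ m)) => (z : GL chevG2.Idx K)) hcomm
      obtain ⟨x, hx⟩ := Cfsg.Agent.H19.R2.ufix C (Cfsg.Agent.H19.R2.conjR C)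
        ((g⁻¹ * w * g : ↥(twistedG2 K (3 ^ m))) : GL chevG2.Idx K)
        ⟨(mem_U1sub _).mp hvU, (g⁻¹ * w * g).2⟩ hcomm'
      have hvr : g⁻¹ * w * g = rEl C x := Subtype.ext hx
      have hx0 : ¬ (x = 0) := by
        apply (orderOf_rEl C x).mp
        rw [← hvr]
        have h5 := hord (g⁻¹ * w * g)
        have e2 : g * (g⁻¹ * w * g) * g⁻¹ = w := by group
        rw [e2] at h5
        rw [← h5, hw3]
      refine ⟨⟨x, hx0⟩, Subtype.ext ?_⟩
      rw [hf]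
      show g * rEl C x * g⁻¹ = w
      rw [← hvr]; group
  rw [← Nat.card_congr (Equiv.ofBijective f hbij), Nat.card_eq_fintype_card,
    Fintype.card_subtype_compl, Fintype.card_subtype_eq, hK]
  rfl

example {K : Type u} [Field K] (m : ℕ) : StUA K m =
    (∀ a' ∈ B1sub K (3 ^ m), a' ≠ 1 → a' * a' = 1 →
    Nat.card {u : ↥(twistedG2 K (3 ^ m)) // u ∈ U1sub K (3 ^ m) ∧ orderOf u = 3 ∧
      u * a' = a' * u} = qq m - 1) :=
  rfl

end Cfsg.Agent.H45.S7UA
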