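import Mathlib
import Cfsg.Agent.H45.UBlock
import Cfsg.Agent.H12.PsuFAB
import Cfsg.Agent.Lib.Helper96.PsuFC
import Cfsg.Agent.H98.UIso
import Cfsg.Agent.H11.UGen
import Cfsg.Agent.H51.UTwoGen
import Cfsg.Agent.H17.SUGen
import Cfsg.Agent.H7.SUCenter

set_option autoImplicit false
set_option linter.unusedSectionVars false

/-! Helper lemmas (helper45): assembly of the two-generation of `PSU_n(q)`. -/

namespace Cfsg.Agent.H45.U

open Matrix

variable {F : Type*} [Field F] [Fintype F] {q : ℕ}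

theorem exists_S0 (hF : Fintype.card F = q ^ 2) {m d : Type*} [Fintype m] [DecidableEq m]
    [Fintype d] [DecidableEq d] (c₀ : Matrix m d F) :
    ∃ S₀ : Matrix m m F, S₀ + ct (H17.frobHom hF) S₀ + c₀ * ct (H17.frobHom hF) c₀ = 0 := by
  have hc : (-1 : F) ^ q = -1 := by
    have h := map_neg (H17.frobHom hF) (1 : F)
    rw [map_one] at h
    exact h
  obtain ⟨τ, hτ⟩ := H17.exists_trace_neg hF (-1) hc
  refine ⟨(-τ) • (c₀ * ct (H17.frobHom hF) c₀), ?_⟩
  rw [ct_smul, ct_mul, ct_ct _ (H17.frobHom_invol hF)]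
  have h1 : (H17.frobHom hF) (-τ) = -(τ ^ q) := by rw [map_neg]; rfl
  rw [h1]
  have h2 : (-τ) + (-(τ ^ q)) + 1 = 0 := by linear_combination -hτ
  calc (-τ) • (c₀ * ct (H17.frobHom hF) c₀) + (-(τ ^ q)) • (c₀ * ct (H17.frobHom hF) c₀) +
        c₀ * ct (H17.frobHom hF) c₀
      = ((-τ) + (-(τ ^ q)) + 1) • (c₀ * ct (H17.frobHom hF) c₀) := by
        rw [add_smul, add_smul, one_smul]
    _ = 0 := by rw [h2, zero_smul]

theorem c1_col_ne {k r : ℕ} (B : Matrix (Fin k) (Fin k) F)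
    (hNZ : ∀ lam : F, lam ^ (q + 1) = 1 → ∀ x : Fin k → F, x ≠ 0 → (B ^ q) *ᵥ x ≠ lam • x)
    (dt : Fin r → F) (hdt : ∀ l, dt l ^ (q + 1) = 1) (c₀ : Matrix (Fin k) (Fin r) F) (l : Fin r)
    (hl : ∃ i, c₀ i l ≠ 0) :
    ∃ i, (B ^ q * c₀ * (Matrix.diagonal (fun l => (dt l)⁻¹)) ^ q - c₀) i l ≠ 0 := by
  by_contra hcon
  have hcon' : ∀ i, (B ^ q * c₀ * (Matrix.diagonal (fun l => (dt l)⁻¹)) ^ q - c₀) i l = 0 := by
    intro i
    by_contra h
    exact hcon ⟨i, h⟩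
  have hdt0 : dt l ≠ 0 := by
    intro h
    have := hdt l
    rw [h, zero_pow (by omega)] at this
    exact zero_ne_one this
  apply hNZ (dt l ^ q) (by rw [← pow_mul, mul_comm, pow_mul, hdt, one_pow]) (fun i => c₀ i l)
    (by
      intro h
      obtain ⟨i, hi⟩ := hl
      exact hi (congrFun h i))
  funext i
  have h1 := hcon' i
  rw [Matrix.sub_apply, Matrix.diagonal_pow, Matrix.mul_diagonal, sub_eq_zero] at h1
  have h2 : (B ^ q *ᵥ fun i => c₀ i l) i = (B ^ q * c₀) i l := rfl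
  rw [h2, Pi.smul_apply, smul_eq_mul, ← h1]
  simp only [Pi.pow_apply, inv_pow]
  field_simp

theorem pack_AB (hF : Fintype.card F = q ^ 2) (k r : ℕ) (hr : 0 < r)
    (hgen : ∀ K : Subgroup ↥(UH (H17.frobHom hF) (Fin k) (Fin r)),
      Qin (H17.frobHom hF) K → Qlow (H17.frobHom hF) K → K = ⊤)
    (B B' G G' : Matrix (Fin k) (Fin k) F) (hB : B * B' = 1) (hB' : B' * B = 1)
    (hG : G * G' = 1) (hG' : G' * G = 1) (hGB : G * B = ct (H17.frobHom hF) (B ^ q) * G)
    (dt : Fin r → F) (hdt : ∀ l, dt l ^ (q + 1) = 1) (hprod : B.det * ∏ l, dt l = B.det ^ q)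
    (c₀ : Matrix (Fin k) (Fin r) F)
    (hXP : ∀ X : AddSubgroup (Matrix (Fin k) (Fin r) F),
      (∀ c ∈ X, B * c * Matrix.diagonal (fun l => (dt l)⁻¹) ∈ X) →
      B ^ q * c₀ * (Matrix.diagonal (fun l => (dt l)⁻¹)) ^ q - c₀ ∈ X → X = ⊤) :
    ∃ a b : ↥(UH (H17.frobHom hF) (Fin k) (Fin r)), Subgroup.closure {a, b} = ⊤ := by
  classical
  have hσ : ∀ a, (H17.frobHom hF) ((H17.frobHom hF) a) = a := H17.frobHom_invol hF
  have hσq : ∀ a : F, (H17.frobHom hF) a = a ^ q := fun a => rfl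
  have hdt0 : ∀ l, dt l ≠ 0 := by
    intro l h
    have := hdt l
    rw [h, zero_pow (by omega)] at this
    exact zero_ne_one this
  have hdtσ : ∀ l, (H17.frobHom hF) ((dt l)⁻¹) = dt l := by
    intro l
    rw [map_inv₀, hσq]
    have h1 : dt l ^ q * dt l = 1 := by rw [← pow_succ]; exact hdt l
    exact inv_eq_of_mul_eq_one_right h1
  have ht : Matrix.diagonal dt * Matrix.diagonal (fun l => (dt l)⁻¹) = 1 := by
    rw [Matrix.diagonal_mul_diagonal, ← Matrix.diagonal_one]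
    congr 1
    funext l
    exact mul_inv_cancel₀ (hdt0 l)
  have ht' : Matrix.diagonal (fun l => (dt l)⁻¹) * Matrix.diagonal dt = 1 := by
    rw [Matrix.diagonal_mul_diagonal, ← Matrix.diagonal_one]
    congr 1
    funext l
    exact inv_mul_cancel₀ (hdt0 l)
  have htu : ct (H17.frobHom hF) (Matrix.diagonal (fun l => (dt l)⁻¹)) = Matrix.diagonal dt := by
    ext i j
    rw [ct_apply]
    by_cases h : i = j
    · subst h
      rw [Matrix.diagonal_apply_eq, Matrix.diagonal_apply_eq, hdtσ]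
    · rw [Matrix.diagonal_apply_ne _ (Ne.symm h), Matrix.diagonal_apply_ne _ h, map_zero]
  have hn₀ := nU_pres (H17.frobHom hF) hσ G G' (1 : Matrix (Fin r) (Fin r) F) hG'
    (by rw [ct_one, Matrix.one_mul])
  have hnorm := det_norm_of_pres (H17.frobHom hF) _ hn₀
  obtain ⟨D₀, hD₀⟩ : ∃ D₀, D₀ = (nU (H17.frobHom hF) G G' (1 : Matrix (Fin r) (Fin r) F)).det :=
    ⟨_, rfl⟩
  rw [← hD₀] at hnorm
  have hD₀ne : D₀ ≠ 0 := by
    intro h
    rw [h, mul_zero] at hnorm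
    exact zero_ne_one hnorm
  have hD₀σ : (H17.frobHom hF) D₀ = D₀⁻¹ := eq_inv_of_mul_eq_one_left hnorm
  let l₀ : Fin r := ⟨0, hr⟩
  let νd : Fin r → F := Function.update (fun _ => 1) l₀ D₀⁻¹
  let νd' : Fin r → F := Function.update (fun _ => 1) l₀ D₀
  have hνν' : ∀ l, νd l * νd' l = 1 := by
    intro l
    by_cases h : l = l₀
    · subst h
      simp [νd, νd', hD₀ne]
    · simp [νd, νd', Function.update_of_ne h]
  have hν : Matrix.diagonal νd * Matrix.diagonal νd' = 1 := by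
    rw [Matrix.diagonal_mul_diagonal, ← Matrix.diagonal_one]
    congr 1
    funext l
    exact hνν' l
  have hν' : Matrix.diagonal νd' * Matrix.diagonal νd = 1 := by
    rw [Matrix.diagonal_mul_diagonal, ← Matrix.diagonal_one]
    congr 1
    funext l
    rw [mul_comm]
    exact hνν' l
  have hνu : ct (H17.frobHom hF) (Matrix.diagonal νd') = Matrix.diagonal νd := by
    ext i j
    rw [ct_apply]
    by_cases h : i = j
    · subst h
      rw [Matrix.diagonal_apply_eq, Matrix.diagonal_apply_eq]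
      by_cases h' : i = l₀
      · subst h'
        simp [νd, νd', hD₀σ]
      · simp [νd, νd', Function.update_of_ne h']
    · rw [Matrix.diagonal_apply_ne _ (Ne.symm h), Matrix.diagonal_apply_ne _ h, map_zero]
  have hdetν : (Matrix.diagonal νd).det = D₀⁻¹ := by
    rw [Matrix.det_diagonal]
    show ∏ i, Function.update (fun _ => (1 : F)) l₀ D₀⁻¹ i = D₀⁻¹
    rw [Finset.prod_update_of_mem (Finset.mem_univ l₀)]
    simp
  have hdetn : (nU (H17.frobHom hF) G G' (Matrix.diagonal νd)).det = 1 := by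
    rw [det_nU, hdetν]
    rw [det_nU, Matrix.det_one, mul_one] at hD₀
    calc (H17.frobHom hF) G'.det * G.det * D₀⁻¹ * (-1) ^ Fintype.card (Fin k)
        = ((H17.frobHom hF) G'.det * G.det * (-1) ^ Fintype.card (Fin k)) * D₀⁻¹ := by ring
      _ = 1 := by rw [← hD₀, mul_inv_cancel₀ hD₀ne]
  have hdetBB' : B.det * B'.det = 1 := by rw [← Matrix.det_mul, hB, Matrix.det_one]
  have hdeta : (dU (H17.frobHom hF) B B' (Matrix.diagonal dt)).det = 1 := by
    rw [det_dU, Matrix.det_diagonal, hσq]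
    calc B.det * B'.det ^ q * ∏ i, dt i = (B.det * ∏ i, dt i) * B'.det ^ q := by ring
      _ = 1 := by rw [hprod, ← mul_pow, hdetBB', one_pow]
  have htν : Matrix.diagonal dt ^ q * Matrix.diagonal νd * Matrix.diagonal dt =
      Matrix.diagonal νd := by
    rw [Matrix.diagonal_pow, Matrix.diagonal_mul_diagonal, Matrix.diagonal_mul_diagonal]
    congr 1
    funext l
    have h1 : dt l ^ q * dt l = 1 := by rw [← pow_succ]; exact hdt l
    simp only [Pi.pow_apply]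
    calc dt l ^ q * νd l * dt l = νd l * (dt l ^ q * dt l) := by ring
      _ = νd l := by rw [h1, mul_one]
  obtain ⟨S₀, hS₀⟩ := exists_S0 hF c₀
  have hsub : ∀ c : F, (H17.frobHom hF) c = -c → ∃ l : F, l - (H17.frobHom hF) l = c :=
    fun c hc => H17.exists_sub_frob_eq hF c hc
  have : Nonempty (Fin r) := ⟨l₀⟩
  exact Cfsg.Agent.H51.U.two_gen_AB (H17.frobHom hF) hσ hsub hgen q B B' G G' (Matrix.diagonal dt)
    (Matrix.diagonal (fun l => (dt l)⁻¹)) (Matrix.diagonal νd) (Matrix.diagonal νd') c₀ S₀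
    hB hB' hG hG' ht ht' htu hν hν' hνu hGB htν hdeta hdetn hS₀ hXP

theorem two_gen_A (hF : Fintype.card F = q ^ 2) (k : ℕ) (hk : 1 ≤ k) (hkq : 2 ≤ k ∨ 3 ≤ q) :
    ∃ a b : ↥(UH (H17.frobHom hF) (Fin k) (Fin 1)), Subgroup.closure {a, b} = ⊤ := by
  classical
  have h32 : ¬ (k + (k + 1) = 3 ∧ q = 2) := by
    rintro ⟨h1, h2⟩
    rcases hkq with h | h <;> omega
  have hgen : ∀ K : Subgroup ↥(UH (H17.frobHom hF) (Fin k) (Fin 1)),
      Qin (H17.frobHom hF) K → Qlow (H17.frobHom hF) K → K = ⊤ :=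
    fun K hU hL => Cfsg.Agent.H11.U.uh_gen hF k 1 hk (by omega) h32 K hU hL
  obtain ⟨B, B', G, G', hB, hB', hG, hG', hGB, hNZ, hXP1, -⟩ := Cfsg.Agent.H12.Psu.field_AB hF k hk
  have hdetBB' : B.det * B'.det = 1 := by rw [← Matrix.det_mul, hB, Matrix.det_one]
  have hN : B.det ≠ 0 := by
    intro h
    rw [h, zero_mul] at hdetBB'
    exact zero_ne_one hdetBB'
  have hNqq : (B.det ^ q) ^ q = B.det := H17.frob_frob hF B.det
  let dt : Fin 1 → F := fun _ => B.det ^ q * B.det⁻¹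
  have hdt : ∀ l, dt l ^ (q + 1) = 1 := by
    intro l
    show (B.det ^ q * B.det⁻¹) ^ (q + 1) = 1
    have h1 : (B.det ^ q) ^ (q + 1) = B.det * B.det ^ q := by rw [pow_succ, hNqq]
    rw [mul_pow, h1, inv_pow, pow_succ]
    field_simp
  have hprod : B.det * ∏ l, dt l = B.det ^ q := by
    rw [Fin.prod_univ_one]
    show B.det * (B.det ^ q * B.det⁻¹) = B.det ^ q
    field_simp
  let c₀ : Matrix (Fin k) (Fin 1) F := fun i _ => if i = ⟨0, hk⟩ then 1 else 0
  apply pack_AB hF k 1 one_pos hgen B B' G G' hB hB' hG hG' hGB dt hdt hprod c₀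
  intro X hX hc1
  refine hXP1 hkq X ?_ _ hc1 ?_
  · intro c hc
    have h1 := hX c hc
    have h2 : B * c * Matrix.diagonal (fun l => (dt l)⁻¹) =
        (B.det * (B.det ^ q)⁻¹) • (B * c) := by
      ext i j
      rw [Matrix.mul_diagonal, Matrix.smul_apply, smul_eq_mul]
      show (B * c) i j * (B.det ^ q * B.det⁻¹)⁻¹ = _
      rw [mul_inv, inv_inv]
      ring
    rw [h2] at h1
    exact h1
  · obtain ⟨i, hi⟩ := c1_col_ne B (hNZ hkq) dt hdt c₀ 0 ⟨⟨0, hk⟩, by simp [c₀]⟩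
    intro h
    rw [h] at hi
    exact hi rfl

theorem two_gen_B (hF : Fintype.card F = q ^ 2) (k : ℕ) (hk : 2 ≤ k) :
    ∃ a b : ↥(UH (H17.frobHom hF) (Fin k) (Fin 2)), Subgroup.closure {a, b} = ⊤ := by
  classical
  have hgen : ∀ K : Subgroup ↥(UH (H17.frobHom hF) (Fin k) (Fin 2)),
      Qin (H17.frobHom hF) K → Qlow (H17.frobHom hF) K → K = ⊤ :=
    fun K hU hL => Cfsg.Agent.H11.U.uh_gen hF k 2 (by omega) (by omega) (by omega) K hU hL
  obtain ⟨B, B', G, G', hB, hB', hG, hG', hGB, hNZ, -, hXP2⟩ := Cfsg.Agent.H12.Psu.field_AB hF k (by omega)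
  have hdetBB' : B.det * B'.det = 1 := by rw [← Matrix.det_mul, hB, Matrix.det_one]
  have hN : B.det ≠ 0 := by
    intro h
    rw [h, zero_mul] at hdetBB'
    exact zero_ne_one hdetBB'
  have hNqq : (B.det ^ q) ^ q = B.det := H17.frob_frob hF B.det
  have hγ : (B.det ^ q * B.det⁻¹) ^ (q + 1) = 1 := by
    have h1 : (B.det ^ q) ^ (q + 1) = B.det * B.det ^ q := by rw [pow_succ, hNqq]
    rw [mul_pow, h1, inv_pow, pow_succ]
    field_simp
  obtain ⟨δ₁, δ₂, h1, h2, h12, hne⟩ : ∃ δ₁ δ₂ : F, δ₁ ^ (q + 1) = 1 ∧ δ₂ ^ (q + 1) = 1 ∧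
      δ₁ * δ₂ = B.det ^ q * B.det⁻¹ ∧ δ₁ ≠ δ₂ := by
    by_cases hγ1 : B.det ^ q * B.det⁻¹ = 1
    · obtain ⟨ε, hε, hε2⟩ := H7.exists_norm_one_sq_ne_one hF
      have hε0 : ε ≠ 0 := by
        intro h
        rw [h, zero_pow (by omega)] at hε
        exact zero_ne_one hε
      refine ⟨ε, ε⁻¹, hε, by rw [inv_pow, hε, inv_one], by rw [hγ1, mul_inv_cancel₀ hε0], ?_⟩
      intro h
      apply hε2
      calc ε ^ 2 = ε * ε⁻¹ := by rw [← h]; ring
        _ = 1 := mul_inv_cancel₀ hε0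
    · exact ⟨B.det ^ q * B.det⁻¹, 1, hγ, one_pow _, mul_one _, hγ1⟩
  let dt : Fin 2 → F := ![δ₁, δ₂]
  have hdt : ∀ l, dt l ^ (q + 1) = 1 := by
    intro l
    fin_cases l
    · exact h1
    · exact h2
  have hprod : B.det * ∏ l, dt l = B.det ^ q := by
    rw [Fin.prod_univ_two]
    show B.det * (δ₁ * δ₂) = B.det ^ q
    rw [h12]
    field_simp
  have hd1 : δ₁ ≠ 0 := by
    intro h
    rw [h, zero_pow (by omega)] at h1
    exact zero_ne_one h1
  have hd2 : δ₂ ≠ 0 := by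
    intro h
    rw [h, zero_pow (by omega)] at h2
    exact zero_ne_one h2
  let c₀ : Matrix (Fin k) (Fin 2) F := fun i _ => if i = ⟨0, by omega⟩ then 1 else 0
  apply pack_AB hF k 2 two_pos hgen B B' G G' hB hB' hG hG' hGB dt hdt hprod c₀
  intro X hX hc1
  refine hXP2 hk (fun l => (dt l)⁻¹) ?_ ?_ X hX _ hc1 ?_
  · intro l
    rw [inv_pow, hdt l, inv_one]
  · show δ₁⁻¹ ≠ δ₂⁻¹
    intro h
    exact hne (inv_injective h)
  · intro l
    exact c1_col_ne B (hNZ (Or.inl hk)) dt hdt c₀ l ⟨⟨0, by omega⟩, by simp [c₀]⟩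

theorem two_gen_C4 (hF : Fintype.card F = q ^ 2) :
    ∃ a b : ↥(UH (H17.frobHom hF) (Fin 2) (Fin 0)), Subgroup.closure {a, b} = ⊤ := by
  classical
  have hσ : ∀ a, (H17.frobHom hF) ((H17.frobHom hF) a) = a := H17.frobHom_invol hF
  have hσq : ∀ a : F, (H17.frobHom hF) a = a ^ q := fun a => rfl
  have hgen : ∀ K : Subgroup ↥(UH (H17.frobHom hF) (Fin 2) (Fin 0)),
      Qin (H17.frobHom hF) K → Qlow (H17.frobHom hF) K → K = ⊤ :=
    fun K hU hL => Cfsg.Agent.H11.U.uh_gen hF 2 0 (by omega) (by omega) (by omega) K hU hL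
  obtain ⟨A, A', G, G', S₀, hA, hA', hG, hG', hGA, hdA, hdG, hS₀, hZP⟩ := Cfsg.Agent.Lib.Helper96.Psu.field_C hF
  have hdetAA' : A.det * A'.det = 1 := by rw [← Matrix.det_mul, hA, Matrix.det_one]
  have hdetG'G : G'.det * G.det = 1 := by rw [← Matrix.det_mul, hG', Matrix.det_one]
  refine Cfsg.Agent.H51.U.two_gen_C (H17.frobHom hF) hσ hgen q A A' G G' S₀ hA hA' hG hG' hGA ?_ ?_ hS₀ hZP
  · rw [det_dU, Matrix.det_one, mul_one, hσq]
    calc A.det * A'.det ^ q = A.det ^ q * A'.det ^ q := by rw [hdA]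
      _ = 1 := by rw [← mul_pow, hdetAA', one_pow]
  · rw [det_nU, Matrix.det_one, mul_one, hσq, Fintype.card_fin]
    calc G'.det ^ q * G.det * (-1) ^ 2 = G'.det ^ q * G.det ^ q := by rw [hdG]; ring
      _ = 1 := by rw [← mul_pow, hdetG'G, one_pow]

theorem psu_of_uh (hF : Fintype.card F = q ^ 2) (k r n : ℕ) (hn : n = k + (k + r))
    (h : ∃ a b : ↥(UH (H17.frobHom hF) (Fin k) (Fin r)), Subgroup.closure {a, b} = ⊤) :
    ∃ a b : Cfsg.PSU n F q, Subgroup.closure ({a, b} : Set (Cfsg.PSU n F q)) = ⊤ := by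
  obtain ⟨a, b, hab⟩ := h
  obtain ⟨Φ, -, -, -⟩ := Cfsg.Agent.H98.U.uh_iso hF k r n hn
  have h0 : Subgroup.closure ({Φ a, Φ b} : Set ↥(Cfsg.SU n F q)) = ⊤ := by
    have h1 : Subgroup.map Φ.toMonoidHom (Subgroup.closure {a, b}) =
        Subgroup.closure {Φ a, Φ b} := by
      rw [MonoidHom.map_closure, Set.image_pair]
      rfl
    rw [← h1, hab]
    exact Subgroup.map_top_of_surjective _ Φ.surjective
  refine ⟨QuotientGroup.mk (Φ a), QuotientGroup.mk (Φ b), ?_⟩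
  have h1 : Subgroup.map (QuotientGroup.mk' (Subgroup.center ↥(Cfsg.SU n F q)))
      (Subgroup.closure {Φ a, Φ b}) =
      Subgroup.closure {QuotientGroup.mk (Φ a), QuotientGroup.mk (Φ b)} := by
    rw [MonoidHom.map_closure, Set.image_pair]
    rfl
  rw [← h1, h0]
  exact Subgroup.map_top_of_surjective _ (QuotientGroup.mk'_surjective _)

theorem psu_two_gen (hF : Fintype.card F = q ^ 2) (n : ℕ) (hn : 3 ≤ n) (h32 : n = 3 → q ≠ 2) :
    ∃ a b : Cfsg.PSU n F q, Subgroup.closure ({a, b} : Set (Cfsg.PSU n F q)) = ⊤ := by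
  have hq2 := H17.two_le_of_card_sq hF
  rcases Nat.even_or_odd n with he | ho
  · by_cases h4 : n = 4
    · subst h4
      exact psu_of_uh hF 2 0 4 rfl (two_gen_C4 hF)
    · obtain ⟨j, hj⟩ := he
      exact psu_of_uh hF (j - 1) 2 n (by omega) (two_gen_B hF (j - 1) (by omega))
  · obtain ⟨j, hj⟩ := ho
    have hkq : 2 ≤ j ∨ 3 ≤ q := by
      by_cases h : 2 ≤ j
      · exact Or.inl h
      · right
        have h3 : n = 3 := by omega
        have := h32 h3
        omega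
    exact psu_of_uh hF j 1 n (by omega) (two_gen_A hF j (by omega) hkq)

end Cfsg.Agent.H45.U
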